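import Mathlib
import Cfsg.Agent.Lib.StdV.Basic
import Cfsg.Agent.Lib.PGroup.Basic
import Cfsg.Agent.Lib.Invol.Dihedral

/-! Standard subgroups of type `O'N`, `He`, `Suz`: images of `C_J(z)` centralised by a group of order four. -/

set_option autoImplicit false
set_option linter.unusedSectionVars false

namespace H36.SV

open Subgroup H69 H36.SW
open H48.SM (Pf)
open scoped commutatorElement

variable {X : Type} [Group X] [Finite X] {F : Dy X}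

namespace A2

theorem core_le {G : Type*} [Group G] [Finite G] (H : Subgroup G) (h : H.index ≤ 4) :
    H.normalCore.index ≤ 24 := by
  have d : H.normalCore.index ∣ H.index.factorial := by
    rw [normalCore_eq_ker, index_ker, index_eq_card, ← Nat.card_perm]
    exact card_subgroup_dvd_card _
  exact (Nat.le_of_dvd (Nat.factorial_pos _) d).trans (Nat.factorial_le h)

theorem card_le_of {D Z : Subgroup X} {B : Subgroup D} (h : ∀ x ∈ B, (x : X) ∈ Z) :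
    Nat.card B ≤ Nat.card Z := by
  rw [← card_map_subtype]
  exact card_le_of_le fun _ ⟨x, hx, e⟩ => e ▸ h x hx

theorem mode1 (H : Fx F) (m : F.Mode1) (ρ : F.D →* X) (P : Subgroup X) (pP : IsPGroup 2 P)
    (ab : ∀ a ∈ P, ∀ a' ∈ P, a * a' = a' * a) (c4 : 4 ≤ Nat.card P)
    (cP : ∀ a ∈ P, ∀ d, a * ρ d = ρ d * a) (no : ∀ d : F.D, F.Ty F.z d → ρ d ≠ 1) : False := by
  have lemN : ∀ x : F.D, (x : X) ∈ F.T → (∀ d, ρ ⁅x, d⁆ = 1) →
      (∀ τ ∈ F.T, ⁅(x : X), τ⁆ ∈ zpowers F.z) → (x : X) ∈ zpowers F.z := fun x hx h1 h2 => by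
    have h3 : ∀ τ ∈ F.T, τ * x * τ⁻¹ = x ∨ τ * x * τ⁻¹ = x * F.z := fun τ hτ => by
      rcases (mem_zp H.z2).1 (h2 τ hτ) with e | e
      · exact Or.inl (cj_fix.2 (commutatorElement_eq_one_iff_mul_comm.1 e).symm)
      · right
        calc τ * x * τ⁻¹ = ⁅(x : X), τ⁆⁻¹ * x := by rw [commutatorElement_def]; group
          _ = _ := by rw [e, inv_eq_of_mul_eq_one_left H.z2, H.cT x hx.1]
    rcases m.2.2 x hx h3 with e | e | ⟨d, hd, e⟩
    · exact (mem_zp H.z2).2 (Or.inl e)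
    · exact (mem_zp H.z2).2 (Or.inr e)
    · exact absurd (h1 ⟨d, hd⟩) (no _ e)
  have ha : F.T ⊓ ρ.ker.map F.D.subtype ≤ zpowers F.z := by
    by_contra hn
    obtain ⟨_, ⟨hx, x, hk, rfl⟩, hz, -, h⟩ := H5.exists_step_of_le H.pT (zpowers F.z) inf_le_left
      (le_normalizer_inf le_normalizer (H.TD.trans (normal_iff_le_normalizer_map.1 inferInstance))) hn
    exact hz (lemN x hx (fun d => by
      rw [map_commutatorElement, show ρ x = 1 from hk, commutatorElement_one_left]) h)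
  have hb : ∀ x ∈ P.comap ρ ⊓ F.T.subgroupOf F.D, (x : X) ∈ zpowers F.z := fun x hx => by
    have h1 : ∀ d, ρ ⁅x, d⁆ = 1 := fun d => by
      rw [map_commutatorElement]; exact commutatorElement_eq_one_iff_mul_comm.2 (cP _ hx.1 d)
    exact lemN x hx.2 h1 fun τ hτ => ha ⟨commutator_le_of_le le_rfl le_rfl
      (commutator_mem_commutator hx.2 hτ), ⁅x, ⟨τ, H.TD hτ⟩⁆, h1 _, rfl⟩
  obtain ⟨U, hU⟩ : ∃ U, U = (F.T.subgroupOf F.D).map ρ := ⟨_, rfl⟩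
  have cU : ∀ a ∈ U, ∀ b ∈ P, a * b = b * a := fun a ha b hb => by
    rw [hU] at ha
    obtain ⟨d, -, rfl⟩ := ha
    exact (cP b hb d).symm
  have nU : U ≤ 𝐍(P) := le_normalizer_of_le_centralizer fun a ha b hb => (cU a ha b hb).symm
  have e1 := H1.card_map_mul_card_inf_ker ρ (F.T.subgroupOf F.D)
  have e2 := H1.card_map_mul_card_inf_ker ρ (P.comap ρ ⊓ F.T.subgroupOf F.D)
  have e3 := H1.card_sup_mul_card_inf_of_le_normalizer nU
  have e4 := card_le_of hb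
  have e5 : (P.comap ρ ⊓ F.T.subgroupOf F.D).map ρ = U ⊓ P := by
    rw [hU]
    exact le_antisymm (fun _ ⟨x, hx, e⟩ => e ▸ ⟨⟨x, hx.2, rfl⟩, hx.1⟩)
      fun _ ⟨⟨x, hx, e⟩, hy⟩ => ⟨x, ⟨show ρ x ∈ P from e ▸ hy, hx⟩, e⟩
  have e6 : ρ.ker ⊓ (P.comap ρ ⊓ F.T.subgroupOf F.D) = ρ.ker ⊓ F.T.subgroupOf F.D := by
    rw [← inf_assoc, inf_eq_left.2 (ker_le_comap ρ P)]
  rw [e5, e6] at e2
  rw [← e2, card_zp H.z2 H.z1] at e4
  rw [← hU, card_subgroupOf H.TD] at e1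
  have pU : IsPGroup 2 U := hU ▸ (isPGroup_subgroupOf H.pT _).map ρ
  obtain ⟨j, -, hj⟩ := H.cjTs (isPGroup_sup_of_le_normalizer_right pU pP nU)
  have e7 : (U ⊔ P) ^ᶜ j = F.Ts := eq_of_le_of_card_ge hj (by
    rw [card_cj, H.cardTs, ← e1]
    generalize Nat.card (U ⊔ P : Subgroup X) = a at *
    generalize Nat.card (U ⊓ P : Subgroup X) = i at *
    generalize Nat.card (ρ.ker ⊓ F.T.subgroupOf F.D : Subgroup F.D) = k at *
    have h1 : a * (i * k) ≤ a * 2 := Nat.mul_le_mul_left _ e4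
    have h2 : Nat.card U * 4 * k ≤ Nat.card U * Nat.card P * k :=
      Nat.mul_le_mul_right _ (Nat.mul_le_mul_left _ c4)
    rw [← mul_assoc, e3] at h1
    nlinarith)
  have e8 : P ^ᶜ j ≤ zpowers F.z := fun _ ⟨a, ha, e⟩ => e ▸ (mem_zp H.z2).2 (H.ctr _
    (hj (cj_mem j (mem_sup_right ha))) fun τ hτ => by
      obtain ⟨y, hy, rfl⟩ := mem_cj'.1 (e7.ge hτ.1)
      obtain ⟨u, hu, b, hb, rfl⟩ := (mem_sup_comm cU).1 hy
      exact cjc (Commute.mul_right (cU u hu a ha).symm (ab a ha b hb)))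
  have := card_le_of_le e8
  rw [card_cj, card_zp H.z2 H.z1] at this
  omega

theorem perfM (H : Fx F) {N : Subgroup X} (hN : N ≤ F.M) (h : F.M ≤ N ⊔ zpowers F.f) : F.M ≤ N := by
  have c : ∀ a ∈ N, ∀ b ∈ zpowers F.f, a * b = b * a := fun a ha b hb => H.Z0c hb (hN ha)
  refine H.pfM.1.trans (commutator_le.2 fun a ha b hb => ?_)
  obtain ⟨n, hn, u, hu, rfl⟩ := (mem_sup_comm c).1 (h ha)
  obtain ⟨n', hn', v, hv, rfl⟩ := (mem_sup_comm c).1 (h hb)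
  rw [comm_cen (hN hn) hb (fun m hm => H.Z0c hu hm) fun m hm => H.Z0c hv hm]
  exact commutator_le_of_le le_rfl le_rfl (commutator_mem_commutator hn hn')

theorem mode2 (H : Fx F) (m : F.Mode2) (ρ : F.D →* X) (P : Subgroup X) (pP : IsPGroup 2 P)
    (c4 : 4 ≤ Nat.card P) (cP : ∀ a ∈ P, ∀ d, a * ρ d = ρ d * a)
    (no : ∀ d : F.D, F.Ty F.z d → ρ d ≠ 1) : False := by
  obtain ⟨ff, zb, φψ, n3, c96, sM, ⟨y0, hy0, -, y0f, -⟩, -⟩ := m
  have z4 : Nat.card (zpowers F.f) ≤ 4 := by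
    rw [Nat.card_zpowers]
    refine Nat.le_of_dvd (by norm_num) (orderOf_dvd_of_pow_eq_one ?_)
    rw [show 4 = 2 * 2 from rfl, pow_mul, pow_two F.f, ff, pow_two, H.z2]
  have hk : ∀ x : F.D, ρ x = 1 → (x : X) ∈ F.M → (x : X) ∈ zpowers F.f := by
    rcases sM (ρ.ker.map F.D.subtype ⊓ F.M) inf_le_right (le_normalizer_inf
      (H.MD.trans (normal_iff_le_normalizer_map.1 inferInstance)) le_normalizer) with h | h
    · exact fun x h1 h2 => h ⟨⟨x, h1, rfl⟩, h2⟩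
    · obtain ⟨⟨x, h1, e⟩, -⟩ := perfM H inf_le_right h H.qM
      exact absurd h1 (no x (by rw [show (x : X) = F.q from e]; exact Dy.Ty.base))
  have k4 : ∀ B ≤ F.M, Nat.card B = Nat.card ((B.subgroupOf F.D).map ρ) *
      Nat.card (ρ.ker ⊓ B.subgroupOf F.D : Subgroup F.D) ∧
      Nat.card (ρ.ker ⊓ B.subgroupOf F.D : Subgroup F.D) ≤ 4 := fun B hB =>
    ⟨by rw [H1.card_map_mul_card_inf_ker, card_subgroupOf (hB.trans H.MD)],
      (card_le_of (B := ρ.ker ⊓ B.subgroupOf F.D) fun x hx => hk x hx.1 (hB hx.2)).trans z4⟩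
  obtain ⟨i, hi, i2⟩ := H9.exists_involution_of_isPGroup pP fun e => by
    rw [e, card_bot] at c4; omega
  have i1 := H9.ne_one_of_orderOf_two i2
  replace i2 := H9.mul_self_of_orderOf_two i2
  by_cases iJ : i ∈ F.J
  swap
  · rcases H.out iJ i2 with ⟨j, -, e⟩ | ⟨-, e⟩
    · have h1 := H.ext3 ((isPGroup_subgroupOf (H.pT.to_inf_left (K := F.M)) F.D).map ρ)
        (isConj_iff.2 ⟨j, e⟩) fun _ ⟨d, _, e⟩ => e ▸ (cP i hi d).symm
      obtain ⟨h2, h3⟩ := k4 _ (inf_le_right : F.T ⊓ F.M ≤ F.M)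
      have := Nat.mul_le_mul h1 h3
      omega
    · exact e φψ
  obtain ⟨j, hj, e⟩ : F.Zc i :=
    ((H.inv iJ i2).resolve_left i1).elim id fun h => h.zc zb
  obtain ⟨Y, hY⟩ : ∃ Y, Y = (F.M.subgroupOf F.D).map ρ := ⟨_, rfl⟩
  have mY : ∀ (x : X) (hx : x ∈ F.M), ρ ⟨x, H.MD hx⟩ ∈ Y := fun x hx => hY ▸ ⟨_, hx, rfl⟩
  have pY : Y ≤ ⁅Y, Y⁆ := by
    have : ⁅F.M, F.M⁆ ≤ (⁅Y, Y⁆.comap ρ).map F.D.subtype := commutator_le.2 fun a ha b hb =>
      ⟨⁅(⟨a, H.MD ha⟩ : F.D), ⟨b, H.MD hb⟩⁆, by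
        rw [SetLike.mem_coe, mem_comap, map_commutatorElement]
        exact commutator_mem_commutator (mY a ha) (mY b hb), rfl⟩
    intro y hy
    rw [hY] at hy
    obtain ⟨x, hx, rfl⟩ := hy
    obtain ⟨k, hk, e⟩ := this (H.pfM.1 hx)
    exact (Subtype.ext e : k = x) ▸ hk
  have cY : ∀ a ∈ P, ∀ y ∈ Y, a * y = y * a := fun a ha y hy => by
    rw [hY] at hy
    obtain ⟨x, -, rfl⟩ := hy
    exact cP a ha x
  have yD : Y ^ᶜ j⁻¹ ≤ F.D := fun _ ⟨y, hy, e'⟩ => e' ▸ Dy.mem_D.2 ⟨H.cjJ (H.perf_le pY hy) _, by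
    have := cjc (j := j⁻¹) (cY i hi y hy).symm
    rwa [← e, show j⁻¹ * (j * F.z * j⁻¹) * j⁻¹⁻¹ = F.z by group] at this⟩
  have yM : Y ^ᶜ j⁻¹ ≤ F.M := (cj_mono _ pY).trans (by
    rw [cj_commutator]; exact (commutator_mono yD yD).trans H.DD)
  obtain ⟨h2, h3⟩ := k4 _ (le_refl F.M)
  rw [← hY] at h2
  have pos : 0 < Nat.card Y := Nat.card_pos
  have My : F.M ≤ Y ^ᶜ j⁻¹ := by
    have i1 := ((Y ^ᶜ j⁻¹).subgroupOf F.M).card_mul_index
    rw [card_subgroupOf yM, card_cj, h2] at i1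
    have i2 := core_le ((Y ^ᶜ j⁻¹).subgroupOf F.M) ((Nat.eq_of_mul_eq_mul_left pos i1).le.trans h3)
    rcases sM (((Y ^ᶜ j⁻¹).subgroupOf F.M).normalCore.map F.M.subtype) (map_subtype_le _)
      (normal_iff_le_normalizer_map.1 inferInstance) with h | h
    · have i3 := ((Y ^ᶜ j⁻¹).subgroupOf F.M).normalCore.card_mul_index
      have i4 := (card_le_of_le h).trans z4
      rw [card_map_subtype] at i4
      have := Nat.mul_le_mul i4 i2
      omega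
    · exact (perfM H (map_subtype_le _) h).trans fun _ ⟨x, hx, e⟩ =>
        e ▸ (normalCore_le ((Y ^ᶜ j⁻¹).subgroupOf F.M) hx :)
  have cZ : ∀ a, (∀ y ∈ Y, a * y = y * a) → j⁻¹ * a * j⁻¹⁻¹ ∈ zpowers F.f := fun a ha =>
    H.cM _ fun x hx => by
      obtain ⟨y, hy, rfl⟩ := mem_cj'.1 (My hx)
      exact cjc (ha y hy)
  have eP : P ^ᶜ j⁻¹ = zpowers F.f := eq_of_le_of_card_ge (fun _ ⟨a, ha, e⟩ => e ▸ cZ a (cY a ha))
    (by rw [card_cj]; exact z4.trans c4)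
  have fP : ρ ⟨F.f, H.MD H.fM⟩ ∈ P := cj_mem_iff.1 (eP.ge (cZ _ fun y hy => by
    rw [hY] at hy
    obtain ⟨x, hx, rfl⟩ := hy
    rw [← map_mul, ← map_mul]
    exact congrArg ρ (Subtype.ext (H.fc x hx).symm)))
  have z1 : ρ ⟨F.z, H.MD H.zM⟩ = 1 := by
    have h4 : ρ (⟨y0, hy0⟩ * ⟨F.f, H.MD H.fM⟩ * (⟨y0, hy0⟩ : F.D)⁻¹) = ρ (⟨F.f, H.MD H.fM⟩ : F.D)⁻¹ :=
      congrArg ρ (Subtype.ext y0f)
    rw [map_mul, map_mul, map_inv, map_inv, ← cP _ fP, mul_inv_cancel_right] at h4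
    rw [← mul_eq_one_iff_eq_inv.2 h4, ← map_mul]
    exact congrArg ρ (Subtype.ext ff.symm)
  have k1 : Nat.card (ρ.ker ⊓ F.M.subgroupOf F.D : Subgroup F.D) ≤ 1 := by
    have := card_le_of_le My
    rw [card_cj, h2] at this
    exact Nat.le_of_mul_le_mul_left (by rwa [mul_one]) pos
  have : (⟨F.z, H.MD H.zM⟩ : F.D) ∈ ρ.ker ⊓ F.M.subgroupOf F.D := ⟨z1, H.zM⟩
  rw [eq_bot_of_card_le _ k1, mem_bot] at this
  exact H.z1 (congrArg Subtype.val this)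

end A2

theorem Fx.cen4 (H : Fx F) : F.Cen4 := fun ρ P pP ab c4 cP => by
  by_contra hn
  have no : ∀ d : F.D, F.Ty F.z d → ρ d ≠ 1 := fun d h1 h2 => hn ⟨d, h1, h2⟩
  exact H.mode.elim (fun m => A2.mode1 H m ρ P pP ab c4 cP no) fun m => A2.mode2 H m ρ P pP c4 cP no

end H36.SV
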