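import Mathlib
import Cfsg.Agent.Lib.StdV.XG
import Cfsg.Agent.Lib.StdV.ONB
import Cfsg.Agent.Lib.ON.RecD

/-! Automorphisms of `4.L₃(4)` are induced in the centraliser of an involution of `ON.2`. -/

set_option autoImplicit false
set_option maxRecDepth 100000

namespace H36.SV

open Subgroup H54 Function
open H92.SW (cs mem_cs cs_le lw_nil lw_one lw_cons lw_rep)
open H87.ONR (PA xA actA yA mxA RA candC)

theorem ON.aon_ev {w : List ℕ} (h : H87.Mx.wf1 2 w = true) :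
    evW (fun i => ON.y (30 + i)) w = lw ON.y (sb [[30], [30], [31], [31, 31, 31, 31, 31, 31]] w) := by
  rw [lw_sb]
  refine lw_congr (y := xl fun i => ON.y (30 + i)) fun l hl => ?_
  have := H87.Mx.wf1_spec h l hl
  have e1 := ON.mo.or.eq (v := [30] ++ [30]) (w := []) (by decide +kernel)
  have e2 := ON.mo.or.eq (v := [31] ++ [31, 31, 31, 31, 31, 31]) (w := []) (by decide +kernel)
  rw [lw_append, lw_nil] at e1 e2
  interval_cases l
  · exact (lw_one (lt := ON.y) 30).symm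
  · rw [lw_one] at e1
    exact (inv_eq_of_mul_eq_one_right e1).trans (lw_one (lt := ON.y) 30).symm
  · exact (lw_one (lt := ON.y) 31).symm
  · rw [lw_one] at e2
    exact inv_eq_of_mul_eq_one_right e2

theorem ON.aon_hom : ∃ θ : PA →* ON.X, Injective θ ∧ θ.range = cs ON.y [30, 31] ∧
    ∀ i, i < 2 → θ (xA i) = ON.y (30 + i) := by
  have hR : allL (fun w => band (H87.Mx.wf1 2 w)
      (ON.ew (sb [[30], [30], [31], [31, 31, 31, 31, 31, 31]] w) [])) RA = true := by decide +kernel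
  obtain ⟨θ, hθ⟩ := mxA.hom (y := fun i => ON.y (30 + i)) fun w hw => by
    have := (band_eq_true _ _).1 ((allL_iff _ _).1 hR w hw)
    rw [ON.aon_ev this.1, ON.mo.or.eq this.2, lw_nil]
  have rg : θ.range = cs ON.y [30, 31] := by
    rw [range_eq_gen θ mxA.gen_top hθ]
    refine le_antisymm (gen_le fun i hi => mem_cs _ (by interval_cases i <;> decide)) (cs_le fun l hl => ?_)
    simp only [List.mem_cons, List.not_mem_nil, or_false] at hl
    rcases hl with rfl | rfl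
    exacts [mem_gen (fun i => ON.y (30 + i)) (show 0 < 2 by decide),
      mem_gen (fun i => ON.y (30 + i)) (show 1 < 2 by decide)]
  have fM : ON.y 4 ∈ cs ON.y [30, 31] := by
    rw [← lw_one (lt := ON.y) 4, ON.mo.or.eq (v := [4]) (w := [31, 30, 31, 30, 31, 30, 31, 30, 31, 30])
      (by decide +kernel)]
    exact mem_sub (by decide +kernel)
  have c : Nat.card (cs ON.y [30, 31]) = 80640 := by
    have := ON.mo.gM.card
    rw [show ON.D.LM = [30, 31] from rfl, inf_eq_right.2 (zpowers_le.2 fM), Nat.card_zpowers, ON.mo.of] at this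
    exact this.trans (by decide +kernel)
  have : Finite PA := Nat.finite_of_card_ne_zero (by rw [mxA.card]; decide)
  refine ⟨θ, ?_, rg, hθ⟩
  have := ((Nat.bijective_iff_surjective_and_card _).2 ⟨θ.rangeRestrict_surjective, by rw [mxA.card, rg, c]⟩).1
  exact fun a b e => this (Subtype.ext e)

theorem ON.aon_cand : candC actA RA yA [([], [2]),
    ([0, 3, 0, 3, 0, 2, 0, 3], [2, 2, 0, 3, 3, 0, 3, 0, 3, 0, 2, 0, 2, 2, 0]),
    ([3, 0, 2, 2, 0, 2, 2, 2, 0, 2, 0, 3, 3, 0], [0, 2, 0, 3, 0, 3, 0, 2, 2, 0, 2, 0, 3, 3, 3, 0]),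
    ([0, 2, 2, 2, 0, 2, 0, 3, 0, 2, 2, 0, 3, 3], [3, 0, 2, 2, 0, 2, 2, 2, 0, 3, 0, 3])] = true := by
  decide +kernel

theorem ON.aon_ind {w u : List ℕ} (e : band (H87.Mx.wf1 2 w) (band (ON.ew (u ++ [1]) ([1] ++ u))
    (band (ON.ew (u ++ [30]) ([30] ++ u))
      (ON.ew (u ++ [31]) (sb [[30], [30], [31], [31, 31, 31, 31, 31, 31]] w ++ u)))) = true) :
    H87.Mx.wf1 2 w = true ∧ ∃ x : ON.X, x * ON.y 1 = ON.y 1 * x ∧ x * ON.y 30 * x⁻¹ = ON.y 30 ∧
      x * ON.y 31 * x⁻¹ = evW (fun i => ON.y (30 + i)) w := by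
  simp only [band_eq_true] at e
  refine ⟨e.1, lw ON.y u, ?_, ?_, ?_⟩
  · simpa only [lw_one] using ON.mo.or.cm e.2.1
  · simpa only [lw_one] using ON.mo.or.cj e.2.2.1
  · rw [ON.aon_ev e.1]
    simpa only [lw_one] using ON.mo.or.cj e.2.2.2

theorem ON.autM : ON.F.AutM := by
  intro θ h1 h2 h3 _
  obtain ⟨φ, inj, rg, hφ⟩ := ON.aon_hom
  have eM : ON.F.M = φ.range := rg.symm
  rw [eM] at h1 h2 h3 ⊢
  let θ' : φ.range →* φ.range := MonoidHom.mk' (fun a => ⟨θ a, h1 a a.2⟩) fun a b => Subtype.ext (h2 a a.2 b b.2)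
  have i' : Injective θ' := (injective_iff_map_eq_one _).2 fun a ha =>
    Subtype.ext (h3 a a.2 (congrArg Subtype.val ha))
  let γ : PA ≃* PA := ((φ.ofInjective inj).trans
    (MulEquiv.ofBijective θ' (Finite.injective_iff_bijective.1 i'))).trans (φ.ofInjective inj).symm
  have hγ : ∀ a, φ (γ a) = θ (φ a) := fun a => MonoidHom.apply_ofInjective_symm inj _
  obtain ⟨e, he, n, e0, e1⟩ := mxA.aut H48.Pat.ON.cenA ON.aon_cand γ
  obtain ⟨hw, x, x1, x2, x3⟩ : H87.Mx.wf1 2 e.2 = true ∧ ∃ x : ON.X, x * ON.y 1 = ON.y 1 * x ∧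
      x * ON.y 30 * x⁻¹ = ON.y 30 ∧ x * ON.y 31 * x⁻¹ = evW (fun i => ON.y (30 + i)) e.2 := by
    simp only [List.mem_cons, List.not_mem_nil, or_false] at he
    rcases he with rfl | rfl | rfl | rfl
    · exact ON.aon_ind (u := []) (by decide +kernel)
    · exact ON.aon_ind (u := [36, 31, 5, 31, 36, 31, 30, 31, 30, 31, 36]) (by decide +kernel)
    · exact ON.aon_ind (u := [36]) (by decide +kernel)
    · exact ON.aon_ind (u := [30, 31, 31, 31, 31, 5, 31, 31, 31]) (by decide +kernel)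
  have nz : φ n ∈ centralizer {ON.y 1} := by
    rw [ON.mo.eP]
    exact (cs_le fun l hl => mem_cs _ (by revert l; decide) : cs ON.y [30, 31] ≤ _) (rg ▸ ⟨n, rfl⟩)
  refine ⟨(φ n)⁻¹ * x, mem_centralizer_singleton_iff.1
    (mul_mem (inv_mem nz) (mem_centralizer_singleton_iff.2 x1)), ?_⟩
  have key : φ.comp γ.toMonoidHom = (MulAut.conj ((φ n)⁻¹ * x)).toMonoidHom.comp φ := by
    refine MonoidHom.eq_of_eqOn_dense mxA.gen_top ?_
    rintro _ ⟨i, hi, rfl⟩
    show φ (γ (xA i)) = (φ n)⁻¹ * x * φ (xA i) * ((φ n)⁻¹ * x)⁻¹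
    have k : ∀ a b : ON.X, φ n * a * (φ n)⁻¹ = x * b * x⁻¹ → a = (φ n)⁻¹ * x * b * ((φ n)⁻¹ * x)⁻¹ :=
      fun a b h => by
        calc a = (φ n)⁻¹ * (φ n * a * (φ n)⁻¹) * φ n := by group
          _ = _ := by rw [h]; group
    refine k _ _ ?_
    rw [← map_inv, ← map_mul, ← map_mul, hφ i hi]
    interval_cases i
    · rw [e0, hφ 0 (by decide)]; exact x2.symm
    · rw [e1, H87.Tb.map_evW_of φ hφ hw]; exact x3.symm
  rintro _ ⟨a, rfl⟩
  rw [← hγ]
  exact DFunLike.congr_fun key a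

end H36.SV
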