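import Mathlib
import Cfsg.Agent.Lib.StdV.Basic

/-! The fusion `t ~ t ẑ` is induced by an element that centralises `O` and `M̂`. -/

set_option autoImplicit false
set_option linter.unusedSectionVars false

namespace H36.SV

open Subgroup H69 H36.SW
open H48.SM (Pf)
open scoped commutatorElement

variable {X : Type} [Group X] [Finite X] {G : Type*} [Group G] [Finite G] {F : Dy X}
variable {t : G} {L O : Subgroup G} {α : G → X} {h : X → G}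

namespace C1

theorem tz (H : Fx F) (w : W0 F t L O α h) {g : G} (gt : g * t * g⁻¹ = t * h F.z)
    (gz : g * h F.z = h F.z * g) : g * (t * h F.z) * g⁻¹ = t := by
  rw [← conj_mul, gt, cj_fix.2 gz, mul_assoc, w.sq H.zJ H.z2, mul_one]

theorem inv_t (H : Fx F) (w : W0 F t L O α h) {g : G} (gt : g * t * g⁻¹ = t * h F.z)
    (gz : g * h F.z = h F.z * g) : g⁻¹ * t * g⁻¹⁻¹ = t * h F.z := by
  conv_lhs => rw [← tz H w gt gz]
  group

theorem ha (H : Fx F) (w : W0 F t L O α h) {g : G} (gt : g * t * g⁻¹ = t * h F.z) :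
    w.toIso.hat F.M ^ᶜ g⁻¹ ≤ L := by
  refine w.pf_le H ?_ ((w.pf_hat H.MJ H.pfM).cj _)
  rintro _ ⟨_, ⟨m, hm, rfl⟩, rfl⟩
  have e : h m * (g * t * g⁻¹) = g * t * g⁻¹ * h m := by
    rw [gt, ← mul_assoc, w.ht m.2, mul_assoc, w.comm m.2 H.zJ (Dy.Dz (H.MD hm)), mul_assoc]
  have := cjc (j := g⁻¹) e
  rwa [show g⁻¹ * (g * t * g⁻¹) * g⁻¹⁻¹ = t by group] at this

theorem step_a (H : Fx F) (w : W0 F t L O α h) {g : G} (gt : g * t * g⁻¹ = t * h F.z) :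
    ∃ l ∈ L, g * l * t * (g * l)⁻¹ = t * h F.z ∧ g * l * h F.z = h F.z * (g * l) ∧
      g * l ∈ 𝐍(w.toIso.hat F.M) := by
  have hM : ∀ m ∈ F.M, h m ∈ w.toIso.hat F.M := fun m hm => (w.mem_hat H.MJ).2 ⟨m, hm, rfl⟩
  have aL := ha H w gt (cj_mem g⁻¹ (hM _ H.zM))
  have a2 := cjsq (w.sq H.zJ H.z2) g⁻¹
  have a1 : α (g⁻¹ * h F.z * g⁻¹⁻¹) ≠ 1 := fun e => cjne (w.ne H.zJ H.z1) _ (w.inj _ aL e)
  have b2 := w.cov.sq (le_normalizer aL) a2
  obtain ⟨j, hj, e⟩ : F.Zc (α (g⁻¹ * h F.z * g⁻¹⁻¹)) := by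
    rcases H.mode with m | m
    · have EL : w.toIso.hat F.T ^ᶜ g⁻¹ ≤ L :=
        (cj_mono _ (map_mono (comap_mono (H.TD.trans m.2.1)))).trans (ha H w gt)
      refine (H.zc_of_card (w.cov.isP_im (isPGroup_cj (w.isP_hat H.pT) g⁻¹)) ?_ ?_ (P2.of_sq b2)
        ?_).resolve_left a1
      · intro x hx
        obtain ⟨e, he, -, rfl⟩ := w.cov.mem_im.1 hx
        exact w.cov.mem e (EL he)
      · have := w.cov.card_im (EL.trans le_normalizer)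
        rw [card_cj, w.card_hat Dy.TJ, show w.toIso.hat F.T ^ᶜ g⁻¹ ⊓ 𝐂(L) = ⊥ from
          (eq_bot_iff_forall _).2 fun x hx => w.inj x (EL hx.1) (w.cov.cen hx.2), card_bot,
          mul_one] at this
        exact this.le
      · intro x hx
        obtain ⟨_, ⟨_, ⟨τ, hτ, rfl⟩, rfl⟩, hn, rfl⟩ := w.cov.mem_im.1 hx
        exact w.cov.comm (le_normalizer aL) hn (cjc (w.comm H.zJ τ.2 (H.cT _ hτ.1).symm))
    · exact ((H.inv (w.cov.mem _ aL) b2).resolve_left a1).elim id fun hb => hb.zc m.2.1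
  have e1 : h j * h F.z * (h j)⁻¹ = g⁻¹ * h F.z * g⁻¹⁻¹ := by rw [← w.cj hj H.zJ, e, w.hα aL]
  have gz : g * h j * h F.z = h F.z * (g * h j) := by
    calc g * h j * h F.z = g * (h j * h F.z * (h j)⁻¹) * h j := by group
      _ = _ := by rw [e1]; group
  have gt' : g * h j * t * (g * h j)⁻¹ = t * h F.z := by
    rw [← gt, mul_assoc g, w.ht hj]; group
  refine ⟨h j, w.hL j hj, gt', gz, ?_⟩
  generalize g * h j = k at gz gt'
  have h1 : w.toIso.hat F.M ^ᶜ k⁻¹ ≤ w.toIso.hat F.D := fun x hx => by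
    have xL := ha H w gt' hx
    refine (w.mem_hat Dy.DJ).2 ⟨α x, Dy.mem_D.2 ⟨w.cov.mem x xL,
      w.of_comm (le_normalizer xL) H.zJ ?_⟩, w.hα xL⟩
    obtain ⟨_, ⟨m, hm, rfl⟩, rfl⟩ := hx
    have := cjc (j := k⁻¹) (w.comm m.2 H.zJ (Dy.Dz (H.MD hm)))
    rwa [cj_fix.2 (show Commute k (h F.z) from gz).inv_left.eq] at this
  have h2 : ⁅w.toIso.hat F.D, w.toIso.hat F.D⁆ ≤ w.toIso.hat F.M := commutator_le.2 (by
    rintro _ ⟨a, ha, rfl⟩ _ ⟨b, hb, rfl⟩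
    exact (w.cmt a.2 b.2) ▸ hM _ (H.DD (commutator_mem_commutator ha hb)))
  have h3 : w.toIso.hat F.M ^ᶜ k⁻¹ ≤ w.toIso.hat F.M :=
    ((w.pf_hat H.MJ H.pfM).cj _).1.trans ((commutator_mono h1 h1).trans h2)
  exact inv_mem_iff.1 (mem_normalizer_fintype fun x hx => h3 (cj_mem _ hx))

theorem step_b (H : Fx F) (w : W0 F t L O α h) {g : G} (gt : g * t * g⁻¹ = t * h F.z)
    (gz : g * h F.z = h F.z * g) (gM : g ∈ 𝐍(w.toIso.hat F.M)) {o : G} (ho : o ∈ O) :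
    g * o * g⁻¹ ∈ O := by
  have c : g * o * g⁻¹ * t = t * (g * o * g⁻¹) := by
    have := cjc (j := g) (show o * (t * h F.z) = t * h F.z * o by
      rw [← mul_assoc, w.Ot o ho, mul_assoc, ← w.hO H.zJ ho, mul_assoc])
    rwa [tz H w gt gz] at this
  have od : Odd (orderOf (g * o * g⁻¹)) := by rw [H9.orderOf_conj]; exact w.oddO o ho
  have hn := w.CN _ c
  refine w.memO ((w.cov.ker _ hn).1 ((H.P2Z0 (H.cM _ fun m hm => w.of_comm hn (H.MJ hm) ?_)).eq_one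
    (od.of_dvd_nat (orderOf_dvd_of_pow_eq_one ?_)))) c od
  · have := w.LO (w.hat_le _ (conj_mem_of_mem_normalizer' gM ((w.mem_hat H.MJ).2 ⟨m, hm, rfl⟩))) ho
    calc g * o * g⁻¹ * h m = g * (o * (g⁻¹ * h m * g)) * g⁻¹ := by group
      _ = _ := by rw [← this]; group
  · rw [← w.cov.pow hn, pow_orderOf_eq_one, w.cov.one]

theorem step_c (H : Fx F) (w : W0 F t L O α h) {g : G} (gz : g * h F.z = h F.z * g)
    (gM : g ∈ 𝐍(w.toIso.hat F.M)) :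
    ∃ x, x * F.z = F.z * x ∧ ∀ m ∈ F.M, g * h m * g⁻¹ = h (x * m * x⁻¹) := by
  have hM : ∀ m ∈ F.M, g * h m * g⁻¹ ∈ w.toIso.hat F.M := fun m hm =>
    conj_mem_of_mem_normalizer gM ((w.mem_hat H.MJ).2 ⟨m, hm, rfl⟩)
  have hL : ∀ m ∈ F.M, g * h m * g⁻¹ ∈ L := fun m hm => w.hat_le _ (hM m hm)
  obtain ⟨x, xz, hx⟩ := H.autM (fun m => α (g * h m * g⁻¹))
    (fun a ha => by
      obtain ⟨y, hy, e⟩ := (w.mem_hat H.MJ).1 (hM a ha)
      rw [← e, w.αh y (H.MJ hy)]; exact hy)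
    (fun a ha b hb => by rw [← w.cov.mul' (hL a ha) (hL b hb), conj_mul, w.mul (H.MJ ha) (H.MJ hb)])
    (fun a ha e => by
      by_contra n
      exact cjne (w.ne (H.MJ ha) n) g (w.inj _ (hL a ha) e))
    (by rw [cj_fix.2 gz, w.αh _ H.zJ])
  exact ⟨x, xz, fun m hm => by rw [← hx m hm, w.hα (hL m hm)]⟩

theorem step_d (H : Fx F) (w : W0 F t L O α h) {g : G} (gt : g * t * g⁻¹ = t * h F.z) :
    ∃ k, k * t * k⁻¹ = t * h F.z ∧ ∀ o ∈ O, k * o = o * k := by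
  obtain ⟨l, -, gt, gz, gM⟩ := step_a H w gt
  generalize g * l = g at gt gz gM
  obtain ⟨x, xz, hx⟩ := step_c H w gz gM
  obtain ⟨σ, hσ, e1, -⟩ := H.sg
  obtain ⟨j, hj, e⟩ := H.Zc_cj H.Zzq x
  refine ⟨(h j)⁻¹ * (g * h σ * g⁻¹), ?_, fun o ho => ?_⟩
  · have e2 : g * h σ * g⁻¹ * t * (g * h σ * g⁻¹)⁻¹ = h j * (t * h F.z) * (h j)⁻¹ := by
      calc _ = g * (h σ * (g⁻¹ * t * g⁻¹⁻¹) * (h σ)⁻¹) * g⁻¹ := by group
        _ = t * h F.z * h (x * F.q * x⁻¹) := by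
          rw [inv_t H w gt gz, ← conj_mul (b := h σ), w.cjt (w.hL σ hσ), ← w.cj hσ H.zJ, e1,
            ← conj_mul, gt, hx _ H.qM]
        _ = _ := by
          rw [← conj_mul, w.cjt (w.hL j hj), ← w.cj hj H.zJ, e, ← conj_mul, cj_fix.2 xz,
            w.mul H.zJ (H.cjJ H.qJ x), mul_assoc]
    calc _ = (h j)⁻¹ * (g * h σ * g⁻¹ * t * (g * h σ * g⁻¹)⁻¹) * h j := by group
      _ = _ := by rw [e2]; group
  · have h1 := w.hO hσ (step_b H w (inv_t H w gt gz) (show Commute g (h F.z) from gz).inv_left.eq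
      (inv_mem gM) ho)
    refine (Commute.mul_left (Commute.inv_left (w.hO hj ho)) ?_).eq
    calc g * h σ * g⁻¹ * o = g * (h σ * (g⁻¹ * o * g⁻¹⁻¹)) * g⁻¹ := by group
      _ = _ := by rw [h1]; group

theorem step_e (H : Fx F) (w : W0 F t L O α h) {g : G} (gt : g * t * g⁻¹ = t * h F.z)
    (gO : ∀ o ∈ O, g * o = o * g) (hx : ∀ m ∈ F.M, g * h m * g⁻¹ = h (F.φ * m * F.φ⁻¹)) :
    ∃ k, W1 F t L O α h k := by
  obtain ⟨A, AM, zA, φA, cA, l1, h1, l2, h2, n1, n2, e⟩ := H.exO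
  have AJ := AM.trans H.MJ
  have gz : g * h F.z = h F.z * g := cj_fix.1 (by rw [hx _ H.zM, cj_fix.2 H.φz])
  have a1 := conj_mem_of_mem_normalizer n2 zA
  have ηt : g * h l1 * g * h l2 * g * t = t * (g * h l1 * g * h l2 * g) := cj_fix.1 (by
    calc _ = g * (h l1 * (g * (h l2 * (g * t * g⁻¹) * (h l2)⁻¹) * g⁻¹) * (h l1)⁻¹) * g⁻¹ := by group
      _ = t := by
        rw [gt, ← conj_mul (b := h l2), w.cjt (w.hL _ h2), ← w.cj h2 H.zJ, ← conj_mul (b := g) (a := t),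
          gt, hx _ (AM a1), mul_assoc t, ← w.mul H.zJ (H.cjJ (AJ a1) _), ← conj_mul (b := h l1),
          w.cjt (w.hL _ h1), ← w.cj h1 (mul_mem H.zJ (H.cjJ (AJ a1) _)), e, tz H w gt gz])
  have ηO : ∀ o ∈ O, Commute (g * h l1 * g * h l2 * g) o := fun o ho =>
    ((((show Commute g o from gO o ho).mul_left (w.hO h1 ho)).mul_left (gO o ho)).mul_left
      (w.hO h2 ho)).mul_left (gO o ho)
  have ηA : ∀ a ∈ A, g * h l1 * g * h l2 * g * h a * (g * h l1 * g * h l2 * g)⁻¹ =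
      h (F.φ * l1 * F.φ * l2 * F.φ * a * (F.φ * l1 * F.φ * l2 * F.φ)⁻¹) := fun a ha => by
    have b1 := conj_mem_of_mem_normalizer φA ha
    have b2 := conj_mem_of_mem_normalizer n2 b1
    have b3 := conj_mem_of_mem_normalizer φA b2
    have b4 := conj_mem_of_mem_normalizer n1 b3
    calc _ = g * (h l1 * (g * (h l2 * (g * h a * g⁻¹) * (h l2)⁻¹) * g⁻¹) * (h l1)⁻¹) * g⁻¹ := by group
      _ = _ := by
        rw [hx _ (AM ha), ← w.cj h2 (AJ b1), hx _ (AM b2), ← w.cj h1 (AJ b3), hx _ (AM b4)]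
        congr 1
        group
  generalize g * h l1 * g * h l2 * g = η at ηt ηO ηA
  have ηN := w.CN η ηt
  have ωJ : F.φ * l1 * F.φ * l2 * F.φ ∉ F.J := fun e => H.φJ ((mul_mem_cancel_left (mul_mem
    (H.sq _ (fun e => H.φJ ((mul_mem_cancel_right h1).1 e)) _ H.φJ) h2)).1 e)
  generalize F.φ * l1 * F.φ * l2 * F.φ = ω at ηA ωJ
  have ηJ : α η ∉ F.J := fun e => ωJ (inv_mem_iff.1 ((mul_mem_cancel_right e).1
    (cA (ω⁻¹ * α η) fun a ha => by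
      have := w.hinj (H.cjJ (AJ ha) _) (H.cjJ (AJ ha) _) ((w.conj ηN (AJ ha)).symm.trans (ηA a ha))
      calc ω⁻¹ * α η * a = ω⁻¹ * (α η * a * (α η)⁻¹) * α η := by group
        _ = _ := by rw [this]; group)))
  obtain ⟨j, hj, ej⟩ := (H.dec H.φJ (α η)).resolve_left ηJ
  have kN : ((h j)⁻¹ * η)⁻¹ ∈ 𝐍(L) := inv_mem (mul_mem (inv_mem (w.hN hj)) ηN)
  have kα : α ((h j)⁻¹ * η)⁻¹ = F.φ⁻¹ := by
    rw [w.cov.inv (inv_mem_iff.1 kN), w.cov.mul _ (inv_mem (w.hN hj)) _ ηN, w.cov.inv (w.hN hj),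
      w.αh j hj, ej, inv_mul_cancel_left]
  have kt : Commute ((h j)⁻¹ * η)⁻¹ t :=
    (Commute.mul_left (Commute.inv_left (w.ht hj)) ηt).inv_left
  have kO : ∀ o ∈ O, Commute ((h j)⁻¹ * η)⁻¹ o := fun o ho =>
    (Commute.mul_left (Commute.inv_left (w.hO hj ho)) (ηO o ho)).inv_left
  generalize ((h j)⁻¹ * η)⁻¹ = k at kN kα kt kO
  refine ⟨k * g, w, ?_, fun o ho => ((kO o ho).mul_left (gO o ho)).eq, fun m hm => cj_fix.1 ?_⟩
  · calc _ = k * (g * t * g⁻¹) * k⁻¹ := by group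
      _ = _ := by
        rw [gt, ← conj_mul, cj_fix.2 kt.eq, w.conj kN H.zJ, kα,
          cj_fix.2 (show Commute F.φ F.z from H.φz).inv_left.eq]
  · calc _ = k * (g * h m * g⁻¹) * k⁻¹ := by group
      _ = _ := by
        rw [hx m hm, w.conj kN (H.cjJ (H.MJ hm) _), kα]
        congr 1
        group

end C1

theorem W.exists_w1 (H : Fx F) (w : W F t L O α h) : ∃ g, W1 F t L O α h g := by
  obtain ⟨g0, e0⟩ := w.fus
  obtain ⟨g1, e1, o1⟩ := C1.step_d H w.toW0 e0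
  obtain ⟨l, hl, gt, gz, gM⟩ := C1.step_a H w.toW0 e1
  have gO : ∀ o ∈ O, Commute (g1 * l) o := fun o ho =>
    (show Commute g1 o from o1 o ho).mul_left (w.LO hl ho)
  generalize g1 * l = g at gt gz gM gO
  obtain ⟨x, xz, hx⟩ := C1.step_c H w.toW0 gz gM
  have key : ∀ d ∈ F.J, d * F.z = F.z * d →
      (h d)⁻¹ * g * t * ((h d)⁻¹ * g)⁻¹ = t * h F.z ∧ (∀ o ∈ O, (h d)⁻¹ * g * o = o * ((h d)⁻¹ * g)) ∧
        ∀ m ∈ F.M, (h d)⁻¹ * g * h m * ((h d)⁻¹ * g)⁻¹ = h (d⁻¹ * x * m * (d⁻¹ * x)⁻¹) := by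
    intro d hd dz
    refine ⟨?_, fun o ho => (Commute.mul_left (Commute.inv_left (w.hO hd ho)) (gO o ho)).eq,
      fun m hm => ?_⟩
    · calc _ = (h d)⁻¹ * (g * t * g⁻¹) * (h d)⁻¹⁻¹ := by group
        _ = _ := by
          rw [gt]
          exact cj_fix.2 (Commute.inv_left (Commute.mul_right (w.ht hd) (w.comm hd H.zJ dz))).eq
    · calc _ = (h d)⁻¹ * (g * h m * g⁻¹) * (h d)⁻¹⁻¹ := by group
        _ = _ := by
          rw [hx m hm, ← w.inv hd, ← w.cj (inv_mem hd) (H.cjJ (H.MJ hm) _)]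
          congr 1
          group
  rcases H.dec H.φJ x with hJ | ⟨d, hd, rfl⟩
  · obtain ⟨k1, k2, k3⟩ := key x hJ xz
    exact ⟨_, w.toW0, k1, k2, fun m hm => cj_fix.1 (by rw [k3 m hm]; simp)⟩
  · obtain ⟨k1, k2, k3⟩ := key d hd (by
      rw [mul_assoc, H.φz, ← mul_assoc, ← mul_assoc] at xz
      exact mul_right_cancel xz)
    exact C1.step_e H w.toW0 k1 k2 fun m hm => by rw [k3 m hm, inv_mul_cancel_left]

end H36.SV
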