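import Mathlib
import Cfsg.Agent.Lib.StdV.Basic

/-! The fusion `t ~ t ẑ` is induced by an involution that centralises `O` and `D̂`. -/

set_option autoImplicit false
set_option linter.unusedSectionVars false

namespace H36.SV

open Subgroup H69 H36.SW
open H48.SM (Pf)
open scoped commutatorElement

variable {X : Type} [Group X] [Finite X] {G : Type*} [Group G] [Finite G] {F : Dy X}
variable {t : G} {L O : Subgroup G} {α : G → X} {h : X → G}

namespace C2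

theorem tz (H : Fx F) (w : W0 F t L O α h) {g a : _} (ha : a ∈ F.J) (a2 : a * a = 1)
    (gt : g * t * g⁻¹ = t * h a) (gz : g * h a = h a * g) : g * (t * h a) * g⁻¹ = t := by
  have := H.zJ
  rw [← conj_mul, gt, cj_fix.2 gz, mul_assoc, w.sq ha a2, mul_one]

theorem inv_t (H : Fx F) (w : W0 F t L O α h) {g a : _} (ha : a ∈ F.J) (a2 : a * a = 1)
    (gt : g * t * g⁻¹ = t * h a) (gz : g * h a = h a * g) : g⁻¹ * t * g⁻¹⁻¹ = t * h a := by
  conv_lhs => rw [← tz H w ha a2 gt gz]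
  calc _ = g⁻¹ * (g * (t * h a) * g⁻¹) * g⁻¹⁻¹ := rfl
    _ = _ := by group

theorem z0 (H : Fx F) (w : W0 F t L O α h) {c : G} (ct : c * t = t * c)
    (cM : ∀ m ∈ F.M, c * h m = h m * c) : α c ∈ zpowers F.f :=
  H.cM _ fun m hm => w.of_comm (w.CN c ct) (H.MJ hm) (cM m hm)

/-- an element of `L` times an element of `O` -/
theorem lo (w : W0 F t L O α h) {a : X} (ha : a ∈ F.J) {o : G} (ho : o ∈ O)
    (e : h a * (o * o) = 1) : a = 1 ∧ o = 1 := by
  have h1 : o * o = 1 :=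
    w.LO1 (by rw [eq_inv_of_mul_eq_one_right e]; exact inv_mem (w.hL a ha)) (mul_mem ho ho)
  rw [h1, mul_one] at e
  exact ⟨w.hinj ha (one_mem _) (e.trans w.one.symm), (P2.of_sq h1).eq_one (w.oddO o ho)⟩

theorem step1 (H : Fx F) {g : G} (w : W1 F t L O α h g) :
    ∃ g, W1 F t L O α h g ∧ ∃ a ∈ zpowers F.f, g * g = h a := by
  have gz := w.gM _ H.zM
  have zt : ∀ {k}, k * t * k⁻¹ = t * h F.z → k * h F.z = h F.z * k → k * k * t = t * (k * k) :=
    fun {k} kt kz => cj_fix.1 (by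
      rw [show k * k * t * (k * k)⁻¹ = k * (k * t * k⁻¹) * k⁻¹ by group, kt,
        tz H w.toW0 H.zJ H.z2 kt kz])
  obtain ⟨_, ⟨n, rfl⟩, hp⟩ := exists_odd_P2 g
  have kt : g ^ (2 * n + 1) * t * (g ^ (2 * n + 1))⁻¹ = t * h F.z := by
    rw [pow_succ', pow_mul, pow_two, ← w.gt]
    calc _ = g * ((g * g) ^ n * t * ((g * g) ^ n)⁻¹) * g⁻¹ := by group
      _ = _ := by rw [cj_fix.2 ((show Commute (g * g) t from zt w.gt gz).pow_left n).eq]
  have kM : ∀ m ∈ F.M, g ^ (2 * n + 1) * h m = h m * g ^ (2 * n + 1) := fun m hm =>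
    ((show Commute g (h m) from w.gM m hm).pow_left _).eq
  refine ⟨_, ⟨w.toW0, kt, fun o ho => ((show Commute g o from w.gO o ho).pow_left _).eq, kM⟩, ?_⟩
  generalize g ^ (2 * n + 1) = k at hp kt kM
  have k2 := zt kt (kM _ H.zM)
  have hz := z0 H w.toW0 k2 fun m hm => ((show Commute k (h m) from kM m hm).mul_left (kM m hm)).eq
  refine ⟨_, hz, (w.over2 k2 (hp.mul hp rfl) (H.MJ (H.Z0M hz))).resolve_right fun e => ?_⟩
  have h1 : Commute k (h (α (k * k)) * t) := e ▸ (Commute.refl k).mul_right (Commute.refl k)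
  have h2 : Commute k t := by
    have := (Commute.inv_right (kM _ (H.Z0M hz))).mul_right h1
    rwa [inv_mul_cancel_left] at this
  rw [cj_fix.2 h2.eq, left_eq_mul] at kt
  exact w.ne H.zJ H.z1 kt

theorem step2 (H : Fx F) {g : G} (w : W1 F t L O α h g) (ff : F.f * F.f = F.z) {a0 : X}
    (ha0 : a0 = F.f ∨ a0 = F.f⁻¹) (e : g * g = h a0) : False := by
  rcases H.mode with m | ⟨-, -, -, -, -, -, -, A, AM, cA, zA, qA, ⟨n, nJ, nA, nz⟩, κ, κM, κA, κ2, κq, hκ⟩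
  · rw [m.1, H.z2] at ff
    exact H.z1 ff.symm
  have AJ := AM.trans H.MJ
  have κJ := H.MJ κM
  have cjA : ∀ {k : G} {l : X}, l ∈ F.J → l ∈ 𝐍(A) → (∀ a ∈ A, Commute k (h a)) →
      ∀ a ∈ A, Commute (h l * k * (h l)⁻¹) (h a) := fun {k l} lJ lA hk a ha => by
    have := cjc (j := h l) (hk _ (conj_mem_of_mem_normalizer' lA ha)).eq
    rwa [← w.cj lJ (AJ (conj_mem_of_mem_normalizer' lA ha)),
      show l * (l⁻¹ * a * l) * l⁻¹ = a by group] at this
  have cjO : ∀ {k : G} {l : X}, l ∈ F.J → (∀ o ∈ O, Commute k o) →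
      ∀ o ∈ O, Commute (h l * k * (h l)⁻¹) o := fun lJ hk o ho =>
    ((show Commute _ o from w.hO lJ ho).mul_left (hk o ho)).mul_left (Commute.inv_left (w.hO lJ ho))
  have cjt : ∀ {k : G} {l a : X}, l ∈ F.J → a ∈ F.J → k * t * k⁻¹ = t * h a →
      h l * k * (h l)⁻¹ * t * (h l * k * (h l)⁻¹)⁻¹ = t * h (l * a * l⁻¹) := fun {k l a} lJ aJ hk => by
    calc _ = h l * (k * ((h l)⁻¹ * t * (h l)⁻¹⁻¹) * k⁻¹) * (h l)⁻¹ := by group
      _ = _ := by
        rw [w.cjt (inv_mem (w.hL l lJ)), hk, ← conj_mul (b := h l), w.cjt (w.hL l lJ), ← w.cj lJ aJ]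
  have gA : ∀ a ∈ A, Commute g (h a) := fun a ha => w.gM a (AM ha)
  have pA := cjA nJ nA gA
  have pO := cjO nJ w.gO
  have pt := cjt nJ H.zJ w.gt
  rw [nz] at pt
  generalize h n * g * (h n)⁻¹ = p at pA pO pt
  have rA := cjA κJ κA pA
  have rO := cjO κJ pO
  have rt := cjt κJ H.qJ pt
  rw [κq] at rt
  have kr : h κ * (h κ * p * (h κ)⁻¹) * (h κ)⁻¹ = p := by
    rw [show h κ * (h κ * p * (h κ)⁻¹) * (h κ)⁻¹ = h κ * h κ * p * (h κ * h κ)⁻¹ by group,
      ← w.mul κJ κJ, cj_fix.2 (pA _ κ2).symm.eq]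
  have kp : h κ * p * (h κ)⁻¹ = h κ * p * (h κ)⁻¹ := rfl
  generalize hr : h κ * p * (h κ)⁻¹ = r at rA rO rt kr
  have q2 := H.Zc_sq H.Zq
  have δt : r * p⁻¹ * g⁻¹ * t = t * (r * p⁻¹ * g⁻¹) := cj_fix.1 (by
    calc _ = r * (p⁻¹ * (g⁻¹ * t * g⁻¹⁻¹) * p⁻¹⁻¹) * r⁻¹ := by group
      _ = t := by
        rw [inv_t H w.toW0 H.zJ H.z2 w.gt (gA _ zA), ← conj_mul (b := p⁻¹),
          inv_t H w.toW0 H.qJ q2 pt (pA _ qA), cj_fix.2 (pA _ zA).inv_left.eq, mul_assoc t,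
          ← w.mul H.qJ H.zJ, H.qz, tz H w.toW0 (mul_mem H.zJ H.qJ) (H.Zc_sq H.Zzq) rt
            (rA _ (mul_mem zA qA))])
  have aA : α (r * p⁻¹ * g⁻¹) ∈ A := cA _ fun a ha => w.of_comm (w.CN _ δt) (AJ ha)
    (((rA a ha).mul_left (pA a ha).inv_left).mul_left (gA a ha).inv_left).eq
  have one : h κ * (r * p⁻¹ * g⁻¹) * (h κ)⁻¹ * (g * (r * p⁻¹ * g⁻¹) * g⁻¹) * (g * g) = 1 := by
    rw [← conj_mul (b := h κ), ← conj_mul (b := h κ), kr, ← conj_inv, hr,
      cj_fix.2 (show Commute g (h κ) from w.gM κ κM).inv_left.symm.eq]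
    group
  obtain ⟨o, ho, eo⟩ := w.ovr δt (AJ aA)
  generalize α (r * p⁻¹ * g⁻¹) = a at aA eo
  have aJ := AJ aA
  have bJ := H.cjJ aJ κ
  have f0 : a0 ∈ F.J := ha0.elim (· ▸ H.fJ) (· ▸ inv_mem H.fJ)
  have f4 : F.f * F.f * (F.f * F.f) = 1 := by rw [ff, H.z2]
  have co : ∀ x ∈ F.J, Commute o (h x) := fun x hx => (w.hO hx ho).symm
  have ct : ∀ x ∈ F.J, Commute t (h x) := fun x hx => (w.ht hx).symm
  rcases eo with eo | eo
  · rw [eo, e, ← conj_mul (b := h κ), ← conj_mul (b := g), ← w.cj κJ aJ, cj_fix.2 (w.hO κJ ho),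
      cj_fix.2 (gA a aA).eq, cj_fix.2 (w.gO o ho)] at one
    have := (lo w.toW0 (mul_mem (mul_mem bJ aJ) f0) ho (by
      rw [w.mul (mul_mem bJ aJ) f0, w.mul bJ aJ, ← one]
      simp only [mul_assoc, ← (co a aJ).left_comm, (co a0 f0).eq, ← (co a0 f0).left_comm])).1
    rw [mul_eq_one_iff_eq_inv] at this
    rcases ha0 with rfl | rfl
    · exact (hκ a aA).2 this
    · exact (hκ a aA).1 (this.trans (inv_inv _))
  · rw [eo, e, ← conj_mul (b := h κ), ← conj_mul (b := h κ), ← conj_mul (b := g),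
      ← conj_mul (b := g), ← w.cj κJ aJ, cj_fix.2 (w.hO κJ ho), w.cjt (w.hL κ κJ),
      cj_fix.2 (gA a aA).eq, cj_fix.2 (w.gO o ho), w.gt] at one
    have := (lo w.toW0 (mul_mem (mul_mem (mul_mem bJ aJ) H.zJ) f0) ho (by
      rw [w.mul (mul_mem (mul_mem bJ aJ) H.zJ) f0, w.mul (mul_mem bJ aJ) H.zJ, w.mul bJ aJ, ← one]
      simp only [mul_assoc, (co a aJ).left_comm, (co a0 f0).eq, (co a0 f0).left_comm,
        (show Commute o t from w.Ot o ho).left_comm, (co _ H.zJ).left_comm, (ct a aJ).left_comm,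
        w.tt])).1
    rw [mul_assoc _ F.z, mul_eq_one_iff_eq_inv, ← ff] at this
    rcases ha0 with rfl | rfl
    · refine (hκ a aA).1 (this.trans (inv_eq_of_mul_eq_one_left ?_))
      rw [← f4]; group
    · exact (hκ a aA).2 (this.trans (by group))

theorem step3 (H : Fx F) {g : G} (w : W1 F t L O α h g) :
    ∃ u, W1 F t L O α h u ∧ u * u = 1 := by
  obtain ⟨g, w, a, ha, e⟩ := step1 H w
  rcases H.mem_Z0 ha with rfl | rfl | ⟨ff, ha0⟩
  · exact ⟨g, w, e.trans w.one⟩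
  · refine ⟨g * t, ⟨w.toW0, ?_, fun o ho => ((show Commute g o from w.gO o ho).mul_left
      (w.Ot o ho).symm).eq, fun m hm => ((show Commute g _ from w.gM m hm).mul_left
      (w.ht (H.MJ hm)).symm).eq⟩, ?_⟩
    · rw [← w.gt]; group
    · rw [show g * t * (g * t) = g * t * g⁻¹ * (g * g) * t by group, w.gt, e, mul_assoc t,
        w.sq H.zJ H.z2, mul_one, w.t2]
  · exact (step2 H w ff ha0 e).elim

end C2

theorem W1.exists_w2 (H : Fx F) {g : G} (w : W1 F t L O α h g) : ∃ u, W2 F t L O α h u := by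
  obtain ⟨u, w, u2⟩ := C2.step3 H w
  rcases H.mode with m | ⟨ff, hb, -, -, -, -, ⟨y, yD, y2, yf, hy⟩, -⟩
  · exact ⟨u, w.toW0, u2, w.gt, w.gO, fun d hd => w.gM d (m.2.1 hd)⟩
  have yJ := Dy.DJ yD
  have yi : y⁻¹ = y := inv_eq_of_mul_eq_one_left y2
  have ui : u⁻¹ = u := inv_eq_of_mul_eq_one_left u2
  have Yi : (h y)⁻¹ = h y := inv_eq_of_mul_eq_one_left (w.sq yJ y2)
  have fin : ∀ v, W1 F t L O α h v → v * v = 1 → Commute v (h y) → ∃ u, W2 F t L O α h u :=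
    fun v wv v2 c => ⟨v, w.toW0, v2, wv.gt, wv.gO, fun d hd => (hy d hd).elim (wv.gM d) fun hm => by
      have := (show Commute v _ from wv.gM _ hm).mul_right c
      rwa [← w.mul (H.MJ hm) yJ, mul_assoc, y2, mul_one] at this⟩
  have uz := w.gM _ H.zM
  have vt : h y * u * (h y)⁻¹ * t * (h y * u * (h y)⁻¹)⁻¹ = t * h F.z := by
    calc _ = h y * (u * ((h y)⁻¹ * t * (h y)⁻¹⁻¹) * u⁻¹) * (h y)⁻¹ := by group
      _ = _ := by
        rw [w.cjt (inv_mem (w.hL y yJ)), w.gt, ← conj_mul (b := h y), w.cjt (w.hL y yJ),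
          ← w.cj yJ H.zJ, cj_fix.2 (Dy.Dz yD)]
  have ct : u * (h y * u * (h y)⁻¹) * t = t * (u * (h y * u * (h y)⁻¹)) := cj_fix.1 (by
    calc _ = u * (h y * u * (h y)⁻¹ * t * (h y * u * (h y)⁻¹)⁻¹) * u⁻¹ := by group
      _ = _ := by rw [vt, C2.tz H w.toW0 H.zJ H.z2 w.gt uz])
  have hz := C2.z0 H w.toW0 ct fun m hm => by
    refine ((show Commute u _ from w.gM m hm).mul_left ?_).eq
    have h1 := H.cjM (Dy.Dz yD) hm
    have := cjc (j := h y) (w.gM _ h1)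
    rwa [← w.cj yJ (H.MJ h1), show y * (y * m * y⁻¹) * y⁻¹ = y * y * m * (y * y)⁻¹ by group, y2,
      one_mul, inv_one, mul_one] at this
  have inv : u * (u * (h y * u * (h y)⁻¹)) * u⁻¹ * (u * (h y * u * (h y)⁻¹)) = 1 := by
    rw [← mul_assoc u u, u2, one_mul, mul_assoc _ u⁻¹, inv_mul_cancel_left, cjsq u2]
  obtain ⟨o, ho, eo⟩ := w.ovr ct (H.MJ (H.Z0M hz))
  generalize α (u * (h y * u * (h y)⁻¹)) = a at hz eo
  have aM := H.Z0M hz
  have aJ := H.MJ aM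
  have co : ∀ x ∈ F.J, Commute o (h x) := fun x hx => (w.hO hx ho).symm
  have ct : ∀ x ∈ F.J, Commute t (h x) := fun x hx => (w.ht hx).symm
  rcases eo with eo | eo
  · rw [eo, ← conj_mul, cj_fix.2 (w.gM a aM), cj_fix.2 (w.gO o ho)] at inv
    obtain ⟨a2, rfl⟩ := C2.lo w.toW0 (mul_mem aJ aJ) ho (by
      rw [w.mul aJ aJ, ← inv]
      simp only [mul_assoc, (co a aJ).left_comm])
    rw [mul_one, ← eq_inv_mul_iff_mul_eq, ui] at eo
    rcases H.Z0_sq hz a2 with rfl | rfl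
    · rw [w.one, mul_one] at eo
      exact fin u w u2 (cj_fix.1 eo).symm
    · have uf : Commute u (h F.f) := w.gM _ H.fM
      refine fin (u * h F.f * t) ⟨w.toW0, ?_, fun o ho => ?_, fun m hm => ?_⟩ ?_ (cj_fix.1 ?_).symm
      · calc _ = u * (h F.f * t * (h F.f)⁻¹) * u⁻¹ := by group
          _ = _ := by rw [w.cjt (w.hL _ H.fJ), w.gt]
      · exact (((show Commute u o from w.gO o ho).mul_left (w.hO H.fJ ho)).mul_left
          (w.Ot o ho).symm).eq
      · exact (((show Commute u _ from w.gM m hm).mul_left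
          (w.comm H.fJ (H.MJ hm) (H.fc m hm).symm)).mul_left (ct m (H.MJ hm))).eq
      · calc _ = h F.f * (u * t * u⁻¹) * (u * u) * h F.f * t := by
              nth_rw 1 [uf.eq]
              group
          _ = h (F.f * F.z * F.f) * (t * t) := by
            rw [w.gt, u2, w.mul (mul_mem H.fJ H.zJ) H.fJ, w.mul H.fJ H.zJ]
            simp only [mul_assoc, mul_one, (ct _ H.zJ).left_comm, (ct _ H.fJ).left_comm]
          _ = 1 := by rw [w.t2, mul_one, ← H.fc _ H.zM, mul_assoc, ff, H.z2, w.one]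
      · rw [← conj_mul, ← conj_mul, eo, w.cjt (w.hL y yJ), ← w.cj yJ H.fJ, yf, mul_assoc u,
          ← w.mul H.zJ (inv_mem H.fJ), ← ff, mul_inv_cancel_right]
  · rw [eo, ← conj_mul, ← conj_mul, cj_fix.2 (w.gM a aM), cj_fix.2 (w.gO o ho), w.gt] at inv
    obtain ⟨-, rfl⟩ := C2.lo w.toW0 (mul_mem (mul_mem aJ H.zJ) aJ) ho (by
      rw [w.mul (mul_mem aJ H.zJ) aJ, w.mul aJ H.zJ, ← inv]
      simp only [mul_assoc, (co a aJ).left_comm, (show Commute o t from w.Ot o ho).left_comm,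
        (ct a aJ).left_comm, (ct _ H.zJ).left_comm, w.tt])
    have e1 : u * h y * u⁻¹ = t * h (a * y) := by
      rw [w.mul aJ yJ, ← mul_assoc, (ct a aJ).eq, ← mul_one (h a * t), ← eo, ui]
      group
    have e2 : a * y * (a * y) = 1 := by
      obtain ⟨k, rfl⟩ := hz
      have : y * F.f ^ k * y⁻¹ = (F.f ^ k)⁻¹ := by rw [← conj_zpow, yf, inv_zpow]
      calc _ = F.f ^ k * (y * F.f ^ k * y⁻¹) * (y * y) := by group
        _ = 1 := by rw [this, y2, mul_inv_cancel, mul_one]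
    have yL := w.hL y yJ
    rcases H.inv (mul_mem aJ yJ) e2 with e | e
    · rw [e, w.one, mul_one] at e1
      refine absurd ?_ (w.not_conj H u⁻¹)
      rw [← e1]
      simpa [mul_assoc] using yL
    · obtain ⟨j, hj, e⟩ : F.Zc (a * y) := e.elim id fun e => e.zc hb
      refine absurd ?_ (w.not_conj H (u⁻¹ * h j * u))
      have : u⁻¹ * h j * u * t * (u⁻¹ * h j * u)⁻¹ = h y := by
        calc _ = u⁻¹ * (h j * (u * t * u⁻¹) * (h j)⁻¹) * u := by group
          _ = _ := by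
            rw [w.gt, ← conj_mul, w.cjt (w.hL j hj), ← w.cj hj H.zJ, e, ← e1]
            group
      rwa [this]

theorem W2.exists_we (H : Fx F) {u : G} (w : W2 F t L O α h u) : ∃ e, We F t L O α h e ∧ e F.z = u := by
  classical
  let e : X → G := fun a => if ha : F.Zc a then h ha.choose * u * (h ha.choose)⁻¹ else 1
  have key : ∀ j ∈ F.J, e (j * F.z * j⁻¹) = h j * u * (h j)⁻¹ := fun j hj => by
    have ha : F.Zc (j * F.z * j⁻¹) := ⟨j, hj, rfl⟩
    obtain ⟨hk, ek⟩ := ha.choose_spec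
    simp only [e, dif_pos ha]
    generalize ha.choose = k at hk ek
    have := w.uD (j⁻¹ * k) (Dy.mem_D.2 ⟨mul_mem (inv_mem hj) hk, by
      calc j⁻¹ * k * F.z = j⁻¹ * (k * F.z * k⁻¹) * k := by group
        _ = _ := by rw [ek]; group⟩)
    rw [w.mul (inv_mem hj) hk, w.inv hj] at this
    calc h k * u * (h k)⁻¹ = h j * ((h j)⁻¹ * h k * u) * (h k)⁻¹ := by group
      _ = _ := by rw [← this]; group
  refine ⟨e, ⟨w.toW0, ?_, ?_, ?_, ?_⟩, by simpa [w.one] using key 1 (one_mem _)⟩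
  · rintro _ ⟨j, hj, rfl⟩
    rw [key j hj, cjsq w.u2]
  · rintro _ ⟨j, hj, rfl⟩
    rw [key j hj]
    calc _ = h j * (u * ((h j)⁻¹ * t * (h j)⁻¹⁻¹) * u⁻¹) * (h j)⁻¹ := by group
      _ = _ := by
        rw [w.cjt (inv_mem (w.hL j hj)), w.ut, ← conj_mul (b := h j), w.cjt (w.hL j hj),
          ← w.cj hj H.zJ]
  · rintro _ ⟨j, hj, rfl⟩ o ho
    rw [key j hj]
    exact (((show Commute _ o from w.hO hj ho).mul_left (w.uO o ho)).mul_left
      (Commute.inv_left (w.hO hj ho))).eq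
  · rintro _ ⟨j, hj, rfl⟩ k hk
    rw [show k * (j * F.z * j⁻¹) * k⁻¹ = k * j * F.z * (k * j)⁻¹ by group, key _ (mul_mem hk hj),
      key j hj, w.mul hk hj]
    group

end H36.SV
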