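import Mathlib
import Cfsg.Agent.Lib.StdV.CG
import Cfsg.Agent.Lib.StdV.SuzB

/-! The centraliser of `z` in `Suz.2`. -/

set_option autoImplicit false
set_option maxRecDepth 100000

namespace H36.SV.Suz

open H54

theorem ce_1 : CG.ceB D ew [[], [26], [27], [28], [29], [26, 27], [26, 28], [26, 29], [27, 28], [27, 29], [28, 29], [26, 27, 28], [26, 27, 29], [26, 28, 29], [27, 28, 29], [26, 27, 28, 29]] [27, 28] [27, 29] [28, 29] = true := by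
  decide +kernel

theorem ce_2 : CG.pfB ew D.LD [[[31, 32, 30, 31, 32, 30, 31, 32, 30, 31, 30, 32, 30, 31, 30, 31, 30, 32, 31, 30, 32, 31], [32, 31, 32, 30, 32, 31, 32, 31, 30]], [[31, 32, 30, 31, 32, 30, 31, 30, 31, 30, 32, 31, 30, 31, 32, 31, 32, 31, 30, 32, 30], [31, 30, 32, 30, 31, 30, 32, 30, 32, 30, 31, 32, 31], []], [[30, 32, 30, 31, 32, 30, 32, 31, 32, 31, 30, 32, 30, 31, 32, 31, 32, 30], [32, 30, 32, 31, 30, 31, 30]]] = true := by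
  decide +kernel

theorem ce_3 : CG.gqB D ew [64, 66, 68, 70, 72, 74, 76] [[30], [31], [32], [40, 30, 40, 40], [40, 31, 40, 40], [40, 32, 40, 40]]
    [[0, 1, 0, 1, 0, 1, 0, 1, 0, 1, 0, 1], [1, 5, 2, 1, 0, 2, 1, 4, 1, 4, 3, 4, 1, 3, 0, 2, 1], [2, 1, 0, 2, 1, 2, 0, 2, 1, 2, 0, 1, 2, 1], [0, 1, 2, 5, 4, 5, 4, 3, 4, 5, 4, 5, 2, 1, 0], [3, 2, 5, 2, 3, 5, 3, 4, 3, 5, 3, 2, 5, 2, 3], [2, 3, 5, 3, 0, 2, 3, 4, 5, 0, 2, 0, 5, 4, 3], [2, 0, 2, 1, 2, 0, 1, 2, 1, 2, 1, 0, 2, 1]] = true := by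
  decide +kernel

theorem ce_4 : CG.m1B D ew [[[1, 48], [30, 31], [5, 30, 31], [50, 51, 53]], [[48], [30, 31], [5, 30, 31], [50, 51, 53]]] = true := by
  decide +kernel

theorem ce (a : Suz.F.AutM) : Ce Suz.F :=
  CG.ce mo rfl a ce_1 (CG.pf mo.or ce_2) (fun hz _ => CG.cM mo (W := [[30, 32, 31, 30, 31], [32, 30, 31, 32], [32, 31, 32, 31], [30, 32, 31], [30], [31], [32]])
    hz (by decide +kernel) (by decide +kernel))
    (CG.gq mo (JJ_le H40.Suz.pres hx0 (by decide +kernel)) ce_3)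
    (fun hn => CG.cenJ mo (a := 14) (by decide +kernel) (by decide +kernel) hn (by decide +kernel))
    (CG.mode1 mo ce_4 (by decide +kernel) (by decide +kernel))

end H36.SV.Suz
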