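import Mathlib
import Cfsg.Agent.Lib.StdV.XG
import Cfsg.Agent.Lib.StdV.ONB

/-! The centraliser of `z` in `ON.2`. -/

set_option autoImplicit false
set_option maxRecDepth 100000

namespace H36.SV.ON

open Subgroup H54 H69 Function
open H92.SW (cs mem_cs cs_le lw_nil lw_one lw_cons lw_rep)
open scoped commutatorElement

/-- an element of `N_J(A)` that permutes `z`, `q`, `z q` -/
def conS : List ℕ :=
  [68, 66, 70, 68, 65, 72, 70, 72, 74, 64, 68, 70, 64, 72, 74, 64, 68, 70, 72, 70, 64, 74, 76, 72, 74]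

theorem con_fM : y 4 ∈ cs y D.LM := by
  rw [← lw_one (lt := y) 4, mo.or.eq (w := [31, 30, 31, 30, 31, 30, 31, 30, 31, 30]) (by decide +kernel)]
  exact mem_sub (by decide +kernel)

theorem con_MP : cs y D.LM ≤ centralizer {y 1} := cs_le fun l hl =>
  mo.lP.mem l ((by decide +kernel : ∀ l ∈ D.LM, tb D.VP l = true) l hl)

theorem con_mb {w : List ℕ} (e : band (allL (tb D.VP) w) (memb D.cP D.cM (wc D.cP D.tP.get w)) = true) :
    lw y w ∈ cs y D.LM := mo.lP.mb mo.gM con_MP (zpowers_le.2 con_fM) e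

theorem con_l {l : ℕ} (e : band (allL (tb D.VP) [l]) (memb D.cP D.cM (wc D.cP D.tP.get [l])) = true) :
    y l ∈ cs y D.LM := lw_one (lt := y) l ▸ con_mb e

theorem con_cm {t : ℕ} {u v : List ℕ} (e : ew (u ++ v) (t :: (v ++ u)) = true) : ⁅lw y u, lw y v⁆ = y t := by
  have := mo.or.eq e
  rw [lw_append, lw_cons, lw_append] at this
  rw [commutatorElement_def]
  exact mul_inv_eq_iff_eq_mul.2 (mul_inv_eq_iff_eq_mul.2 (this.trans (mul_assoc _ _ _).symm))

theorem con_sq {l : ℕ} (e : ew [l, l] [] = true) : y l * y l = 1 := by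
  have := mo.or.eq e
  rwa [lw_cons, lw_one] at this

theorem con_two {P : X → Prop} (a : P (y 30)) (b : P (y 31)) : ∀ l ∈ D.LM, P (y l) := fun l hl => by
  rcases (by simpa using (show l ∈ [30, 31] from hl) : l = 30 ∨ l = 31) with rfl | rfl
  exacts [a, b]

theorem con_pf : H48.SM.Pf F.M := by
  refine ⟨cs_le (con_two (P := (· ∈ ⁅F.M, F.M⁆)) ?_ ?_),
    cs_le (con_two (P := (· ∈ closure {i | i ∈ F.M ∧ i * i = 1}))
      (Subgroup.subset_closure ⟨mem_cs y (by decide +kernel), con_sq (by decide +kernel)⟩) ?_)⟩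
  · rw [← con_cm (u := [118, 112]) (v := [42]) (by decide +kernel)]
    exact commutator_mem_commutator (con_mb (by decide +kernel)) (con_mb (by decide +kernel))
  · rw [← con_cm (u := [113, 114, 116]) (v := [31]) (by decide +kernel)]
    exact commutator_mem_commutator (con_mb (by decide +kernel)) (con_mb (by decide +kernel))
  · rw [← lw_one (lt := y) 31,
      mo.or.eq (w := [32, 33, 32, 33, 32, 34, 32, 34, 32, 34, 33, 32, 33]) (by decide +kernel)]
    have h : ∀ l ∈ [32, 33, 34], band (allL (tb D.VP) [l]) (memb D.cP D.cM (wc D.cP D.tP.get [l])) = true ∧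
        ew [l, l] [] = true := by decide +kernel
    exact cs_le (L := [32, 33, 34]) (H := closure {i | i ∈ F.M ∧ i * i = 1})
      (fun l hl => Subgroup.subset_closure ⟨con_l (h l hl).1, con_sq (h l hl).2⟩) (mem_sub (by decide +kernel))

theorem con_MD : F.M ≤ F.D := by
  rw [show F.D = _ from mo.eD]
  exact cs_le fun l hl => mem_cs y ((by decide +kernel : ∀ l ∈ D.LM, l ∈ D.LD) l hl)

theorem con_c {a b : ℕ} (e : ew [a, b] [b, a] = true) : y a * y b = y b * y a := by
  simpa only [lw_one] using mo.or.cm (u := [a]) (v := [b]) e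

theorem con_DD (m : F.Mode2) : ⁅F.D, F.D⁆ ≤ F.M := by
  obtain ⟨-, -, -, -, -, -, ⟨y0, -, -, -, h⟩, -⟩ := m
  have k : ∀ a ∈ F.D, ∀ b ∈ F.D, a ∉ F.M → b ∉ F.M → a * b⁻¹ ∈ F.M := fun a ha b hb n1 n2 => by
    simpa using mul_mem ((h a ha).resolve_left n1) (inv_mem ((h b hb).resolve_left n2))
  have s : ∀ a ∈ F.D, ∀ b ∈ F.D, a * b ∈ F.M → b * a ∈ F.M := fun a ha b hb e => by
    by_cases n : a ∈ F.M
    · exact mul_mem ((mul_mem_cancel_left n).1 e) n
    · simpa using k b hb _ (inv_mem ha) (fun c => n ((mul_mem_cancel_right c).1 e)) fun c => n (inv_mem_iff.1 c)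
  refine commutator_le.2 fun a ha b hb => ?_
  rw [commutatorElement_def, mul_assoc, ← mul_inv_rev]
  by_cases e : a * b ∈ F.M
  · exact mul_mem e (inv_mem (s a ha b hb e))
  · exact k _ (mul_mem ha hb) _ (mul_mem hb ha) e fun c => e (s b hb a ha c)

theorem con_fc : ∀ x ∈ F.M, x * F.f = F.f * x := fun _ hx =>
  mem_centralizer_singleton_iff.1 (cs_le (H := centralizer {y 4}) (con_two (P := (· ∈ centralizer {y 4}))
    (mem_centralizer_singleton_iff.2 (con_c (by decide +kernel)))
    (mem_centralizer_singleton_iff.2 (con_c (by decide +kernel)))) hx)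

theorem con_cM (m : F.Mode2) : F.CM := fun g h => by
  obtain ⟨-, -, -, -, -, k, -, A, hA, cA, -⟩ := m
  have q : y 30 ∈ F.M := mem_cs y (by decide +kernel)
  refine (k (zpowers g) (zpowers_le.2 (hA (cA g fun a ha => h a (hA ha)))) fun x hx =>
    centralizer_le_normalizer _ fun a ha => ?_).elim (fun e => e (mem_zpowers g)) fun e => ?_
  · obtain ⟨i, rfl⟩ := mem_zpowers_iff.1 ha
    exact (Commute.zpow_left (h x hx) i).eq
  · have := (sup_le (c := centralizer {y 30}) (zpowers_le.2 (mem_centralizer_singleton_iff.2 (h _ q)))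
      (zpowers_le.2 (mem_centralizer_singleton_iff.2 (con_fc _ q).symm))) (e (mem_cs y (l := 31) (by decide +kernel)))
    refine absurd (mem_centralizer_singleton_iff.1 this) ?_
    simpa only [lw_one] using mo.or.nc (u := [31]) (v := [30]) (by decide +kernel)

theorem con_gq : F.J ≤ F.D ⊔ (F.J ⊓ centralizer {F.q}) := by
  refine (JJ_le (s := s) (hs := hs) (E := E) (EM := D.EM) H87.ON.pres hx0 (by decide +kernel)).trans
    (cs_le fun l hl => ?_)
  have h := (by decide +kernel : ∀ l ∈ [64, 66, 68, 70, 72, 74, 76], Nat.beq (pw D.EM [l]) 0 = true ∧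
    (ew [l, 1] [1, l] = true ∨ ew [l, 3] [3, l] = true)) l hl
  have j : y l ∈ J := lw_one (lt := y) l ▸ mo.toBs.mem h.1
  exact h.2.elim (fun e => mem_sup_left ⟨j, mem_centralizer_singleton_iff.2 (con_c e)⟩)
    fun e => mem_sup_right ⟨j, mem_centralizer_singleton_iff.2 (con_c e)⟩

theorem con_nA {u a b c : List ℕ} (e : allL (fun p : ℕ × List ℕ => band (sub p.2 [26, 27, 28])
    (ew (u ++ [p.1]) (p.2 ++ u))) [(26, a), (27, b), (28, c)] = true) : lw y u ∈ 𝐍(cs y [26, 27, 28]) := by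
  refine mem_normalizer_fintype fun n hn => ?_
  refine cs_le (H := (cs y [26, 27, 28]).comap (MulAut.conj (lw y u)).toMonoidHom) (fun l hl => ?_) hn
  obtain ⟨w, hw⟩ : ∃ w, (l, w) ∈ [(26, a), (27, b), (28, c)] := by
    rcases (by simpa using hl : l = 26 ∨ l = 27 ∨ l = 28) with rfl | rfl | rfl
    exacts [⟨a, by simp⟩, ⟨b, by simp⟩, ⟨c, by simp⟩]
  have := (band_eq_true _ _).1 ((allL_iff _ _).1 e _ hw)
  have k := mo.or.cj this.2
  rw [lw_one] at k
  exact mem_comap.2 (k ▸ mem_sub this.1 :)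

theorem con_zA : y 1 ∈ cs y [26, 27, 28] := by
  rw [← lw_one (lt := y) 1, mo.or.eq (w := [28, 28]) (by decide +kernel)]
  exact mem_sub (by decide +kernel)

theorem con_TA : F.Ts ≤ 𝐍(cs y [26, 27, 28]) := cs_le fun l hl => by
  rw [← lw_one (lt := y) l]
  rcases (by simpa using (show l ∈ [5, 10, 11, 12] from hl) : l = 5 ∨ l = 10 ∨ l = 11 ∨ l = 12) with
    rfl | rfl | rfl | rfl
  · exact con_nA (a := [26, 26, 26]) (b := [27, 27, 27]) (c := [28, 28, 28]) (by decide +kernel)
  · exact con_nA (a := [26, 26, 26]) (b := [28, 28, 28, 27, 26]) (c := [28, 28, 28]) (by decide +kernel)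
  · exact con_nA (a := [26, 26, 26]) (b := [28, 28, 28, 27, 27, 27]) (c := [28]) (by decide +kernel)
  · exact con_nA (a := [28, 27, 27, 26]) (b := [28, 28, 27, 27, 27]) (c := [28, 28, 28]) (by decide +kernel)

theorem con_cT {g : X} (hg : g ∈ F.Ts) (h : g ∈ 𝐂(cs y [26, 27, 28])) : g ∈ J := by
  obtain ⟨cl, e, m⟩ := mo.lT.srch mo.lT.gd le_rfl (L := [([26], [26]), ([27], [27]), ([28], [28])])
    (Q := fun cl => band (allL (tb D.VT) [0]) (memb D.cT D.chT (wc D.cT cl [0]))) (by decide +kernel) hg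
    fun q hq => by
      rcases (by simpa using hq : q = ([26], [26]) ∨ q = ([27], [27]) ∨ q = ([28], [28])) with rfl | rfl | rfl <;>
        exact (h _ (mem_sub (by decide +kernel))).symm
  have := m.mb mo.gT (cs_le fun l hl => mem_cs y (List.mem_cons_of_mem _ hl)) bot_le e
  rw [lw_one, update_self, ← mo.eT] at this
  exact this.2

theorem con_cA : 𝐂(cs y [26, 27, 28]) ≤ J := by
  have s : IsSylowIn 2 F.Ts ⊤ :=
    mo.toBs.syl (a := 10) (mo.lT.gd.card_bot.trans (by decide +kernel)) (by decide +kernel)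
  have := (s.inf_of_le_normalizer le_top (le_normalizer_centralizer con_TA)).not_dvd_relIndex_of_le
    (K := J ⊓ 𝐂(cs y [26, 27, 28])) (fun g hg => ⟨con_cT hg.1 hg.2, hg.2⟩) inf_le_right
  rw [inf_relIndex_right] at this
  have n := mo.toBs.nJ
  have d := relIndex_dvd_index_of_normal J 𝐂(cs y [26, 27, 28])
  rw [mo.idx] at d
  exact relIndex_eq_one.1 (((Nat.dvd_prime Nat.prime_two).1 d).resolve_right fun e => this e.symm.dvd)

theorem con_sz : lw y conS * y 1 * (lw y conS)⁻¹ = y 3 := by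
  simpa only [lw_one] using mo.or.cj (u := conS) (a := [1]) (v := [3]) (by decide +kernel)

theorem con_sq' : lw y conS * y 3 * (lw y conS)⁻¹ = y 1 * y 3 := by
  simpa only [lw_one, lw_cons _ [_]] using mo.or.cj (u := conS) (a := [3]) (v := [1, 3]) (by decide +kernel)

theorem con_sJ : lw y conS ∈ J := mo.toBs.mem (by decide +kernel)

theorem con_sN : lw y conS ∈ 𝐍(cs y [26, 27, 28]) :=
  con_nA (a := [28, 26, 26]) (b := [27, 27, 27, 26]) (c := [28, 28, 28, 27, 27, 26]) (by decide +kernel)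

theorem ce (a : F.AutM) (m : F.Mode2) : Ce F := by
  refine ⟨con_MD, con_pf, con_l (l := 1) (by decide +kernel), con_l (l := 3) (by decide +kernel), con_fM, con_fc,
    con_DD m, con_cM m, a, ⟨_, con_sJ, con_sz, con_sq'⟩, con_gq, ⟨cs y [26, 27, 28], cs_le fun l hl => con_l
      ((by decide +kernel : ∀ l ∈ [26, 27, 28], band (allL (tb D.VP) [l])
        (memb D.cP D.cM (wc D.cP D.tP.get [l])) = true) l hl), con_zA, con_TA (mem_cs y List.mem_cons_self),
      fun g h => con_cA fun a ha => (h a ha).symm, _, con_sJ, _, con_sJ, con_sN, con_sN, ?_⟩, Or.inr m⟩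
  show lw y conS * (y 1 * (y 5 * (lw y conS * y 1 * (lw y conS)⁻¹) * (y 5)⁻¹)) * (lw y conS)⁻¹ = y 1
  rw [con_sz, con_c (a := 5) (b := 3) (by decide +kernel), mul_inv_cancel_right, ← conj_mul, con_sz, con_sq',
    ← mul_assoc, ← con_c (a := 1) (b := 3) (by decide +kernel), mul_assoc, con_sq (by decide +kernel), mul_one]

theorem eqns_CON : True := by
  have := @conS.eq_1
  trivial

end H36.SV.ON
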