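import Mathlib
import Cfsg.Agent.Lib.StdV.D0

/-! `e a * e c = e (a c)` for pairs of type `(z, q)`. -/

set_option autoImplicit false
set_option linter.unusedSectionVars false

namespace H36.SV

open Subgroup H69 H36.SW

variable {X : Type} [Group X] {G : Type*} [Group G] {F : Dy X}
variable {t : G} {L O : Subgroup G} {α : G → X} {h e : X → G}

namespace D1
open D0

theorem shape (H : Fx F) (x : We F t L O α h e) {b c : X} (hb : F.Zc b) (hc : F.Zc c) (hk : F.Zc (b * c))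
    (ln : ∀ g, F.CC b c g → g = 1 ∨ g = b ∨ g = c ∨ g = b * c) :
    ∃ f, (f = 1 ∨ f = b ∨ f = c ∨ f = b * c) ∧ (e b * e c = e (b * c) * h f ∨
      e b * e c = e (b * c) * (h f * t)) := by
  have e0 := zcomm H hb hc hk
  have hf := ln _ (cc H x hb hc hk)
  have c0 := ct H x hb hc hk
  have hov := x.toW0.ovr c0
  generalize α (e (b * c) * (e b * e c)) = f at hf hov
  obtain ⟨fJ, f2, fc⟩ : f ∈ F.J ∧ f * f = 1 ∧ f * (b * c) = b * c * f := by
    rcases hf with rfl | rfl | rfl | rfl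
    exacts [⟨one_mem _, by simp, by simp⟩, ⟨H.Zc_mem hb, H.Zc_sq hb, by rw [mul_assoc, e0]⟩,
      ⟨H.Zc_mem hc, H.Zc_sq hc, by rw [← mul_assoc, e0]⟩, ⟨H.Zc_mem hk, H.Zc_sq hk, rfl⟩]
  have fin : ∀ {y o}, o ∈ O → P2 (e (b * c) * y) → y * o = o * y →
      e (b * c) * (e b * e c) = y * o → e b * e c = e (b * c) * y :=
    fun {y o} ho y2 cm hh => by
      have h1 : e b * e c = e (b * c) * y * o := by
        rw [mul_assoc, ← hh, ← mul_assoc, x.e2 _ hk, one_mul]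
      rw [h1, inv_odd y2 ((eO x hk ho).mul_left cm) (eO x hb ho) (x.oddO o ho)
        (h1 ▸ H9.left_inverts (x.e2 _ hb) (x.e2 _ hc)), mul_one]
  have kf := eC x hk fJ fc
  have hf2 := x.sq fJ f2
  obtain ⟨o, ho, hh | hh⟩ := hov fJ
  · exact ⟨f, hf, Or.inl (fin ho ((P2.of_sq (x.e2 _ hk)).mul (P2.of_sq hf2) kf) (x.toW0.hO fJ ho) hh)⟩
  · refine ⟨f, hf, Or.inr (fin ho ?_ (Commute.mul_left (x.toW0.hO fJ ho) (x.Ot o ho).symm :) hh)⟩
    rw [← mul_assoc, kf.eq, mul_assoc]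
    refine (P2.of_sq hf2).mul (P2.of_mul_self ?_) (kf.symm.mul_right (x.toW0.ht fJ))
    rw [show e (b * c) * t * (e (b * c) * t) =
      e (b * c) * t * (e (b * c))⁻¹ * t by rw [ei x hk, mul_assoc _ _ t], x.et _ hk,
      ← x.toW0.ht (H.Zc_mem hk), mul_assoc, x.t2, mul_one]
    exact P2.of_sq (x.sq (H.Zc_mem hk) (H.Zc_sq hk))

theorem tw_cj (H : Fx F) (x : We F t L O α h e) {b c f : X} (hc : F.Zc c) (hk : F.Zc (b * c)) (fJ : f ∈ F.J)
    (f2 : f * f = 1) (fc : f * (b * c) = b * c * f) (hh : e b * e c = e (b * c) * (h f * t)) :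
    e b * e c * e b = h (b * c) * e c := by
  have kJ := H.Zc_mem hk
  refine eq_mul_inv_iff_mul_eq.2 ?_ |>.trans (by rw [ei x hc])
  calc _ = e (b * c) * h f * t * (e (b * c) * h f) * t := by rw [mul_assoc, hh]; group
    _ = h f * (e (b * c) * t * (e (b * c))⁻¹) * h f * t := by
      rw [ei x hk]; conv_lhs => lhs; lhs; rw [(eC x hk fJ fc).eq]
      group
    _ = _ := by
      rw [x.et _ hk, ← x.toW0.ht kJ, ← mul_assoc, x.comm fJ kJ fc, mul_assoc _ t, ← x.toW0.ht fJ, ← mul_assoc,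
        mul_assoc _ (h f) (h f), x.sq fJ f2, mul_one, mul_assoc, x.t2, mul_one]

theorem add_or (H : Fx F) (x : We F t L O α h e) {b c : X} (hb : F.Zc b) (hc : F.Zc c) (hk : F.Zc (b * c))
    (ln : F.Ln b c) : e b * e c = e (b * c) ∨ e b * e c = e (b * c) * (h b * t) := by
  have e0 := zcomm H hb hc hk
  have ne : b ≠ c := fun q => H.Zc_ne hk (by rw [← q, H.Zc_sq hb])
  obtain ⟨⟨l, hl, s1, s2⟩, ln2, -⟩ := ln
  have s3 : l * (b * c) * l⁻¹ = b := by rw [← conj_mul, s1, s2, e0, ← mul_assoc, H.Zc_sq hc, one_mul]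
  have r : ∀ y, e b * e c = e (b * c) * y → e c * e (b * c) = e b * (h l * y * (h l)⁻¹) := fun y hh => by
    have := congrArg (fun g => h l * g * (h l)⁻¹) hh
    simp only [← conj_mul, ← x.ecj _ hb l hl, ← x.ecj _ hc l hl, ← x.ecj _ hk l hl, s1, s2, s3] at this
    simpa only [conj_mul] using this
  obtain ⟨f, hf, hh⟩ := shape H x hb hc hk ln2
  obtain ⟨fJ, f2, fc⟩ : f ∈ F.J ∧ f * f = 1 ∧ f * (b * c) = b * c * f := by
    rcases hf with rfl | rfl | rfl | rfl
    exacts [⟨one_mem _, by simp, by simp⟩, ⟨H.Zc_mem hb, H.Zc_sq hb, by rw [mul_assoc, e0]⟩,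
      ⟨H.Zc_mem hc, H.Zc_sq hc, by rw [← mul_assoc, e0]⟩, ⟨H.Zc_mem hk, H.Zc_sq hk, rfl⟩]
  have hf2 := x.sq fJ f2
  have lf : l * f * l⁻¹ ∈ F.J := H.cjJ fJ l
  rcases hh with hh | hh
  · have c1 : e c * e b = e b * e c := by
      rw [← ei x hb, ← ei x hc, ← mul_inv_rev, ei x hb, ei x hc, hh, mul_inv_rev, ei x hk,
        inv_eq_of_mul_eq_one_left hf2, (eC x hk fJ fc).eq]
    have h2 := r _ hh
    rw [eq_mul_inv_of_mul_eq hh.symm, ← mul_assoc, ← c1, ← mul_assoc, x.e2 _ hc, one_mul, mul_right_inj,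
      inv_eq_of_mul_eq_one_left hf2, ← x.cj hl fJ] at h2
    replace h2 := x.hinj fJ lf h2
    rcases hf with rfl | rfl | rfl | rfl
    · exact Or.inl (by rw [hh, x.one, mul_one])
    · exact absurd (h2.trans s1) ne
    · exact absurd (mul_eq_right.1 (h2.trans s2).symm) (H.Zc_ne hb)
    · exact absurd (mul_eq_left.1 (h2.trans s3)) (H.Zc_ne hc)
  · have h1 := tw_cj H x hc hk fJ f2 fc hh
    have h2 := r _ hh
    have h3 : e c * (e b * e c) = e b * h (b * c) := by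
      calc _ = e b * (e b * e c * e b) * e c := by
            rw [← mul_assoc, ← mul_assoc, ← mul_assoc, x.e2 _ hb, one_mul]
        _ = _ := by rw [h1, mul_assoc, mul_assoc, x.e2 _ hc, mul_one]
    rw [eq_mul_inv_of_mul_eq hh.symm, ← mul_assoc, h3, mul_assoc, mul_right_inj, ← conj_mul,
      x.toW0.cjt (x.hL l hl), mul_inv_rev, x.toW0.ti, inv_eq_of_mul_eq_one_left hf2, ← x.toW0.ht fJ, ← mul_assoc,
      mul_left_inj, ← x.cj hl fJ, ← x.mul (H.Zc_mem hk) fJ] at h2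
    replace h2 := x.hinj (mul_mem (H.Zc_mem hk) fJ) lf h2
    rcases hf with rfl | rfl | rfl | rfl
    · exact absurd (by simpa using h2) (H.Zc_ne hk)
    · exact Or.inr hh
    · exact absurd (mul_eq_left.1 (h2.trans s2)) (H.Zc_ne hc)
    · exact absurd ((H.Zc_sq hk).symm.trans (h2.trans s3)).symm (H.Zc_ne hb)

theorem not_tw (H : Fx F) (x : We F t L O α h e) {a c : X} (ha : F.Zc a) (hc : F.Zc c) (hk : F.Zc (a * c))
    (ln : F.Ln a c) : e a * e c ≠ e (a * c) * (h a * t) := fun tw => by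
  obtain ⟨-, -, c0, z0, κ, hκ, k1, k2, ⟨j, hj, j1, j2⟩, no⟩ := ln
  have aJ := H.Zc_mem ha
  have cJ := H.Zc_mem hc
  have oJ := H.Zc_mem z0
  have z1 : F.Zc (c * c0) := j2 ▸ hc.cj hj
  have j3 : j * (a * c) * j⁻¹ = a * (c * c0) := by rw [← conj_mul, j1, j2]
  have z2 : F.Zc (a * (c * c0)) := j3 ▸ hk.cj hj
  have m1 : Commute a c := zcomm H ha hc hk
  have m2 : Commute c c0 := zcomm H hc z0 z1
  have m3 : Commute a (c * c0) := zcomm H ha z1 z2
  have a2 := x.sq aJ (H.Zc_sq ha)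
  have ai := inv_eq_of_mul_eq_one_left a2
  have tw2 : e a * e (c * c0) = e (a * (c * c0)) * (h a * t) := by
    have := congrArg (fun g => h j * g * (h j)⁻¹) tw
    simp only [← conj_mul, ← x.ecj _ ha j hj, ← x.ecj _ hc j hj, ← x.ecj _ hk j hj, j1, j2, j3,
      x.toW0.cjt (x.hL j hj), ← x.cj hj aJ] at this
    exact this
  have q1 : e (a * c) = e a * e c * t * h a := by
    rw [eq_mul_inv_of_mul_eq tw.symm, mul_inv_rev, x.toW0.ti, ai, ← mul_assoc]
  have q2 : e (a * (c * c0)) = h a * t * e (c * c0) * e a := by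
    rw [← ei x z2, eq_mul_inv_of_mul_eq tw2.symm, mul_inv_rev, inv_inv, mul_inv_rev, ei x ha, ei x z1,
      ← mul_assoc]
  have k3 : κ * (c * c0) * κ⁻¹ = a * (c * c0) := by rw [← conj_mul, k1, k2, mul_assoc]
  have n1 := x.CN _ (ct H x hc z0 z1)
  have key : h κ * (e (c * c0) * (e c * e c0)) * (h κ)⁻¹ = e (c * c0) * (e c * e c0) * h c0 := by
    rw [← conj_mul, ← conj_mul, ← x.ecj _ z1 κ hκ, ← x.ecj _ hc κ hκ, ← x.ecj _ z0 κ hκ, k1, k2, k3, q1, q2]
    have t1 := te H x z1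
    have t2 := te H x hc
    have b1 : Commute (e c) (h (c * c0)) := eC x hc (H.Zc_mem z1) (Commute.mul_left rfl m2.symm :)
    have b2 : h (c * c0) * h c = h c0 := by
      rw [← x.mul (H.Zc_mem z1) cJ, m2.eq, mul_assoc, H.Zc_sq hc, mul_one]
    have b3 : Commute (e (c * c0)) (h a) := eC x z1 aJ m3
    have b4 : Commute (e c) (h a) := eC x hc aJ m1
    have m4 : Commute a c0 := by
      have := m1.inv_right.mul_right m3
      rwa [inv_mul_cancel_left] at this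
    have b5 : Commute (h c0) (h a) := x.comm oJ aJ m4.symm
    have b6 : Commute (e c0) (h c0) := eC x z0 oJ rfl
    calc _ = h a * (t * e (c * c0) * t⁻¹) * (t * (e a * e a) * e c * t) * h a * e c0 := by group
      _ = h a * (e (c * c0) * (h (c * c0) * e c) * h c) * h a * e c0 := by
        rw [x.e2 a ha, mul_one, t1, show t * e c * t = e c * h c by rw [← t2, x.toW0.ti]]; group
      _ = h a * (e (c * c0) * e c * h c0) * h a * e c0 := by
        rw [← b1.eq, ← b2]; group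
      _ = e (c * c0) * e c * h c0 * e c0 := by
        rw [← ((b3.mul_left b4).mul_left b5).eq, mul_assoc _ (h a) (h a), a2, mul_one]
      _ = _ := by rw [mul_assoc _ (h c0), ← b6.eq]; group
  refine no _ (cc H x hc z0 z1) ?_
  have := congrArg α key
  rwa [x.cov.conj (x.hN hκ) n1, x.cov.mul _ n1 _ (x.hN oJ), x.αh κ hκ, x.αh c0 oJ] at this

end D1

variable [Finite X] [Finite G]

theorem We.ty_ad (H : Fx F) (ln : F.Ln F.z F.q) (x : We F t L O α h e) {a c : X} (hy : F.Ty a c) :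
    AdE F h e a c 1 := by
  have ha := H.Ty1 hy
  have hc := H.Ty2 hy
  have hk := H.Ty3 hy
  have l : F.Ln a c := let ⟨g, e1, e2⟩ := hy; e1 ▸ e2 ▸ H.Ln_cj ln g
  refine ⟨ha, hc, hk, one_mem _, ?_⟩
  rw [x.one, mul_one]
  exact (D1.add_or H x ha hc hk l).resolve_right (D1.not_tw H x ha hc hk l)

end H36.SV
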