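import Mathlib
import Cfsg.Agent.Lib.StdV.Defs2
import Cfsg.Agent.Lib.StdW.D2

/-! The rules obeyed by the involutions `e a`. -/

set_option autoImplicit false
set_option linter.unusedSectionVars false

namespace H36.SV

open Subgroup H69 H36.SW

variable {X : Type} [Group X] [Finite X] {G : Type*} [Group G] [Finite G] {F : Dy X}
variable {t : G} {L O : Subgroup G} {α : G → X} {h e : X → G}

namespace D2

theorem iv {x : G} (h : x * x = 1) : x⁻¹ = x := inv_eq_of_mul_eq_one_left h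

variable (H : Fx F) (x : We F t L O α h e)
include H

theorem zc {a c : X} (ha : F.Zc a) (hc : F.Zc c) (hk : F.Zc (a * c)) : a * c = c * a := by
  rw [← inv_eq_of_mul_eq_one_left (H.Zc_sq hk), mul_inv_rev, inv_eq_of_mul_eq_one_left (H.Zc_sq ha),
    inv_eq_of_mul_eq_one_left (H.Zc_sq hc)]

include x

theorem h2 {a : X} (ha : F.Zc a) : h a * h a = 1 := x.sq (H.Zc_mem ha) (H.Zc_sq ha)

omit H in
theorem eC {a d : X} (ha : F.Zc a) (hd : d ∈ F.J) (c : d * a = a * d) : Commute (e a) (h d) := by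
  have := x.ecj a ha d hd
  rw [cj_fix.2 c] at this
  exact (cj_fix.1 this.symm).symm

theorem ea {a : X} (ha : F.Zc a) : Commute (e a) (h a) := eC x ha (H.Zc_mem ha) rfl

theorem b2 {a : X} (ha : F.Zc a) : e a * h a * (e a * h a) = 1 := by
  rw [mul_assoc, ← mul_assoc (h a), ← (ea H x ha).eq, mul_assoc, h2 H x ha, mul_one, x.e2 a ha]

theorem te {a : X} (ha : F.Zc a) : t * e a * t⁻¹ = e a * h a := by
  have h1 := x.et a ha
  rw [iv (x.e2 a ha)] at h1
  calc _ = e a * (e a * t * e a) * t⁻¹ := by rw [← mul_assoc, ← mul_assoc, x.e2 a ha, one_mul]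
    _ = _ := by rw [h1, ← x.ht (H.Zc_mem ha)]; group

theorem tb {a : X} (ha : F.Zc a) : t * (e a * h a) * t⁻¹ = e a := by
  rw [← te H x ha, x.ti, ← mul_assoc, ← mul_assoc, x.t2, one_mul, x.tt']

theorem nt {a : X} (ha : F.Zc a) : ¬ Commute (e a) t := fun c => by
  have := x.et a ha
  rw [c.eq, mul_inv_cancel_right, left_eq_mul] at this
  exact x.ne (H.Zc_mem ha) (H.Zc_ne ha) this

theorem ad1 {a c : X} (r : AdE F h e a c 1) : e a * e c = e (a * c) := by rw [r.2.2.2.2, x.one, mul_one]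

theorem adz {a c m : X} (r : AdE F h e a c m) : a * c = c * a := zc H r.1 r.2.1 r.2.2.1

theorem adc {a c : X} (r : AdE F h e a c 1) : Commute (e a) (e c) := by
  show _ = _
  rw [← iv (x.e2 a r.1), ← iv (x.e2 c r.2.1), ← mul_inv_rev, ← mul_inv_rev, ad1 H x r, iv (x.e2 _ r.2.2.1),
    ← ad1 H x r, mul_inv_rev, iv (x.e2 a r.1), iv (x.e2 c r.2.1)]

theorem rw1 {a c : X} (r : RwE F h e a c 1) : Commute (e a * h a) (e c) := by
  have := r.2.2.2
  rw [x.one, one_mul] at this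
  exact cj_fix.1 (by rwa [iv (b2 H x r.1)])

theorem rw1' {a c : X} (ha : F.Zc a) (hc : F.Zc c) (r : Commute (e a * h a) (e c)) : RwE F h e a c 1 :=
  ⟨ha, hc, one_mem _, by rw [r.eq, mul_assoc, b2 H x ha, x.one, one_mul, mul_one]⟩

theorem cc {a c : X} (ha : a ∈ F.J) (hc : c ∈ F.J) {g : G} (ct : g * t = t * g) (h1 : Commute g (h a))
    (h2 : Commute g (h c)) (h3 : ∀ d ∈ F.J, d * a = a * d → d * c = c * d → Commute g (h d)) : F.CC a c (α g) :=
  ⟨x.of_comm (x.CN _ ct) ha h1, x.of_comm (x.CN _ ct) hc h2,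
    fun d hd e1 e2 => x.of_comm (x.CN _ ct) hd (h3 d hd e1 e2)⟩

theorem ad_cj {j : X} (hj : j ∈ F.J) {a c m : X} (r : AdE F h e a c m) :
    AdE F h e (j * a * j⁻¹) (j * c * j⁻¹) (j * m * j⁻¹) := by
  obtain ⟨ha, hc, hk, hm, r⟩ := r
  refine ⟨ha.cj hj, hc.cj hj, by rw [conj_mul]; exact hk.cj hj, H.cjJ hm j, ?_⟩
  rw [conj_mul, x.ecj a ha j hj, x.ecj c hc j hj, x.ecj _ hk j hj, x.cj hj hm, conj_mul, conj_mul, r]

theorem shape {w a c : X} (r1 : AdE F h e w a 1) (r2 : AdE F h e w c 1) (r3 : AdE F h e w (a * c) 1)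
    (hg : ∀ g, F.CC a c g → g ∈ F.J ∧ P2 g) : ∃ m, F.CC a c m ∧ AdE F h e a c m := by
  have hw := r1.1
  have ha := r1.2.1
  have hc := r2.2.1
  have hk := r3.2.1
  have ac := zc H ha hc hk
  have aJ := H.Zc_mem ha
  have cJ := H.Zc_mem hc
  have ct : e (a * c) * (e a * e c) * t = t * (e (a * c) * (e a * e c)) := cj_fix.1 (by
    calc _ = e (a * c) * (e a * (e c * t * (e c)⁻¹) * (e a)⁻¹) * (e (a * c))⁻¹ := by group
      _ = t := by
        rw [x.et c hc, cjm _ t, x.et a ha, (eC x ha cJ ac.symm).eq, mul_inv_cancel_right, mul_assoc t,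
          ← x.mul aJ cJ, cjm _ t, x.et _ hk, (ea H x hk).eq, mul_inv_cancel_right, mul_assoc t, h2 H x hk, mul_one])
  have cd : ∀ d ∈ F.J, d * a = a * d → d * c = c * d → Commute (e (a * c) * (e a * e c)) (h d) := fun d hd e1 e2 =>
    (eC x hk hd (Commute.mul_right e1 e2 :)).mul_left ((eC x ha hd e1).mul_left (eC x hc hd e2))
  have hm := cc H x aJ cJ ct (cd a aJ rfl ac) (cd c cJ ac.symm rfl) cd
  obtain ⟨mJ, m2⟩ := hg _ hm
  refine ⟨_, hm, ha, hc, hk, mJ, ?_⟩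
  obtain ⟨o, ho, k⟩ := x.ovr ct mJ
  generalize α (e (a * c) * (e a * e c)) = m at *
  rcases k with k | k
  · have h1 : e a * e c = e (a * c) * h m * o := by rw [mul_assoc, ← k, ← mul_assoc, x.e2 _ hk, one_mul]
    rw [h1, inv_odd ((P2.of_sq (x.e2 _ hk)).mul (x.p2 mJ m2) (eC x hk mJ (Commute.mul_right hm.1 hm.2.1 :)))
      (Commute.mul_left (x.eO _ hk o ho) (x.hO mJ ho) :) (x.eO a ha o ho) (x.oddO o ho)
      (h1 ▸ H9.left_inverts (x.e2 a ha) (x.e2 c hc)), mul_one]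
  · have h1 : Commute (e w) (h m * t * o) := k ▸ (adc H x r3).mul_right ((adc H x r1).mul_right (adc H x r2))
    have h2 := (eC x hw mJ (hm.2.2 w (H.Zc_mem hw) (adz H x r1) (adz H x r2))).inv_right.mul_right
      (h1.mul_right (Commute.inv_right (x.eO w hw o ho)))
    rw [mul_inv_cancel_right, inv_mul_cancel_left] at h2
    exact absurd h2 (nt H x hw)

theorem tau' {s a c : X} (r1 : AdE F h e s a 1) (r2 : AdE F h e s c 1) (k : c * a * c = a * s)
    (hg : ∀ g, F.CC a c g → g ∈ F.J ∧ P2 g ∧ g * g * a ≠ 1) : ∃ l, F.CC a c l ∧ l * l = 1 ∧ RwE F h e c a l := by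
  have hs := r1.1
  have ha := r1.2.1
  have hc := r2.2.1
  have sJ := H.Zc_mem hs
  have aJ := H.Zc_mem ha
  have cJ := H.Zc_mem hc
  have sa := adz H x r1
  have sc := adz H x r2
  have k' : a * c * a = s * c := by
    calc _ = a * (c * a * c) * c := by rw [mul_assoc a, mul_assoc a, mul_assoc _ c c, H.Zc_sq hc, mul_one]
      _ = _ := by rw [k, ← mul_assoc, H.Zc_sq ha, one_mul]
  have sch := eC x hs cJ sc.symm
  obtain ⟨c1, c2, c3⟩ := tau (x.e2 a ha) (b2 H x hc) (h2 H x ha) (h2 H x hc) (h2 H x hs) (x.e2 s hs) (x.et a ha)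
    (by rw [← x.et c hc]; conv_rhs => rw [← x.cjt (x.hL c cJ)]
        group) (ea H x ha) ((ea H x hc).mul_left (Commute.refl _))
    (by
      have := x.ecj a ha c cJ
      rw [inv_eq_of_mul_eq_one_left (H.Zc_sq hc), k, iv (h2 H x hc), ← sa, ← ad1 H x r1, (adc H x r1).eq] at this
      exact this.symm)
    (by
      have h1 := x.ecj c hc a aJ
      have h3 := x.cj aJ cJ
      rw [inv_eq_of_mul_eq_one_left (H.Zc_sq ha), k', iv (h2 H x ha)] at h1 h3
      calc _ = h a * e c * h a * (h a * h c * h a) := by simp only [mul_assoc, can (h2 H x ha)]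
        _ = _ := by
          rw [← h1, ← h3, ← ad1 H x r2, (adc H x r2).eq, sc, x.mul cJ sJ, mul_assoc, ← mul_assoc (e s), sch.eq]
          group)
    (adc H x r1) ((adc H x r2).mul_right sch) (eC x hs aJ sa.symm) (ea H x hs) (eC x ha sJ sa).symm
    ((eC x hc sJ sc).symm.mul_right (x.comm sJ cJ sc)) (x.comm sJ cJ sc)
    (by rw [← x.mul cJ aJ, ← x.mul (mul_mem cJ aJ) cJ, k, x.mul aJ sJ])
  have hm := cc H x aJ cJ c1 c2 c3 fun d hd e1 e2 =>
    have := (eC x ha hd e1).mul_left ((eC x hc hd e2).mul_left (x.comm cJ hd e2.symm)); this.mul_left this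
  obtain ⟨mJ, m2, m3⟩ := hg _ hm
  have v := H9.conj_pow_of_inverts (H9.left_inverts (x.e2 a ha) (b2 H x hc)) 2
  rw [pow_two] at v
  obtain ⟨o, ho, q⟩ := x.ovr c1 mJ
  generalize α (e a * (e c * h c) * (e a * (e c * h c))) = m at *
  have am := eC x ha mJ hm.1
  rcases q with q | q <;> rw [q] at v
  · obtain rfl := inv_odd (x.p2 mJ m2) (x.hO mJ ho) (x.eO a ha o ho) (x.oddO o ho) v
    rw [mul_one] at v q
    rw [am.eq, mul_inv_cancel_right] at v
    refine ⟨m, hm, x.hinj (mul_mem mJ mJ) (one_mem _) (by rw [x.mul mJ mJ, x.one, mul_eq_one_iff_eq_inv.2 v]),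
      hc, ha, mJ, ?_⟩
    rw [v, ← q, mul_inv_rev, mul_inv_rev, iv (b2 H x hc), iv (x.e2 a ha)]
    simp only [mul_assoc, x.e2 a ha, mul_one]
  · rw [inv_odd ((x.p2 mJ m2).mul (P2.of_sq x.t2) (x.ht mJ)) (Commute.mul_left (x.hO mJ ho) (x.Ot o ho).symm :)
      (x.eO a ha o ho) (x.oddO o ho) v, mul_one, cjm, x.et a ha, am.eq, mul_inv_cancel_right, mul_inv_rev, x.ti,
      ← mul_assoc, x.ht mJ, mul_assoc, mul_right_inj] at v
    refine absurd (x.hinj (mul_mem (mul_mem mJ mJ) aJ) (one_mem _) ?_) m3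
    rw [x.mul (mul_mem mJ mJ) aJ, x.mul mJ mJ, mul_assoc, v, mul_inv_cancel, x.one]

theorem add {w y k l1 l2 : X} (r : AdE F h e y k 1) (r1 : RwE F h e w y l1) (r2 : RwE F h e w k l2) :
    e w * h w * e (y * k) * (e w * h w) = h l1 * e y * (h l2 * e k) := by
  rw [← r1.2.2.2, ← r2.2.2.2, ← ad1 H x r]
  simp only [mul_assoc _ (e w * h w), mul_assoc (e w * h w), can (b2 H x r1.1), mul_assoc (e y)]

end D2

open D2 in
theorem We.ru (H : Fx F) (x : We F t L O α h e) (ty : ∀ a c, F.Ty a c → AdE F h e a c 1) :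
    Ru F (AdE F h e) (RwE F h e) := by
  refine ⟨ty, fun j hj a c m r => ad_cj H x hj r, fun a c r => ?_, fun a c r => ?_, fun w a c r1 r2 r3 hg => ?_,
    fun y k k' m1 m2 m3 m4 r1 r2 r3 r4 q => ?_, fun a ha => ?_, fun a c r => ?_, fun j hj a c l r => ?_,
    fun a c l r => ?_, fun a c l l' r r' => ?_, fun w y k l1 l2 r r1 r2 q => ?_, fun w y k l1 l2 l3 r r1 r2 r3 => ?_,
    fun s a c r1 r2 k hg => tau' H x r1 r2 k hg, fun a b c r1 r2 r3 => ?_⟩
  · exact ⟨r.2.1, r.1, adz H x r ▸ r.2.2.1, one_mem _, by rw [← (adc H x r).eq, r.2.2.2.2, adz H x r]⟩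
  · have q : a * (a * c) = c := by rw [← mul_assoc, H.Zc_sq r.1, one_mul]
    exact ⟨r.1, r.2.2.1, q.symm ▸ r.2.1, one_mem _, by rw [q, ← ad1 H x r, can (x.e2 a r.1), x.one, mul_one]⟩
  · obtain ⟨m, hm, r⟩ := shape H x r1 r2 r3 hg
    have mJ := r.2.2.2.1
    refine ⟨m, hm, r, fun κ hκ e1 e2 => ?_, fun κ hκ e1 e2 => ?_⟩ <;>
      refine cj_fix.1 (x.hinj (H.cjJ mJ κ) mJ ?_) <;> have q := (ad_cj H x hκ r).2.2.2.2 <;> rw [e1, e2] at q
    · rw [← ad1 H x r1, mul_assoc w, ← ad1 H x r3, mul_assoc, mul_assoc, r.2.2.2.2, mul_right_inj, mul_right_inj] at q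
      exact q.symm
    · rw [← ad1 H x r2, ← mul_assoc a, ← adz H x r1, mul_assoc w, ← ad1 H x r3, ← mul_assoc, ← (adc H x r1).eq,
        mul_assoc, mul_assoc, r.2.2.2.2, mul_right_inj, mul_right_inj] at q
      exact q.symm
  · have := mul_assoc (e y) (e k) (e k')
    rw [r1.2.2.2.2, r3.2.2.2.2, mul_assoc, ← (eC x r2.2.1 r1.2.2.2.1 q).eq, ← mul_assoc, r2.2.2.2.2, ← mul_assoc,
      r4.2.2.2.2, mul_assoc y, mul_assoc, mul_assoc, mul_right_inj, ← x.mul r2.2.2.2.1 r1.2.2.2.1,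
      ← x.mul r4.2.2.2.1 r3.2.2.2.1] at this
    exact x.hinj (mul_mem r2.2.2.2.1 r1.2.2.2.1) (mul_mem r4.2.2.2.1 r3.2.2.2.1) this
  · exact rw1' H x ha ha ((Commute.refl _).mul_left (ea H x ha).symm)
  · exact rw1' H x r.1 r.2.1 ((adc H x r).mul_left (eC x r.2.1 (H.Zc_mem r.1) (adz H x r)).symm)
  · obtain ⟨ha, hc, hl, r⟩ := r
    refine ⟨ha.cj hj, hc.cj hj, H.cjJ hl j, ?_⟩
    rw [x.ecj a ha j hj, x.ecj c hc j hj, x.cj hj hl, x.cj hj (H.Zc_mem ha)]
    simp only [conj_mul, r]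
  · obtain ⟨ha, hc, hl, r⟩ := r
    refine ⟨hc, ha, inv_mem hl, ?_⟩
    have q := congrArg (fun g => t * g * t⁻¹) r
    simp only [cjm t (h l), cjm t (e a * h a * e c), cjm t (e a * h a) (e c), tb H x ha, te H x hc, ← x.ht hl,
      mul_inv_cancel_right] at q
    have d2 := b2 H x hc
    generalize e c * h c = d at q d2
    rw [x.inv hl, eq_mul_inv_of_mul_eq q.symm]
    simp only [mul_inv_rev, iv d2, iv (x.e2 a ha), mul_assoc, x.e2 a ha, mul_one]
  · exact x.hinj r.2.2.1 r'.2.2.1 (mul_right_cancel (r.2.2.2.symm.trans r'.2.2.2))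
  · refine ⟨r1.1, r.2.2.1, mul_mem r1.2.2.1 r2.2.2.1, ?_⟩
    rw [add H x r r1 r2, x.mul r1.2.2.1 r2.2.2.1, ← ad1 H x r, mul_assoc, ← mul_assoc (e y),
      (eC x r.1 r2.2.2.1 q).eq]
    group
  · have q := (add H x r r1 r2).symm.trans r3.2.2.2
    have yJ := H.Zc_mem r.1
    have q2 : h l2 = (e y)⁻¹ * ((h l1)⁻¹ * h l3) * (e y)⁻¹⁻¹ := by
      rw [← ad1 H x r, ← mul_assoc, ← mul_assoc, mul_left_inj] at q
      rw [inv_inv, mul_assoc, mul_assoc, ← q]
      group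
    have q3 : Commute (h l2) ((e y)⁻¹ * t * (e y)⁻¹⁻¹) :=
      q2 ▸ cj_comm' (Commute.mul_left (Commute.inv_left (x.ht r1.2.2.1)) (x.ht r3.2.2.1))
    rw [iv (x.e2 y r.1), x.et y r.1] at q3
    have q4 := (Commute.inv_right (x.ht r2.2.2.1)).mul_right q3
    rw [inv_mul_cancel_left] at q4
    exact x.hinj (mul_mem r2.2.2.1 yJ) (mul_mem yJ r2.2.2.1) (by rw [x.mul r2.2.2.1 yJ, x.mul yJ r2.2.2.1, q4.eq])
  · have hb := r3.1
    have bJ := H.Zc_mem hb
    have bi : b⁻¹ = b := inv_eq_of_mul_eq_one_left (H.Zc_sq hb)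
    have q := x.ecj c r3.2.1 b bJ
    have z := r3.2.1.cj bJ
    rw [bi] at q z
    refine rw1' H x r1.1 z ?_
    have q2 : h b * e c * (h b)⁻¹ = (e b)⁻¹ * e c * e b := by
      calc _ = (e b)⁻¹ * (e b * h b * e c) * (h b)⁻¹ := by group
        _ = _ := by rw [(rw1 H x r3).eq]; group
    rw [q, q2]
    exact ((rw1 H x r1).inv_right.mul_right (rw1 H x r2)).mul_right (rw1 H x r1)

end H36.SV
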