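import Mathlib
import Cfsg.Agent.Lib.StdV.D0

/-! The relation between `e a` and `e (a f)` in type `O'N`. -/

set_option autoImplicit false
set_option linter.unusedSectionVars false

namespace H36.SV

open Subgroup H69 H36.SW
open scoped commutatorElement

variable {X : Type} [Group X] {G : Type*} [Group G] {F : Dy X}
variable {t : G} {L O : Subgroup G} {α : G → X} {h e : X → G}

namespace DP
open D0

/-- the elements moving `t` to `t f̂ u` -/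
structure Th (F : Dy X) (t : G) (O : Subgroup G) (h e : X → G) (g : G) : Prop where
  gt : g * t * g⁻¹ = t * h F.f * e F.z
  gu : Commute g (e F.z)
  gO : ∀ o ∈ O, Commute g o

/-- the quotients of two such -/
structure Kd (F : Dy X) (O : Subgroup G) (h : X → G) (d : G) : Prop where
  cM : ∀ m ∈ F.M, Commute d (h m)
  cO : ∀ o ∈ O, Commute d o
  ex : ∃ m ∈ F.M, ∃ o ∈ O, d = h m * o

theorem Kd.comm {d d' : G} (p : Kd F O h d) (p' : Kd F O h d') : Commute d d' := by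
  obtain ⟨m, hm, o, ho, rfl⟩ := p'.ex
  exact (p.cM m hm).mul_right (p.cO o ho)

theorem uM (H : Fx F) (x : We F t L O α h e) {m : X} (hm : m ∈ F.M) : Commute (e F.z) (h m) :=
  eC x Dy.Zz (H.MJ hm) (Dy.Dz (H.MD hm))

theorem cjf {g y : G} (c : Commute g y) : g * y * g⁻¹ = y := by rw [c.eq, mul_inv_cancel_right]

theorem Th.cj (H : Fx F) (x : We F t L O α h e) {g : G} (p : Th F t O h e g) {m : X} (hm : m ∈ F.M) :
    Th F t O h e (h m * g * (h m)⁻¹) := by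
  have mJ := H.MJ hm
  have c1 : Commute (h m) t := x.toW0.ht mJ
  have c2 : Commute (h m) (h F.f) := x.comm mJ H.fJ (H.fc m hm)
  have c3 := (uM H x hm).symm
  refine ⟨?_, (c3.mul_left p.gu).mul_left c3.inv_left, fun o ho => ?_⟩
  · calc _ = h m * (g * ((h m)⁻¹ * t * (h m)⁻¹⁻¹) * g⁻¹) * (h m)⁻¹ := by group
      _ = _ := by rw [cjf c1.inv_left, p.gt, cjf ((c1.mul_right c2).mul_right c3)]
  · have c4 : Commute (h m) o := x.toW0.hO mJ ho
    exact (c4.mul_left (p.gO o ho)).mul_left c4.inv_left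

theorem Th.ct {g g' : G} (p : Th F t O h e g) (p' : Th F t O h e g') : g⁻¹ * g' * t = t * (g⁻¹ * g') := by
  calc _ = g⁻¹ * (g' * t * g'⁻¹) * g' := by group
    _ = _ := by rw [p'.gt, ← p.gt]; group

theorem key (H : Fx F) (x : We F t L O α h e) {g g' : G} (p : Th F t O h e g) (p' : Th F t O h e g')
    (hz : α (g⁻¹ * g') ∈ zpowers F.f) : Kd F O h (g⁻¹ * g') := by
  have zM := H.Z0M hz
  obtain ⟨o, ho, q | q⟩ := x.toW0.ovr (p.ct p') (H.MJ zM)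
  · refine ⟨fun m hm => ?_, fun o ho => (p.gO o ho).inv_left.mul_left (p'.gO o ho), _, zM, o, ho, q⟩
    rw [q]
    exact Commute.mul_left (x.comm (H.MJ zM) (H.MJ hm) (H.Z0c hz hm).symm) (x.toW0.hO (H.MJ hm) ho).symm
  · exfalso
    have c1 : Commute (e F.z) (g⁻¹ * g') := p.gu.symm.inv_right.mul_right p'.gu.symm
    rw [q] at c1
    have c2 := ((uM H x zM).inv_right.mul_right c1).mul_right (eO x Dy.Zz ho).inv_right
    rw [show ∀ a b c : G, a⁻¹ * (a * b * c) * c⁻¹ = b from fun a b c => by group] at c2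
    have c3 := x.et _ Dy.Zz
    rw [cjf c2] at c3
    exact x.ne H.zJ H.z1 (mul_eq_left.1 c3.symm)

/-- the elements of `M` whose lift centralises `g` -/
def Cm (H : Fx F) (x : We F t L O α h e) (g : G) : Subgroup X where
  carrier := {m | m ∈ F.M ∧ Commute g (h m)}
  one_mem' := ⟨one_mem _, by rw [x.one]; exact Commute.one_right _⟩
  mul_mem' := fun ha hb => ⟨mul_mem ha.1 hb.1, by
    rw [x.mul (H.MJ ha.1) (H.MJ hb.1)]; exact ha.2.mul_right hb.2⟩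
  inv_mem' := fun ha => ⟨inv_mem ha.1, by rw [x.inv (H.MJ ha.1)]; exact ha.2.inv_right⟩

theorem perf (H : Fx F) (x : We F t L O α h e) {g : G} (p : Th F t O h e g) {E N : Subgroup X}
    (NM : N ≤ F.M) (cE : ∀ k, (∀ c ∈ E, k * c = c * k) → k ∈ zpowers F.f) (pN : N ≤ ⁅N, N⁆)
    (nE : N ≤ 𝐍(E)) (hE : E ≤ Cm H x g) : N ≤ Cm H x g := by
  have kd : ∀ n ∈ N, Kd F O h (g⁻¹ * (h n * g * (h n)⁻¹)) := fun n hn => by
    have p' := p.cj H x (NM hn)
    refine key H x p p' (cE _ fun c hc => x.of_comm (x.CN _ (p.ct p')) (H.MJ (hE hc).1) ?_)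
    have nJ := H.MJ (NM hn)
    have c' := hE (conj_mem_of_mem_normalizer (inv_mem (nE hn)) hc)
    have c2 := c'.2
    rw [x.cj (inv_mem nJ) (H.MJ (hE hc).1), x.inv nJ] at c2
    have c3 : Commute (h n * g * (h n)⁻¹) (h c) := by
      have := cjc (j := h n) c2.eq
      rwa [show h n * ((h n)⁻¹ * h c * (h n)⁻¹⁻¹) * (h n)⁻¹ = h c by group] at this
    exact ((hE hc).2.inv_left.mul_left c3).eq
  refine pN.trans (commutator_le.2 fun a ha b hb => ⟨commutator_le_of_le NM NM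
    (commutator_mem_commutator ha hb), ?_⟩)
  have aJ := H.MJ (NM ha)
  have bJ := H.MJ (NM hb)
  have k1 := kd _ (inv_mem ha)
  have k2 := kd _ (inv_mem hb)
  have c1 := (k1.cM _ (NM (inv_mem hb))).eq
  have c2 := (k2.cM _ (NM (inv_mem ha))).eq
  have c3 := (k1.comm k2).eq
  rw [x.inv aJ] at k1 c1 c2 c3
  rw [x.inv bJ] at c1 c2 c3
  rw [x.cmt aJ bJ, commutatorElement_def]
  generalize h a = A at *
  generalize h b = B at *
  obtain ⟨d1, e1⟩ : ∃ d, d = g⁻¹ * (A⁻¹ * g * A⁻¹⁻¹) := ⟨_, rfl⟩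
  obtain ⟨d2, e2⟩ : ∃ d, d = g⁻¹ * (B⁻¹ * g * B⁻¹⁻¹) := ⟨_, rfl⟩
  rw [← e1] at c1 c3
  rw [← e2] at c2 c3
  have f1 : A⁻¹ * g = g * d1 * A⁻¹ := by rw [e1]; group
  have f2 : B⁻¹ * g = g * d2 * B⁻¹ := by rw [e2]; group
  have g1 : A⁻¹ * B⁻¹ * g = g * (d1 * d2) * (A⁻¹ * B⁻¹) := by
    calc _ = A⁻¹ * g * (d2 * B⁻¹) := by rw [mul_assoc, f2]; group
      _ = g * d1 * (A⁻¹ * d2) * B⁻¹ := by rw [f1]; group
      _ = _ := by rw [← c2]; group
  have g2 : B⁻¹ * A⁻¹ * g = g * (d1 * d2) * (B⁻¹ * A⁻¹) := by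
    calc _ = B⁻¹ * g * (d1 * A⁻¹) := by rw [mul_assoc, f1]; group
      _ = g * d2 * (B⁻¹ * d1) * A⁻¹ := by rw [f2]; group
      _ = _ := by rw [← c1, c3]; group
  symm
  calc _ = A * B * (A⁻¹ * B⁻¹ * g) := by group
    _ = A * B * (g * (d1 * d2) * (B⁻¹ * A⁻¹)) * (A * B * A⁻¹ * B⁻¹) := by rw [g1]; group
    _ = _ := by rw [← g2]; group

theorem ez (H : Fx F) (x : We F t L O α h e) {v : X} (p : AdE F h e F.z v 1) (hv : v ∈ F.M) :
    e (v * F.z) = e v * e F.z := by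
  rw [Dy.Dz (H.MD hv), ad_eq x p, (ad_comm x p).eq]

end DP

open DP D0

variable [Finite X] [Finite G]

theorem We.phi (H : Fx F) (x : We F t L O α h e) (ty : ∀ a c, F.Ty a c → AdE F h e a c 1) {a : X}
    (p : F.Phi a) (h1 : AdE F h e a F.z 1) (h2 : AdE F h e (a * F.f) F.z 1) : RwE F h e a (a * F.f) 1 := by
  obtain ⟨ff, aD, af, ⟨x0, hx0, e0⟩, c5, a1, m1, a2, m2, w, mw, t1, t2, tw, ew, E, EM, N, NM, cE, zE, pN, nE,
    Ea, gen⟩ := p
  replace t1 := ty _ _ t1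
  replace t2 := ty _ _ t2
  replace tw := ty _ _ tw
  have z1 := t1.2.1
  have z2 := t2.2.1
  have zw := tw.2.1
  have za := h1.1
  have zb := h2.1
  have aJ := Dy.DJ aD
  have fJ := H.fJ
  have u2 := x.e2 _ (Dy.Zz (F := F))
  have u1 := (ad_comm x t1).symm
  have u3 := (ad_comm x t2).symm
  have uw := (ad_comm x tw).symm
  have uf := uM H x H.fM
  have f1 : Commute (e a1) (h F.f) := eC x z1 fJ (H.fc _ m1).symm
  have f2 : Commute (e a2) (h F.f) := eC x z2 fJ (H.fc _ m2).symm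
  have fw : Commute (e w) (h F.f) := eC x zw fJ (H.fc _ mw).symm
  have zc : ∀ {m}, m ∈ F.M → Commute m F.z := fun hm => Dy.Dz (H.MD hm)
  have yx : a2 * a1 * a2⁻¹ = a1 * F.z := by
    have : a1 * a2 * (a1 * a2) = F.z := by
      rw [ew, mul_assoc, ← mul_assoc F.f, ← H.fc w mw, mul_assoc, ff, ← mul_assoc, H.Zc_sq zw, one_mul]
    rw [← this, inv_eq_of_mul_eq_one_left (H.Zc_sq z2)]
    calc _ = (a1 * a1) * a2 * a1 * a2 := by rw [H.Zc_sq z1, one_mul]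
      _ = _ := by group
  obtain ⟨Φ, hΦ⟩ : ∃ Φ, Φ = e w * e a1 * e a2 := ⟨_, rfl⟩
  have pΦ : Th F t O h e Φ := by
    refine ⟨?_, hΦ ▸ (uw.mul_left u1).mul_left u3,
      fun o ho => hΦ ▸ ((D0.eO x zw ho).mul_left (D0.eO x z1 ho)).mul_left (D0.eO x z2 ho)⟩
    have q := x.ecj _ z1 a2 (H.MJ m2)
    rw [yx, ez H x t1 m1] at q
    have q1 : e a1 * h a2 * (e a1)⁻¹ = h a2 * e F.z := by
      rw [ei x z1, ← (uM H x m2).eq, ← ee x z1 (e F.z * h a2), ← mul_assoc (e a1) (e F.z), q]; group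
    calc _ = e w * (e a1 * (e a2 * t * (e a2)⁻¹) * (e a1)⁻¹) * (e w)⁻¹ := by rw [hΦ]; group
      _ = e w * (t * (h w * h F.f * e F.z)) * (e w)⁻¹ := by
        rw [x.et _ z2, cjm _ t, x.et _ z1, q1, ← x.mul (H.MJ mw) fJ, ← ew, x.mul (H.MJ m1) (H.MJ m2)]; group
      _ = _ := by
        rw [cjm _ t, x.et _ zw, cjf (((eC x zw (H.MJ mw) rfl).mul_right fw).mul_right uw)]
        calc _ = t * (h w * h w) * h F.f * e F.z := by group
          _ = _ := by rw [x.sq (H.MJ mw) (H.Zc_sq zw), mul_one]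
  have Φf : Commute Φ (h F.f) := hΦ ▸ (fw.mul_left f1).mul_left f2
  have ΦE : E ≤ Cm H x Φ := fun c hc => ⟨EM hc, by
    have cJ := H.MJ (EM hc)
    have cw : c * w * c⁻¹ = c * a1 * c⁻¹ * (c * a2 * c⁻¹) * F.f⁻¹ := by
      rw [conj_mul, ew, ← conj_mul, cj_fix.2 (H.fc c (EM hc)), mul_inv_cancel_right]
    have wz : a1 * a2 * F.z * F.f⁻¹ = w * F.z := by
      rw [ew, mul_assoc w, (zc H.fM).eq]; group
    refine (cj_fix.1 ?_).symm
    rw [hΦ, ← conj_mul, ← conj_mul, ← x.ecj _ zw c cJ, ← x.ecj _ z1 c cJ, ← x.ecj _ z2 c cJ, cw]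
    rcases cE c hc with ⟨q1 | q1, q2 | q2⟩ <;> rw [q1, q2]
    · rw [ew, mul_inv_cancel_right]
    · rw [← mul_assoc a1, wz, ez H x tw mw, ez H x t2 m2, u3.eq, mul_assoc (e w), ← u1.eq]
      calc _ = e w * e a1 * (e F.z * e F.z) * e a2 := by group
        _ = _ := by rw [u2, mul_one]
    · rw [mul_assoc a1, ← (zc m2).eq, ← mul_assoc a1, wz, ez H x tw mw, ez H x t1 m1, u1.eq]
      calc _ = e w * (e F.z * e F.z) * e a1 * e a2 := by group
        _ = _ := by rw [u2, mul_one]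
    · rw [(zc m2).eq, mul_assoc a1, ← mul_assoc F.z, H.z2, one_mul, ew, mul_inv_cancel_right, ← (zc m2).eq,
        ez H x t1 m1, ez H x t2 m2, u3.eq]
      calc _ = e w * e a1 * (e F.z * e F.z) * e a2 := by group
        _ = _ := by rw [u2, mul_one]⟩
  have Φ1 : N ⊔ E ≤ Cm H x Φ := sup_le (perf H x pΦ NM zE pN nE ΦE) ΦE
  -- the conjugate by `a`
  have ua : Commute (h a) (e F.z) := (eC x Dy.Zz aJ (Dy.Dz aD)).symm
  have ta : Commute (h a) t := x.toW0.ht aJ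
  have fa : h a * h F.f * (h a)⁻¹ = (h F.f)⁻¹ := by rw [← x.cj aJ fJ, af, x.inv fJ]
  obtain ⟨Ψ, hΨ⟩ : ∃ Ψ, Ψ = h a * Φ * (h a)⁻¹ := ⟨_, rfl⟩
  have Ψu : Commute Ψ (e F.z) := hΨ ▸ (ua.mul_left pΦ.gu).mul_left ua.inv_left
  have Ψf : Commute Ψ (h F.f)⁻¹ := by rw [hΨ, ← fa]; exact cjc Φf.eq
  have pΨ : Th F t O h e Ψ⁻¹ := by
    refine ⟨?_, Ψu.inv_left, fun o ho => ?_⟩
    · have q : Ψ * t * Ψ⁻¹ = t * ((h F.f)⁻¹ * e F.z) := by
        calc _ = h a * (Φ * ((h a)⁻¹ * t * (h a)⁻¹⁻¹) * Φ⁻¹) * (h a)⁻¹ := by rw [hΨ]; group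
          _ = _ := by rw [cjf ta.inv_left, pΦ.gt, ← conj_mul, ← conj_mul, cjf ta, fa, cjf ua, mul_assoc]
      have q2 := cjf (Ψf.mul_right Ψu).inv_left
      have q3 : t = Ψ⁻¹ * t * Ψ⁻¹⁻¹ * ((h F.f)⁻¹ * e F.z) := by
        rw [← q2, conj_mul, ← q]; group
      rw [eq_mul_inv_of_mul_eq q3.symm, mul_inv_rev, inv_inv, ei x Dy.Zz, uf.eq, mul_assoc]
    · have c4 : Commute (h a) o := x.toW0.hO aJ ho
      exact Commute.inv_left (hΨ ▸ (c4.mul_left (pΦ.gO o ho)).mul_left c4.inv_left)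
  have Ψ1 : (N ⊔ E) ^ᶜ a ≤ Cm H x Ψ⁻¹ := by
    rintro _ ⟨m, hm, rfl⟩
    have mM := (Φ1 hm).1
    refine ⟨H.cjM (Dy.Dz aD) mM, Commute.inv_left ?_⟩
    change Commute Ψ (h (a * m * a⁻¹))
    rw [x.cj aJ (H.MJ mM), hΨ]
    exact cjc (Φ1 hm).2.eq
  have k1 := key H x pΨ pΦ (zE _ fun c hc => x.of_comm (x.CN _ (pΨ.ct pΦ)) (H.MJ (EM hc))
    ((Ψ1 (Ea hc)).2.inv_left.mul_left (ΦE hc).2).eq)
  have ΦM : F.M ≤ Cm H x Φ := gen.trans (sup_le Φ1 fun m hm => ⟨(Ψ1 hm).1, by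
    have := (Ψ1 hm).2.mul_left (k1.cM m (Ψ1 hm).1)
    rwa [mul_inv_cancel_left] at this⟩)
  -- the element `e a * e (a f)`
  have fa' : F.f⁻¹ * a = a * F.f := by rw [← af]; group
  have r1 : (h F.f)⁻¹ * e a * (h F.f)⁻¹⁻¹ = e a * e F.z := by
    rw [← x.inv fJ, ← x.ecj _ za _ (inv_mem fJ), fa', inv_inv, mul_assoc, ff, ad_eq x h1]
  have r2 : (h F.f)⁻¹ * e (a * F.f) * (h F.f)⁻¹⁻¹ = e (a * F.f) * e F.z := by
    rw [← x.inv fJ, ← x.ecj _ zb _ (inv_mem fJ), ← mul_assoc, fa', inv_inv, mul_assoc _ F.f F.f, ff, ad_eq x h2]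
  have ub := ad_comm x h1
  have uc := ad_comm x h2
  have pΩ : Th F t O h e (e a * e (a * F.f)) := by
    refine ⟨?_, ub.mul_left uc, fun o ho => (D0.eO x za ho).mul_left (D0.eO x zb ho)⟩
    have q : e a * h F.f * (e a)⁻¹ = h F.f * e F.z := by
      calc _ = h F.f * ((h F.f)⁻¹ * e a * (h F.f)⁻¹⁻¹) * (e a)⁻¹ := by group
        _ = _ := by rw [r1, ub.eq]; group
    calc _ = e a * (e (a * F.f) * t * (e (a * F.f))⁻¹) * (e a)⁻¹ := by group
      _ = t * (h a * h a) * h F.f * e F.z := by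
        rw [x.et _ zb, x.mul aJ fJ, cjm _ t, cjm _ (h a), x.et _ za, q, cjf (eC x za aJ rfl)]; group
      _ = _ := by rw [x.sq aJ (H.Zc_sq za), mul_one]
  have Ωf : Commute (e a * e (a * F.f)) (h F.f) := by
    refine (Commute.inv_left_iff.1 (cj_fix.1 ?_)).symm
    rw [← conj_mul, r1, r2, uc.eq]
    calc _ = e a * (e F.z * e F.z) * e (a * F.f) := by group
      _ = _ := by rw [u2, mul_one]
  have k2 := key H x pΦ pΩ (c5 _ (fun m hm c => x.of_comm (x.CN _ (pΦ.ct pΩ)) (H.MJ hm)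
    ((ΦM hm).2.inv_left.mul_left ((eC x za (H.MJ hm) c).mul_left
      (eC x zb (H.MJ hm) (Commute.mul_right c (H.fc m hm) :)))).eq)
    (x.of_comm (x.CN _ (pΦ.ct pΩ)) fJ (Φf.inv_left.mul_left Ωf).eq))
  have Ωx : Commute (e a * e (a * F.f)) (h x0⁻¹) := by
    have := (ΦM (inv_mem hx0)).2.mul_left (k2.cM _ (inv_mem hx0))
    rwa [mul_inv_cancel_left] at this
  have xJ := H.MJ (inv_mem hx0)
  have s1 : e a * e (a * F.f) = e (a * F.f) * (e a * e F.z) := by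
    rw [← cjf Ωx.symm, ← conj_mul, ← x.ecj _ za _ xJ, ← x.ecj _ zb _ xJ, ← conj_mul,
      cj_fix.2 (H.fc _ (inv_mem hx0)), inv_inv, e0, mul_assoc, ff, ad_eq x h1]
  have s2 : h a * e (a * F.f) * (h a)⁻¹ = e (a * F.f) * e F.z := by
    rw [← x.ecj _ zb _ aJ, ← ad_eq x h2, mul_assoc a, mul_assoc a F.f, ← mul_assoc a F.f, af, mul_assoc a]
    congr 2
    rw [inv_eq_iff_mul_eq_one, ← mul_assoc, ff, H.z2]
  refine ⟨za, zb, one_mem _, ?_⟩
  rw [x.one, one_mul, (eC x za aJ rfl).eq, ← (eC x za aJ rfl).eq]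
  calc _ = e a * (h a * e (a * F.f) * (h a)⁻¹) * (h a * e a * h a) := by group
    _ = _ := by
      rw [s2, ← (eC x za aJ rfl).eq, mul_assoc (e a) (h a), x.sq aJ (H.Zc_sq za), mul_one, ← mul_assoc, s1,
        mul_assoc, mul_assoc, mul_assoc, ← mul_assoc (e F.z), u2, one_mul, x.e2 _ za, mul_one]

end H36.SV
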