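import Mathlib
import Cfsg.Agent.Lib.StdV.Basic

/-! `t` does not normalise two commuting covers of `J`. -/

set_option autoImplicit false
set_option linter.unusedSectionVars false

namespace H36.SV

open Subgroup H69 H36.SW
open H48.SM (Pf)
open scoped commutatorElement

variable {X : Type} [Group X] [Finite X] {G : Type*} [Group G] [Finite G] {F : Dy X}
variable {t : G} {L O : Subgroup G} {α : G → X} {h : X → G}

namespace E1

variable {J : Subgroup X} {A : Subgroup G} {β : G → X}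

theorem im_comm (c : Cov J A β) {Q : Subgroup G} (QA : Q ≤ A) {P : Subgroup X} (h : ∀ y ∈ P, ∃ a ∈ Q, β a = y)
    {y : X} (hy : y ∈ ⁅P, P⁆) : ∃ d ∈ ⁅Q, Q⁆, β d = y := by
  have : ⁅P, P⁆ ≤ c.im ⁅Q, Q⁆ := commutator_le.2 fun y hy y' hy' => by
    obtain ⟨a, ha, rfl⟩ := h y hy
    obtain ⟨b, hb, rfl⟩ := h y' hy'
    have := map_commutatorElement c.hom ⟨a, le_normalizer (QA ha)⟩ ⟨b, le_normalizer (QA hb)⟩
    exact c.mem_im.2 ⟨⁅a, b⁆, commutator_mem_commutator ha hb,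
      (⁅(⟨a, le_normalizer (QA ha)⟩ : 𝐍(A)), ⟨b, le_normalizer (QA hb)⟩⁆ : 𝐍(A)).2, this⟩
  obtain ⟨d, hd, -, e⟩ := c.mem_im.1 (this hy)
  exact ⟨d, hd, e⟩

/-- lifts of `2`-subgroups centralising the image of `t` -/
theorem lift (c : Cov J A β) (tA : t ∈ 𝐍(A)) {P : Subgroup X} (PJ : P ≤ J) (hP : IsPGroup 2 P)
    (cP : ∀ x ∈ P, x * β t = β t * x) : ∃ Q ≤ A, IsPGroup 2 Q ∧ (∀ a ∈ Q, a * t = t * a) ∧
      Nat.card Q = Nat.card P ∧ ∀ a ∈ A, P2 a → β a ∈ ⁅P, P⁆ → a ∈ ⁅Q, Q⁆ := by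
  obtain ⟨Q, hQ, cQ⟩ := c.exists_lift PJ hP
  have QA : Q ≤ A := fun a ha => ((hQ a).1 ha).1
  refine ⟨Q, QA, isP_of_P2 fun a ha => ((hQ a).1 ha).2.1, fun a ha => ?_, cQ, fun a ha a2 h => ?_⟩
  · obtain ⟨h1, h2, h3⟩ := (hQ a).1 ha
    exact (c.comm_lift tA h1 h2 (cP _ h3).symm).symm
  · obtain ⟨d, hd, e⟩ := im_comm c QA (fun y hy => by
      obtain ⟨a, ha, rfl, a2⟩ := c.lift2 (PJ hy) (P2.of_mem hP hy)
      exact ⟨a, (hQ a).2 ⟨ha, a2, hy⟩, rfl⟩) h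
    have dQ : d ∈ Q := commutator_le_of_le le_rfl le_rfl hd
    rwa [← c.uniq (QA dQ) ha ((hQ d).1 dQ).2.1 a2 e]

theorem ker (w : W0 F t L O α h) {Q : Subgroup G} (hQ : IsPGroup 2 Q) (c : ∀ a ∈ Q, a * t = t * a)
    (tQ : t ∉ Q) {a : G} (ha : a ∈ Q) (aL : a ∈ 𝐂(L)) : a = 1 :=
  (w.ker_P2 aL (c a ha) (P2.of_mem hQ ha)).elim id fun e => absurd (e ▸ ha) tQ

theorem card_eq (w : W0 F t L O α h) {Q : Subgroup G} (hQ : IsPGroup 2 Q) (c : ∀ a ∈ Q, a * t = t * a)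
    (tQ : t ∉ Q) : Nat.card Q = Nat.card (w.cov.im Q) := by
  rw [w.cov.card_im (E := Q) fun a ha => w.CN a (c a ha), (eq_bot_iff_forall _).2
    fun a (ha : a ∈ Q ⊓ 𝐂(L)) => ker w hQ c tQ (mem_inf.1 ha).1 (mem_inf.1 ha).2, card_bot, mul_one]

/-- the perfect subgroup centralising an outer involution lifts into `L` -/
theorem pfl (H : Fx F) (w : W0 F t L O α h) (c : Cov F.J A β) (tA : t ∈ 𝐍(A)) (o : β t ∉ F.J)
    (cf : IsConj F.φ F.ψ) {N : Subgroup X} {k : ℕ} (pN : Pf N) (NJ : N ≤ F.J)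
    (cN : ∀ a ∈ N, a * F.φ = F.φ * a) (kN : k ∣ Nat.card N) : ∃ M ≤ A, M ≤ L ∧ k ∣ Nat.card (c.im M) := by
  obtain ⟨x, hx, ex⟩ := (H.out o (c.sq tA w.t2)).resolve_right fun e => e.2 cf
  have p1 := pN.cj x
  have J1 : N ^ᶜ x ≤ F.J := cj_le_of_mem NJ hx
  let M := closure {a | a ∈ A ∧ a * a = 1 ∧ β a ∈ N ^ᶜ x}
  have MA : M ≤ A := (closure_le _).2 fun a ha => ha.1
  have Mt : M ≤ centralizer {t} := (closure_le _).2 fun a ha => by
    obtain ⟨y, hy, e⟩ := mem_cj'.1 ha.2.2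
    refine mem_centralizer_singleton_iff.2 (c.comm_lift tA ha.1 (P2.of_sq ha.2.1) ?_).symm
    rw [e, ← ex]; exact (cjc (cN y hy)).symm
  have on : ∀ y ∈ N ^ᶜ x, ∃ a ∈ M, β a = y := fun y hy =>
    c.of_closure (MA.trans le_normalizer) (fun i hi => by
      obtain ⟨a, ha, rfl, a2⟩ := c.lifti (J1 hi.1) hi.2
      exact ⟨a, subset_closure ⟨ha, a2, hi.1⟩, rfl⟩) (p1.2 hy)
  refine ⟨M, MA, (closure_le _).2 fun a ha => ?_, ?_⟩
  · obtain ⟨d, hd, e⟩ := im_comm c MA on (p1.1 ha.2.2)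
    have dA : d ∈ A := MA (commutator_le_of_le le_rfl le_rfl hd)
    have z := c.inv_mul_mem (le_normalizer dA) (le_normalizer ha.1) e
    have o := c.odd' (mul_mem (inv_mem dA) ha.1) z
    have := Commute.mul_pow (show Commute d (d⁻¹ * a) from z d dA) (orderOf (d⁻¹ * a))
    rw [pow_orderOf_eq_one, mul_one, mul_inv_cancel_left, pow_odd_of_sq ha.2.1 o] at this
    refine w.P2_mem ?_ (P2.of_sq ha.2.1)
    rw [this]
    exact pow_mem (w.comm_le H (fun g hg => mem_centralizer_singleton_iff.1 (Mt hg)) hd) _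
  · refine (card_cj N x ▸ kN : k ∣ Nat.card (N ^ᶜ x)).trans (card_dvd_of_le fun y hy => ?_)
    obtain ⟨a, ha, e⟩ := on y hy
    exact c.mem_im.2 ⟨a, ha, le_normalizer (MA ha), e⟩

end E1

theorem W0.not_norm (H : Fx F) (w : W0 F t L O α h) (A B : Subgroup G) (β γ : G → X) (cA : Cov F.J A β)
    (cB : Cov F.J B γ) (c : ∀ g ∈ A, ∀ k ∈ B, g * k = k * g) (K : ∀ k ∈ 𝐂(A), k ∈ 𝐂(B) → P2 k → k = 1)
    (tA : t ∈ 𝐍(A)) (tB : t ∈ 𝐍(B)) : False := by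
  have AC : A ≤ 𝐂(B) := fun a ha b hb => (c a ha b hb).symm
  have BC : B ≤ 𝐂(A) := fun b hb a ha => c a ha b hb
  have prod : ∀ {E E' : Subgroup G}, E ≤ A → E' ≤ B → IsPGroup 2 E → IsPGroup 2 E' →
      (∀ e ∈ E, e * t = t * e) → (∀ e ∈ E', e * t = t * e) → (β t ∉ F.J ∨ γ t ∉ F.J) →
      IsPGroup 2 (E ⊔ E' : Subgroup G) ∧ (∀ e ∈ E ⊔ E', e * t = t * e) ∧ t ∉ E ⊔ E' ∧
      Nat.card (E ⊔ E' : Subgroup G) = Nat.card E * Nat.card E' :=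
    fun {E E'} h1 h2 s1 s2 c1 c2 o => by
      have cm : ∀ p ∈ E, ∀ q ∈ E', p * q = q * p := fun p hp q hq => c p (h1 hp) q (h2 hq)
      refine ⟨isP_of_P2 fun e he => ?_, fun e he => ?_, fun he => ?_, card_sup_comm cm fun p hp hq =>
        K p (BC (h2 hq)) (AC (h1 hp)) (P2.of_mem s1 hp)⟩
      · obtain ⟨p, hp, q, hq, rfl⟩ := (mem_sup_comm cm).1 he
        exact (P2.of_mem s1 hp).mul (P2.of_mem s2 hq) (cm p hp q hq)
      · obtain ⟨p, hp, q, hq, rfl⟩ := (mem_sup_comm cm).1 he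
        exact (Commute.mul_left (c1 p hp) (c2 q hq) :)
      · obtain ⟨p, hp, q, hq, e⟩ := (mem_sup_comm cm).1 he
        rcases o with o | o
        · rw [e, cA.mul_cen (le_normalizer (h1 hp)) (BC (h2 hq))] at o
          exact o (cA.mem p (h1 hp))
        · rw [e, cB.cen_mul (le_normalizer (h2 hq)) (AC (h1 hp))] at o
          exact o (cB.mem q (h2 hq))
  have bd : ∀ {E E' : Subgroup G}, E ≤ A → E' ≤ B → IsPGroup 2 E → IsPGroup 2 E' →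
      (∀ e ∈ E, e * t = t * e) → (∀ e ∈ E', e * t = t * e) → (β t ∉ F.J ∨ γ t ∉ F.J) →
      Nat.card E * Nat.card E' ≤ Nat.card F.Ts := fun h1 h2 s1 s2 c1 c2 o => by
    obtain ⟨p1, p2, p3, p4⟩ := prod h1 h2 s1 s2 c1 c2 o
    rw [← p4, E1.card_eq w p1 p2 p3]
    exact H.card_le (w.cov.isP_im p1)
  have y1 := cA.sq tA w.t2
  have y2 := cB.sq tB w.t2
  by_cases h1 : β t ∈ F.J <;> by_cases h2 : γ t ∈ F.J
  · obtain ⟨a, ha, ea, a2⟩ := cA.lifti h1 y1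
    obtain ⟨b, hb, eb, b2⟩ := cB.lifti h2 y2
    obtain ⟨P, PJ, hP, cP, mP, -⟩ := H.inv_comm h1 y1
    obtain ⟨P', PJ', hP', cP', mP', -⟩ := H.inv_comm h2 y2
    obtain ⟨Q, -, -, Qt, -, mQ⟩ := E1.lift cA tA PJ hP cP
    obtain ⟨Q', -, -, Qt', -, mQ'⟩ := E1.lift cB tB PJ' hP' cP'
    have aL := w.comm_le H Qt (mQ a ha (P2.of_sq a2) (ea ▸ mP))
    have bL := w.comm_le H Qt' (mQ' b hb (P2.of_sq b2) (eb ▸ mP'))
    have ta := cA.comm_lift tA ha (P2.of_sq a2) (by rw [ea])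
    have tb := cB.comm_lift tB hb (P2.of_sq b2) (by rw [eb])
    have abA : a * b ∈ 𝐍(A) := mul_mem (le_normalizer ha) (centralizer_le_normalizer _ (BC hb))
    have abB : a * b ∈ 𝐍(B) := mul_mem (centralizer_le_normalizer _ (AC ha)) (le_normalizer hb)
    have := K ((a * b)⁻¹ * t) (cA.inv_mul_mem abA tA (by rw [cA.mul_cen (le_normalizer ha) (BC hb), ea]))
      (cB.inv_mul_mem abB tB (by rw [cB.cen_mul (le_normalizer hb) (AC ha), eb]))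
      (((P2.of_sq a2).mul (P2.of_sq b2) (c a ha b hb)).inv.mul (P2.of_sq w.t2)
        (Commute.inv_left (Commute.mul_left ta.symm tb.symm) :))
    exact w.t_not (inv_mul_eq_one.1 this ▸ mul_mem aL bL)
  · obtain ⟨P, PJ, hP, cP, -, nP⟩ := H.inv_comm h1 y1
    obtain ⟨-, P', PJ', hP', cP', nP'⟩ := H.outAll h2 y2
    obtain ⟨Q, QA, hQ, Qt, cQ, -⟩ := E1.lift cA tA PJ hP cP
    obtain ⟨Q', QB, hQ', Qt', cQ', -⟩ := E1.lift cB tB PJ' hP' cP'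
    have := bd QA QB hQ hQ' Qt Qt' (Or.inr h2)
    rw [cQ, cQ'] at this
    exact absurd ((Nat.mul_le_mul nP nP').trans this) (not_le.2 H.k3)
  · obtain ⟨-, P, PJ, hP, cP, nP⟩ := H.outAll h1 y1
    obtain ⟨P', PJ', hP', cP', -, nP'⟩ := H.inv_comm h2 y2
    obtain ⟨Q, QA, hQ, Qt, cQ, -⟩ := E1.lift cA tA PJ hP cP
    obtain ⟨Q', QB, hQ', Qt', cQ', -⟩ := E1.lift cB tB PJ' hP' cP'
    have := bd QA QB hQ hQ' Qt Qt' (Or.inl h1)
    rw [cQ, cQ', mul_comm] at this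
    exact absurd ((Nat.mul_le_mul nP' nP).trans this) (not_le.2 H.k3)
  rcases H.oo with oo | ⟨cf, N, k, pN, NJ, cN, kN, nk⟩
  · obtain ⟨-, P, PJ, hP, cP, nP⟩ := H.outAll h1 y1
    obtain ⟨-, P', PJ', hP', cP', nP'⟩ := H.outAll h2 y2
    obtain ⟨Q, QA, hQ, Qt, cQ, -⟩ := E1.lift cA tA PJ hP cP
    obtain ⟨Q', QB, hQ', Qt', cQ', -⟩ := E1.lift cB tB PJ' hP' cP'
    obtain ⟨p1, p2, p3, p4⟩ := prod QA QB hQ hQ' Qt Qt' (Or.inl h1)
    have n2 : 1 < F.n2 := by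
      have : 1 < Nat.card F.Ts := (one_lt_card_iff_ne_bot _).2 fun e => H.z1 (mem_bot.1 (e ▸ H.zTs))
      by_contra! hn
      nlinarith
    obtain ⟨j, -, hj⟩ := H.cjTs (w.cov.isP_im p1)
    have ej : w.cov.im (Q ⊔ Q') ^ᶜ j = F.Ts := eq_of_le_of_card_ge hj (by
      rw [card_cj, ← E1.card_eq w p1 p2 p3, p4, cQ, cQ']
      exact oo.trans (by rw [pow_two]; exact Nat.mul_le_mul nP nP'))
    have n : ∀ {g}, g ∈ Q ⊔ Q' → g ∈ 𝐍(L) := fun h => w.CN _ (p2 _ h)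
    have cz : ∀ x ∈ Q ⊔ Q', x ≠ 1 → x ∈ 𝐂(Q ⊔ Q') → j * α x * j⁻¹ = F.z := fun x hx x1 cx =>
      (H.ctr _ (ej ▸ cj_mem j (w.cov.mem_im.2 ⟨x, hx, n hx, rfl⟩)) fun τ hτ => by
        obtain ⟨y, hy, rfl⟩ := mem_cj'.1 (ej ▸ Dy.TTs hτ : τ ∈ w.cov.im (Q ⊔ Q') ^ᶜ j)
        obtain ⟨g, hg, gN, rfl⟩ := w.cov.mem_im.1 hy
        exact cjc (w.cov.comm (n hx) gN (cx g hg).symm)).resolve_left
        (cjne (fun e => x1 (E1.ker w p1 p2 p3 hx ((w.cov.ker x (n hx)).1 e))) j)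
    obtain ⟨⟨x, hx⟩, x1⟩ := ne_bot_iff_exists_ne_one.1 (center_ne_bot hQ
      ((one_lt_card_iff_ne_bot _).1 (by rw [cQ]; exact n2.trans_le nP)))
    obtain ⟨⟨y, hy⟩, y1⟩ := ne_bot_iff_exists_ne_one.1 (center_ne_bot hQ'
      ((one_lt_card_iff_ne_bot _).1 (by rw [cQ']; exact n2.trans_le nP')))
    obtain ⟨hx, cx⟩ := mem_inf.1 hx
    obtain ⟨hy, cy⟩ := mem_inf.1 hy
    replace x1 : x ≠ 1 := fun e => x1 (Subtype.ext e)
    replace y1 : y ≠ 1 := fun e => y1 (Subtype.ext e)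
    have mx := mem_sup_left (T := Q') hx
    have my := mem_sup_right (S := Q) hy
    have e1 := cz x mx x1 (by
      rw [centralizer_sup]; exact mem_inf.2 ⟨cx, fun g hg => AC (QA hx) g (QB hg)⟩)
    have e2 := cz y my y1 (by
      rw [centralizer_sup]; exact mem_inf.2 ⟨fun g hg => BC (QB hy) g (QA hg), cy⟩)
    have e3 : α x = α y := by simpa using e1.trans e2.symm
    have e4 : x = y := inv_mul_eq_one.1 (E1.ker w p1 p2 p3 (mul_mem (inv_mem mx) my)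
      (w.cov.inv_mul_mem (n mx) (n my) e3))
    exact x1 (K x (BC (QB (e4 ▸ hy))) (AC (QA hx)) (P2.of_mem hQ hx))
  · obtain ⟨M, MA, ML, kM⟩ := E1.pfl H w cA tA h1 cf pN NJ cN kN
    obtain ⟨M', MB, ML', kM'⟩ := E1.pfl H w cB tB h2 cf pN NJ cN kN
    refine nk ?_
    rw [← w.card, pow_two]
    refine Dvd.dvd.trans ?_ (card_dvd_of_le (sup_le ML ML'))
    rw [cA.card_im (sup_le (MA.trans le_normalizer) ((MB.trans BC).trans (centralizer_le_normalizer _)))]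
    refine mul_dvd_mul (kM.trans (card_dvd_of_le fun y hy => ?_)) ?_
    · obtain ⟨a, ha, aN, e⟩ := cA.mem_im.1 hy
      exact cA.mem_im.2 ⟨a, mem_sup_left ha, aN, e⟩
    · refine Dvd.dvd.trans ?_ (card_dvd_of_le (le_inf le_sup_right (MB.trans BC)))
      rw [cB.card_im (MB.trans le_normalizer)]
      exact kM'.mul_right _

end H36.SV
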