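import Mathlib
import Cfsg.Agent.Lib.StdV.Basic
import Cfsg.Agent.Lib.StdW.D3
import Cfsg.Agent.Lib.StdW.F1

/-! `t` controls `H = N({A, A^t})`; the frame of the end game. -/

set_option autoImplicit false
set_option linter.unusedSectionVars false

namespace H36.SV

open Subgroup H69 H36.SW
open H48.SM (Pf)
open H43.SW (E2)
open scoped commutatorElement

variable {X : Type} [Group X] [Finite X] {G : Type*} [Group G] [Finite G] {F : Dy X}
variable {t : G} {L O : Subgroup G} {α : G → X} {h : X → G}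

namespace E2x

/-- no `2`-elements centralise both `A` and `A^t` -/
theorem kerK {A : Subgroup G} (t2 : t * t = 1) (kerF : ∀ k ∈ 𝐂(A), k * t = t * k → k * k = 1 → k = 1)
    {k : G} (h1 : k ∈ 𝐂(A)) (h2 : k ∈ 𝐂(A ^ᶜ t)) (k2 : P2 k) : k = 1 := by
  have BA : (A ^ᶜ t) ^ᶜ t = A := by rw [cj_cj, t2, cj_one]
  have tC : t ∈ 𝐍(𝐂(A) ⊓ 𝐂(A ^ᶜ t)) := by
    rw [← cj_eq_self_iff, cj_inf, cj_centralizer, cj_centralizer, BA, inf_comm]
  by_contra k1
  obtain ⟨P, hP, tP⟩ := exists_isSylowIn_le (P2.of_sq t2).zpowers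
    (le_sup_right : zpowers t ≤ (𝐂(A) ⊓ 𝐂(A ^ᶜ t)) ⊔ zpowers t)
  have h3 := hP.inf_normal le_sup_left (sup_le le_normalizer (zpowers_le.2 tC))
  have h4 : P ⊓ (𝐂(A) ⊓ 𝐂(A ^ᶜ t)) ≠ ⊥ := fun e => by
    obtain ⟨g, -, hg⟩ := h3.exists_cj_le k2.zpowers (zpowers_le.2 ⟨h1, h2⟩)
    rw [e, le_bot_iff, cj_eq_bot_iff, zpowers_eq_bot] at hg
    exact k1 hg
  obtain ⟨x, hx, ox⟩ := exists_orderOf_eq_prime (h3.isP.to_inf_left)
    (inf_centralizer_ne_bot h3.isP (P2.of_sq t2).zpowers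
      (le_normalizer_inf (le_normalizer_of_le tP) (zpowers_le.2 tC)) h4)
  have := kerF x hx.1.2.1 (hx.2 t (mem_zpowers t)).symm (by rw [← pow_two, ← ox, pow_orderOf_eq_one])
  rw [this, orderOf_one] at ox
  exact absurd ox (by decide)

/-- the involutions like `u` are `u` and `t u t` -/
theorem uq (H : Fx F) {u : G} (w : W2 F t L O α h u) {i : G} (i2 : i * i = 1)
    (it : i * t * i⁻¹ = t * h F.z) (iD : ∀ d ∈ F.D, i * h d = h d * i) : i = u ∨ i = t * u * t⁻¹ := by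
  have zD : F.z ∈ F.D := H.TD H.zT
  have uz := w.uD _ zD
  have z2 : h F.z * h F.z = 1 := w.sq H.zJ H.z2
  have z1 : h F.z ≠ 1 := w.ne H.zJ H.z1
  have zt : h F.z * t = t * h F.z := w.ht H.zJ
  have ui : u⁻¹ = u := inv_eq_of_mul_eq_one_left w.u2
  have ii : i⁻¹ = i := inv_eq_of_mul_eq_one_left i2
  have ct : u * i * t = t * (u * i) := by
    refine cj_fix.1 ?_
    calc _ = u * (i * t * i⁻¹) * u⁻¹ := by group
      _ = u * t * u⁻¹ * (u * h F.z * u⁻¹) := by rw [it]; group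
      _ = _ := by rw [w.ut, cj_fix.2 uz, mul_assoc, z2, mul_one]
  have inv : u * (u * i) * u⁻¹ = (u * i)⁻¹ := by rw [can w.u2, mul_inv_rev, ii]
  have hc := H.cD (g := α (u * i)) fun d hd => w.of_comm (w.CN _ ct) (Dy.DJ hd)
    (Commute.mul_left (w.uD d hd) (iD d hd) :)
  have cJ : α (u * i) ∈ F.J := hc.elim (fun e => e ▸ one_mem _) fun e => e ▸ H.zJ
  have y2 : h (α (u * i)) * h (α (u * i)) = 1 := w.sq cJ (hc.elim (fun e => by rw [e, mul_one]) fun e => e ▸ H.z2)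
  have uy : u * h (α (u * i)) = h (α (u * i)) * u := by
    rcases hc with e | e
    · rw [e, w.one, mul_one, one_mul]
    · rw [e, uz]
  obtain ⟨o, ho, e | e⟩ := w.ovr ct cJ
  · have o1 : o = 1 := inv_odd (P2.of_sq y2) (w.hO cJ ho) (w.uO o ho) (w.oddO o ho) (e ▸ inv)
    rw [o1, mul_one] at e
    rcases hc with e' | e'
    · rw [e', w.one] at e
      exact Or.inl (by rw [← ui]; exact eq_inv_of_mul_eq_one_right e)
    · rw [e'] at e
      refine Or.inr ?_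
      calc i = u * (u * i) := (can w.u2 i).symm
        _ = u * (u * t * u⁻¹) * t⁻¹ := by rw [e, w.ut, ← zt]; group
        _ = _ := by rw [mul_assoc u t, can w.u2, ui]
  · have yt := w.ht cJ
    have yt2 : h (α (u * i)) * t * (h (α (u * i)) * t) = 1 := by
      rw [mul_assoc, ← mul_assoc t, ← yt, mul_assoc, w.t2, mul_one, y2]
    have o1 : o = 1 := inv_odd (P2.of_sq yt2) (Commute.mul_left (w.hO cJ ho) (w.Ot o ho).symm :)
      (w.uO o ho) (w.oddO o ho) (e ▸ inv)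
    rw [o1, mul_one] at e
    rw [e, inv_eq_of_mul_eq_one_left yt2, ← mul_assoc, uy, mul_assoc, mul_assoc, mul_right_inj, ← mul_assoc,
      w.ut, mul_eq_left] at inv
    exact absurd inv z1

variable {u : G} {A : Subgroup G} {β : G → X}

theorem LN (p : Pr F t L O α h u A β) : L ≤ 𝐍(A) :=
  fun l hl => let ⟨_, hg, e⟩ := p.onL l hl; e ▸ pi_norm p.comm hg

theorem uniq (H : Fx F) (p : Pr F t L O α h u A β) {A' : Subgroup G} {β' : G → X} (c' : Cov F.J A' β')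
    (cm : ∀ g ∈ A', ∀ k ∈ A', g * (t * k * t⁻¹) = (t * k * t⁻¹) * g)
    (gen : A' ≤ closure {g | g ∈ A' ∧ g * g = 1}) : A' ≤ A ∨ A' ≤ A ^ᶜ t := by
  have ct : ∀ g : A', piH t cm g * t = t * piH t cm g := fun g => by
    rw [piH_apply]; conv_rhs => rw [cm g g.2 g g.2]
    simp only [mul_assoc, p.ti, can p.t2, p.t2, mul_one]
  have LO : (piH t cm).range ≤ L ⊔ O := le_trans (by
    rintro _ ⟨g, rfl⟩
    have : ⁅A', A'⁆ ≤ (⁅(piH t cm).range, (piH t cm).range⁆.comap (piH t cm)).map A'.subtype :=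
      commutator_le.2 fun g hg k hk => ⟨⁅(⟨g, hg⟩ : A'), ⟨k, hk⟩⁆, by
        rw [SetLike.mem_coe, mem_comap, map_commutatorElement]
        exact commutator_mem_commutator ⟨_, rfl⟩ ⟨_, rfl⟩, rfl⟩
    obtain ⟨k, hk, e⟩ := this (c'.perf g.2)
    exact Subtype.ext e ▸ hk) (p.comm_le H (Y := (piH t cm).range) fun _ ⟨g, e⟩ => e ▸ ct g)
  have pL : ∀ g : A', piH t cm g ∈ L := fun g => by
    have : A' ≤ (L.comap (piH t cm)).map A'.subtype := gen.trans ((closure_le _).2 fun i hi => by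
      refine ⟨⟨i, hi.1⟩, ?_, rfl⟩
      have h2 : P2 (piH t cm ⟨i, hi.1⟩) := P2.of_sq (by
        rw [← map_mul, show (⟨i, hi.1⟩ * ⟨i, hi.1⟩ : A') = 1 from Subtype.ext hi.2, map_one])
      exact p.P2_mem (LO ⟨⟨i, hi.1⟩, rfl⟩) h2)
    obtain ⟨k, hk, e⟩ := this g.2
    exact Subtype.ext e ▸ hk
  let f : A' →* X := p.cov.hom.comp ((piH t cm).codRestrict _ fun g => le_normalizer (pL g))
  have kf : ∀ g : A', f g = 1 → β' g = 1 := fun g h => c'.cen fun m hm => by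
    have h1 : (g : G) = (t * g * t⁻¹)⁻¹ := eq_inv_of_mul_eq_one_left (p.inj _ (pL g) h)
    rw [h1]
    exact (Commute.inv_right (cm m hm g g.2)).eq
  have on : f.range = F.J := eq_of_le_of_card_ge (fun _ ⟨g, e⟩ => e ▸ p.cov.mem _ (pL g)) (by
    have h1 := c'.card_im (E := A') le_normalizer
    have h2 : c'.im A' = F.J := le_antisymm (fun _ h => let ⟨g, hg, _, e⟩ := c'.mem_im.1 h; e ▸ c'.mem g hg)
      fun j hj => let ⟨g, hg, e⟩ := c'.onto j hj; c'.mem_im.2 ⟨g, hg, le_normalizer hg, e⟩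
    have h3 : Nat.card f.ker ≤ Nat.card (A' ⊓ 𝐂(A') : Subgroup G) := by
      rw [← card_map_of_injective A'.subtype_injective]
      exact card_le_of_le fun _ ⟨g, hg, e⟩ => e ▸ ⟨g.2, (c'.ker _ (le_normalizer g.2)).1 (kf g hg)⟩
    rw [h2, ← f.ker.card_mul_index, index_ker, mul_comm] at h1
    exact Nat.le_of_mul_le_mul_right (h1 ▸ Nat.mul_le_mul_left _ h3) Nat.card_pos)
  have onL : ∀ l ∈ L, ∃ g : A', piH t cm g = l := fun l hl =>
    p.cov.gen (D := (piH t cm).range) (fun _ ⟨g, e⟩ => e ▸ pL g)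
      (fun j hj => let ⟨g, e⟩ := (on ▸ hj : j ∈ f.range); ⟨_, ⟨g, rfl⟩, e⟩) hl
  have inj : ∀ g k : A', P2 (g : G) → P2 (k : G) → piH t cm g = piH t cm k → (g : G) = k := fun g k g2 k2 e =>
    c'.uniq g.2 k.2 g2 k2 (by
      have := kf (g⁻¹ * k) (by rw [map_mul, map_inv, inv_mul_eq_one]; exact congrArg α e)
      rwa [coe_mul, coe_inv, c'.mul' (inv_mem g.2) k.2, c'.inv (le_normalizer g.2), inv_mul_eq_one] at this)
  have z2 : h F.z * h F.z = 1 := p.sq H.zJ H.z2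
  obtain ⟨i, i2, ei⟩ : ∃ i : A', P2 (i : G) ∧ piH t cm i = h F.z := by
    obtain ⟨g, e⟩ := onL _ (p.hL _ H.zJ)
    obtain ⟨m, hm, m2⟩ := exists_odd_P2 (g : G)
    exact ⟨g ^ m, m2, by rw [map_pow, e, pow_odd_of_sq z2 hm]⟩
  have isq : (i : G) * i = 1 := inj (i * i) 1 (i2.mul i2 rfl) ⟨0, by simp⟩ (by rw [map_mul, ei, z2, map_one])
  have cj : ∀ {l}, l ∈ L → l * h F.z * l⁻¹ = h F.z → l * i * l⁻¹ = i := fun hl e => by
    obtain ⟨k, rfl⟩ := onL _ hl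
    rw [piH_apply, pi_cj cm k.2 i.2]
    exact inj (k * i * k⁻¹) i (i2.conj k) i2 (by rw [map_mul, map_mul, map_inv, ei, e])
  have hi := uq H p.toW2 isq (by
      rw [← p.ht H.zJ, ← ei, piH_apply, inv_eq_of_mul_eq_one_left isq]; group)
    fun d hd => (cj_fix.1 (cj (p.hL _ (Dy.DJ hd)) (cj_fix.2 (p.toIso.comm (Dy.DJ hd) H.zJ (Dy.Dz hd))))).symm
  have i1 : β' i ≠ 1 := fun e => p.ne H.zJ H.z1 (by
    rw [← ei, show i = 1 from Subtype.ext (c'.eq_one i.2 i2 e), map_one])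
  have fin : ∀ B : Subgroup G, L ≤ 𝐍(B) → (i : G) ∈ B → A' ≤ B := fun B hB iB =>
    (c'.le_of_normal H.simple (inf_le_left (b := B)) (le_normalizer_iff.2 fun k hk m hm =>
      mem_inf.2 ⟨mul_mem (mul_mem hk (mem_inf.1 hm).1) (inv_mem hk), by
        rw [← pi_cj cm hk (mem_inf.1 hm).1]
        exact conj_mem_of_mem_normalizer (hB (pL ⟨k, hk⟩)) (mem_inf.1 hm).2⟩) (mem_inf.2 ⟨i.2, iB⟩) i1).trans
      inf_le_right
  rcases hi with e | e
  · exact Or.inl (fin _ (LN p) (e ▸ p.uA))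
  refine Or.inr (fin _ (fun l hl => ?_) (e ▸ cj_mem t p.uA))
  rw [← cj_normalizer, mem_cj, mul_assoc, p.Lt hl, inv_mul_cancel_left]
  exact LN p hl

end E2x

theorem Pr.exists_e2 (H : Fx F) {u : G} {A : Subgroup G} {β : G → X} (p : Pr F t L O α h u A β)
    (nn : ∀ (A B : Subgroup G) (β γ : G → X), Cov F.J A β → Cov F.J B γ → (∀ g ∈ A, ∀ k ∈ B, g * k = k * g) →
      (∀ k ∈ 𝐂(A), k ∈ 𝐂(B) → P2 k → k = 1) → t ∈ 𝐍(A) → t ∈ 𝐍(B) → False)
    {G0 : Subgroup G} (n0 : G0.Normal) (s0 : IsSimpleGroup G0) (hL : L ≤ G0) : Nonempty (E2 F.J F.T G) := by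
  have cB : ∀ g ∈ A, ∀ k ∈ A ^ᶜ t, g * k = k * g := fun g hg _ ⟨k, hk, e⟩ => e ▸ p.comm g hg k hk
  have cj : ∀ x, ∀ g ∈ A ^ᶜ x, ∀ k ∈ (A ^ᶜ t) ^ᶜ x, g * k = k * g := by
    rintro x _ ⟨g, hg, rfl⟩ _ ⟨k, hk, rfl⟩
    exact cj_comm' (cB g hg k hk)
  have tt : (A ^ᶜ t) ^ᶜ t = A := by rw [cj_cj, p.t2, cj_one]
  have kerF : ∀ k ∈ 𝐂(A), k * t = t * k → k * k = 1 → k = 1 := fun k hk c k2 => by
    refine (p.ker_P2 (fun l hl => ?_) c (P2.of_sq k2)).elim id fun e => ?_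
    · obtain ⟨g, hg, rfl⟩ := p.onL l hl
      refine (Commute.mul_left (hk g hg) ?_ :)
      have := cj_comm' (j := t) (hk g hg)
      rwa [← c, mul_inv_cancel_right] at this
    · have := p.ut
      rw [← e, hk u p.uA, mul_inv_cancel_right, eq_comm, mul_eq_left] at this
      exact absurd this (p.ne H.zJ H.z1)
  refine H43.SW.exists_E2 H.sylT p.covA n0 s0 (p.covA.perf.trans (commutator_le.2 fun g hg k hk => ?_)) p.t2
    p.comm kerF (fun g hg => ?_) fun g hg => ?_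
  · rw [commutatorElement_def, ← pi_cj p.comm hg hk, mul_assoc, mul_assoc, ← mul_assoc k]
    exact mul_mem (hL (p.piL g hg)) (n0.conj_mem _ (inv_mem (hL (p.piL g hg))) k)
  · refine nn _ _ _ _ (p.covA.cj g⁻¹) ((p.covA.cj t).cj g⁻¹) (cj _) (fun k h1 h2 k2 => ?_) ?_ ?_
    · rw [← cj_centralizer, mem_cj, inv_inv] at h1 h2
      exact by_contra fun k1 => cjne k1 g (E2x.kerK p.t2 kerF h1 h2 (k2.conj g))
    · rw [← cj_normalizer, mem_cj, inv_inv]; exact hg.1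
    · rw [← cj_normalizer, mem_cj, inv_inv]; exact hg.2
  · have e : (A ^ᶜ g⁻¹) ^ᶜ t = (A ^ᶜ t) ^ᶜ g⁻¹ := by
      conv_rhs => rw [← cj_eq_of_mem_normalizer hg.2]
      rw [cj_cj, cj_cj, cj_cj]; congr 3
      simp only [mul_assoc, p.t2, mul_one, inv_mul_cancel_left]
    have := E2x.uniq H p (p.covA.cj g⁻¹) (fun x hx k hk => cj _ x hx _ (e ▸ cj_mem t hk)) (by
      rw [cj_le_iff]
      exact p.genA.trans ((closure_le _).2 fun i hi => cj_mem_iff.1 (by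
        rw [cj_cj, mul_inv_cancel, cj_one]; exact subset_closure ⟨cj_mem _ hi.1, cjsq hi.2 _⟩)))
    refine this.imp (fun h => ?_) fun h => ?_
    · have h1 := cj_eq_of_cj_le h
      exact inv_mem_iff.1 ⟨cj_eq_self_iff.1 h1, cj_eq_self_iff.1 (by rw [← e, h1])⟩
    · have h1 : A ^ᶜ g⁻¹ = A ^ᶜ t := eq_of_le_of_card_ge h (by rw [card_cj, card_cj])
      refine inv_mem_iff.1 ?_
      rw [mul_inv_rev, p.ti]
      exact ⟨cj_eq_self_iff.1 (by rw [← cj_cj, h1, tt]), cj_eq_self_iff.1 (by rw [← cj_cj, ← e, h1, tt])⟩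

end H36.SV
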