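import Mathlib
import Cfsg.Agent.Lib.StdV.Basic
import Cfsg.Agent.Lib.StdW.F2

/-! End game, part 1: `T1 T2` is a Sylow subgroup of `G0`. -/

set_option autoImplicit false
set_option linter.unusedSectionVars false

namespace H36.SV

open Subgroup H69 H36.SW
open H43.SW (E2 card_of_two zp_comm sup_cm zp_cm)
open scoped commutatorElement

variable {X : Type} [Group X] [Finite X] {G : Type*} [Group G] [Finite G] {F : Dy X}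

namespace F1

/-- Step 4, for an abstract invariant `Low` of involutions. -/
theorem syl_low {J T : Subgroup X} (e : E2 J T G) (hJ : J ≠ ⊥) (sq : ∀ a, a ∉ J → ∀ b, b ∉ J → a * b ∈ J) {φ : X} (hφ : φ ∉ J) (φ2 : φ * φ = 1)
    (Low : G → Prop) (cj : ∀ y g, Low (g * y * g⁻¹) → Low y)
    (l1 : ∀ y ∈ e.H0, y * y = 1 → e.β1 y ∈ J → Low y) (l2 : ∀ y ∈ e.H0, y * y = 1 → e.β2 y ∈ J → Low y)
    (fz : ∀ c ∈ e.H0, c * e.t = e.t * c → c * c = 1 → e.β1 c = φ → ¬ Low c ∧ ¬ Low (c * e.t)) :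
    IsSylowIn 2 (e.T1 ⊔ e.T2) e.G0 := by
  have tG := e.tG hJ
  suffices h : e.S ⊓ e.G0 ≤ e.T1 ⊔ e.T2 from le_antisymm h (le_inf e.TS e.TG) ▸ e.syl0
  intro s hs
  by_contra sT
  obtain ⟨s1, h1, n1, c1⟩ := e.exists_comm hJ hs sT
  have iJ : ∀ x, x ∉ J → x⁻¹ * φ ∈ J := fun x hx => sq _ (fun h => hx (inv_mem_iff.1 h)) _ hφ
  obtain ⟨c, cS, c0, ct, cG, cJ⟩ : ∃ c ∈ e.S, c ∈ e.H0 ∧ c * e.t = e.t * c ∧ (c ∈ e.G0 ∨ c * e.t ∈ e.G0) ∧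
      e.β1 c ∉ J := by
    by_cases h : s1 ∈ e.H0
    · exact ⟨s1, h1.1, h, c1, Or.inl h1.2, fun k => n1 (e.inT h1.1 h k (e.bt c1 ▸ k))⟩
    · have k0 := e.out (e.SH h1.1) h
      have kc : s1 * e.t * e.t = e.t * (s1 * e.t) := by rw [← mul_assoc, ← c1]
      exact ⟨_, mul_mem h1.1 e.tS, k0, kc, Or.inr (by rw [e.tt']; exact h1.2), fun k =>
        tG ((e.G0.mul_mem_cancel_left h1.2).1 (e.TG (e.inT (mul_mem h1.1 e.tS) k0 k (e.bt kc ▸ k))))⟩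
  obtain ⟨s2, s2G, s22, s2L⟩ : ∃ s2 ∈ e.G0, s2 * s2 = 1 ∧ ¬ Low s2 := by
    obtain ⟨a, ha, ea⟩ := e.c1.onto _ (iJ _ cJ)
    obtain ⟨k0, k1, -⟩ := e.b3 c0 ha (e.tA ha)
    rw [ea, mul_inv_cancel_left] at k1
    have kc : c * (a * (e.t * a * e.t)) * e.t = e.t * (c * (a * (e.t * a * e.t))) := by
      rw [← mul_assoc e.t, ← ct, mul_assoc c, mul_assoc c, mul_assoc a, e.tt', e.comm a ha _ (e.tA ha)]
      congr 1
      calc _ = a * (e.t * a * e.t) * e.t := by rw [mul_assoc a, e.tt']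
        _ = e.t * a * e.t * a * e.t := by rw [e.comm a ha _ (e.tA ha)]
        _ = e.t * (a * (e.t * a * e.t)) := by group
        _ = _ := by rw [e.comm a ha _ (e.tA ha)]
    obtain ⟨n, hn, q2, q1, -⟩ := e.odd_inv k0 (by rw [k1, φ2]) (by rw [e.bt kc, k1, φ2])
    have qc : Commute ((c * (a * (e.t * a * e.t))) ^ n) e.t := Commute.pow_left kc n
    have aG := mul_mem (e.le1 ha) (e.le2 (e.tA ha))
    obtain ⟨f1, f2⟩ := fz _ (pow_mem k0 n) qc q2 (by rw [q1, k1])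
    rcases cG with h | h
    · exact ⟨_, pow_mem (mul_mem h aG) n, q2, f1⟩
    · refine ⟨_, e.modG aG hn h, ?_, f2⟩
      rw [mul_assoc _ e.t, ← mul_assoc e.t _ e.t, ← qc.eq, e.tt', q2]
  obtain ⟨s3, s3S, s32, s3L⟩ : ∃ s3 ∈ e.S ⊓ e.G0, s3 * s3 = 1 ∧ ¬ Low s3 := by
    obtain ⟨g, -, hg⟩ := e.syl0.exists_cj_le (P2.of_sq s22).zpowers (zpowers_le.2 s2G)
    exact ⟨_, hg (cj_mem g (mem_zpowers _)), cjsq s22 g, fun h => s2L (cj _ _ h)⟩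
  have nT : ∀ g ∈ e.S ⊓ e.G0, g ∉ e.H0 → e.β1 (g * e.t) ∈ J → e.β2 (g * e.t) ∈ J → False := fun g hg n k1 k2 =>
    tG ((e.G0.mul_mem_cancel_left hg.2).1 (e.TG (e.inT (mul_mem hg.1 e.tS) (e.out (e.SH hg.1) n) k1 k2)))
  have sh : ∀ y ∈ e.H0, ∀ g ∈ e.S ⊓ e.G0, g ∉ e.H0 → y * g ∉ e.H0 ∧ e.β1 (y * g * e.t) = e.β1 y * e.β1 (g * e.t) ∧
      e.β2 (y * g * e.t) = e.β2 y * e.β2 (g * e.t) := fun y hy g hg n =>
    ⟨fun k => n ((e.H0.mul_mem_cancel_left hy).1 k),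
      by rw [mul_assoc, e.c1.mul _ (e.N1 hy) _ (e.N1 (e.out (e.SH hg.1) n))],
      by rw [mul_assoc, e.c2.mul _ (e.N2 hy) _ (e.N2 (e.out (e.SH hg.1) n))]⟩
  have nT2 : ∀ y ∈ e.S ⊓ e.G0, y ∈ e.H0 → y * y = 1 → ¬ Low y → ∀ g ∈ e.S ⊓ e.G0, g ∉ e.H0 →
      e.β1 (g * e.t) ∉ J → e.β2 (g * e.t) ∉ J → False := fun y hy y0 y2 yL g hg n k1 k2 =>
    let ⟨a, b, d⟩ := sh y y0 g hg n
    nT _ (mul_mem hy hg) a (b ▸ sq _ (fun h => yL (l1 y y0 y2 h)) _ k1) (d ▸ sq _ (fun h => yL (l2 y y0 y2 h)) _ k2)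
  have sqv : ∀ g ∈ e.S ⊓ e.G0, g ∉ e.H0 → e.β1 (g * g) = e.β1 (g * e.t) * e.β2 (g * e.t) := fun g hg n => by
    have k := e.out (e.SH hg.1) n
    rw [e.b12, ← e.c1.mul _ (e.N1 k) _ (e.N1 (e.t0 k)), mul_assoc e.t, e.tt', mul_assoc, e.tt]
  have hm : ∀ a ∈ e.S ⊓ e.G0, ∀ b ∈ e.S ⊓ e.G0, a ∉ e.S ⊓ e.H0 → b ∉ e.S ⊓ e.H0 → a * b ∈ e.S ⊓ e.H0 :=
    fun a ha b hb na nb => ⟨mul_mem ha.1 hb.1, e.hm0 a ha b hb (fun h => na ⟨ha.1, h⟩) fun h => nb ⟨hb.1, h⟩⟩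
  by_cases s30 : s3 ∈ e.H0
  swap
  · have k := sqv s3 s3S s30
    rw [s32, e.c1.one] at k
    have k1 : e.β1 (s3 * e.t) ∉ J := fun h =>
      nT s3 s3S s30 h (eq_inv_of_mul_eq_one_right k.symm ▸ inv_mem h)
    obtain ⟨g, gG, hg⟩ := e.tr2 hJ (M := e.S ⊓ e.H0) s3S (fun h => s30 h.2) hm s3S.2 s32
    exact nT2 _ ⟨hg.1, e.n0.conj_mem _ s3S.2 g⟩ hg.2 (cjsq s32 g) (fun h => s3L (cj _ _ h)) s3 s3S s30 k1
      fun h => k1 (eq_inv_of_mul_eq_one_left k.symm ▸ inv_mem h)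
  have j1 : e.β1 s3 ∉ J := fun h => s3L (l1 _ s30 s32 h)
  have j2 : e.β2 s3 ∉ J := fun h => s3L (l2 _ s30 s32 h)
  by_cases hle : e.S ⊓ e.G0 ≤ e.H0
  · obtain ⟨g, -, hg⟩ := e.tr2 hJ (M := (e.S ⊓ e.G0) ⊓ e.c1.pre J) s3S (fun h => j1 (e.c1.mem_pre.1 h.2).2)
      (fun a ha b hb na nb => ⟨mul_mem ha hb, e.c1.mem_pre.2 ⟨e.N1 (hle (mul_mem ha hb)), by
        rw [e.c1.mul _ (e.N1 (hle ha)) _ (e.N1 (hle hb))]
        exact sq _ (fun h => na ⟨ha, e.c1.mem_pre.2 ⟨e.N1 (hle ha), h⟩⟩) _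
          fun h => nb ⟨hb, e.c1.mem_pre.2 ⟨e.N1 (hle hb), h⟩⟩⟩⟩) s3S.2 s32
    exact s3L (cj _ _ (l1 _ (hle hg.1) (cjsq s32 g) (e.c1.mem_pre.1 hg.2).2))
  have ni : ∀ g ∈ e.S ⊓ e.G0, g * g = 1 → g ∈ e.H0 := fun g hg g2 => by
    by_contra n
    have k := sqv g hg n
    rw [g2, e.c1.one] at k
    have k1 : e.β1 (g * e.t) ∉ J := fun h => nT g hg n h (eq_inv_of_mul_eq_one_right k.symm ▸ inv_mem h)
    exact nT2 s3 s3S s30 s32 s3L g hg n k1 fun h => k1 (eq_inv_of_mul_eq_one_left k.symm ▸ inv_mem h)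
  obtain ⟨g, hg, n, g1, g2⟩ : ∃ g ∈ e.S ⊓ e.G0, g ∉ e.H0 ∧ e.β1 (g * e.t) ∉ J ∧ e.β2 (g * e.t) ∈ J := by
    obtain ⟨g, hg, n⟩ := SetLike.not_le_iff_exists.1 hle
    by_cases k : e.β1 (g * e.t) ∈ J
    · obtain ⟨a, b, d⟩ := sh s3 s30 g hg n
      exact ⟨_, mul_mem s3S hg, a, fun h => j1 ((J.mul_mem_cancel_right k).1 (b ▸ h)),
        d ▸ sq _ j2 _ (nT g hg n k)⟩
    · exact ⟨g, hg, n, k, by_contra (nT2 s3 s3S s30 s32 s3L g hg n k)⟩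
  obtain ⟨a, ha, ea⟩ := e.c1.onto _ (iJ _ g1)
  obtain ⟨b, hb, eb⟩ := e.c2.onto _ (inv_mem g2)
  obtain ⟨k0, k1, k2⟩ := e.b3 (e.out (e.SH hg.1) n) ha hb
  rw [ea, mul_inv_cancel_left] at k1
  rw [eb, mul_inv_cancel] at k2
  obtain ⟨m, hm1, q2, q1, q3⟩ := e.odd_inv k0 (by rw [k1, φ2]) (by rw [k2, mul_one])
  have uG := e.modG (mul_mem (e.le1 ha) (e.le2 hb)) hm1 (m := g * e.t) (by rw [e.tt']; exact hg.2)
  have f0 := pow_mem k0 m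
  generalize (g * e.t * (a * b)) ^ m = f at q1 q2 q3 uG f0
  rw [k1] at q1; rw [k2] at q3
  have w0 := mul_mem f0 (e.t0 f0)
  have w1 : e.β1 (f * (e.t * f * e.t)) = φ := by
    rw [e.c1.mul _ (e.N1 f0) _ (e.N1 (e.t0 f0)), ← e.b12, q1, q3, mul_one]
  have w2 : e.β2 (f * (e.t * f * e.t)) = φ := by
    rw [e.c2.mul _ (e.N2 f0) _ (e.N2 (e.t0 f0)), ← e.b21, q1, q3, one_mul]
  obtain ⟨r, -, r2, r1, -⟩ := e.odd_inv w0 (by rw [w1, φ2]) (by rw [w2, φ2])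
  have u2 : ((f * e.t) ^ r) ^ 2 = (f * (e.t * f * e.t)) ^ r := by
    rw [← pow_mul, mul_comm r, pow_mul, pow_two]; congr 1; group
  have wt : e.t * (f * (e.t * f * e.t)) * e.t⁻¹ = (f * (e.t * f * e.t))⁻¹ := by
    rw [e.ti, mul_assoc e.t, mul_assoc f, e.tt']
    refine eq_inv_of_mul_eq_one_left ?_
    calc _ = e.t * (f * (e.t * (f * f) * e.t) * f) * e.t := by group
      _ = 1 := by rw [q2, mul_one, e.t2, mul_one, q2, mul_one, e.t2]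
  have wc : (f * (e.t * f * e.t)) ^ r * e.t = e.t * (f * (e.t * f * e.t)) ^ r := by
    refine (mul_inv_eq_iff_eq_mul.1 ?_).symm
    rw [← conj_pow, wt, inv_pow]; exact inv_eq_of_mul_eq_one_left r2
  have u4 : ((f * e.t) ^ r) ^ 4 = 1 := by rw [show 4 = 2 * 2 from rfl, pow_mul, u2, pow_two, r2]
  obtain ⟨k, -, hk⟩ := e.tr hJ (M := e.S ⊓ e.H0) hg (fun h => n h.2) hm (pow_mem uG r) u4
    fun k _ h => ⟨h.1, ni _ h (by rw [u2]; exact cjsq r2 k)⟩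
  refine (fz _ (pow_mem w0 r) wc r2 (by rw [r1, w1])).1 (cj _ k ?_)
  have ey : k * (f * (e.t * f * e.t)) ^ r * k⁻¹ = k * (f * e.t) ^ r * k⁻¹ * (k * (f * e.t) ^ r * k⁻¹) := by
    rw [← u2, pow_two]; group
  refine l1 _ (ey ▸ mul_mem hk.2 hk.2) (cjsq r2 k) ?_
  rw [ey, e.c1.mul _ (e.N1 hk.2) _ (e.N1 hk.2)]
  exact (em _).elim (fun h => mul_mem h h) fun h => sq _ h _ h

/-- a `2`-group of order at least `n` centralises `y` -/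
def Low (n : ℕ) (y : G) : Prop :=
  ∃ P : Subgroup G, IsPGroup 2 P ∧ (∀ a ∈ P, a * y = y * a) ∧ n ≤ Nat.card P

theorem cj_cm {P : Subgroup G} {y : G} (h : ∀ a ∈ P, a * y = y * a) (g : G) :
    ∀ a ∈ P ^ᶜ g, a * (g * y * g⁻¹) = g * y * g⁻¹ * a := fun a ha => by
  obtain ⟨b, hb, rfl⟩ := mem_cj'.1 ha
  exact cjc (h b hb)

theorem Low.cj {n : ℕ} (y g : G) (h : Low n (g * y * g⁻¹)) : Low n y := by
  obtain ⟨E, h1, h2, h3⟩ := h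
  exact ⟨E ^ᶜ g⁻¹, isPGroup_cj h1 _, by simpa [mul_assoc] using cj_cm h2 g⁻¹, by rwa [card_cj]⟩

theorem pg_sup {D E : Subgroup G} (hD : IsPGroup 2 D) (hE : IsPGroup 2 E)
    (c : ∀ a ∈ D, ∀ b ∈ E, a * b = b * a) : IsPGroup 2 (D ⊔ E : Subgroup G) :=
  isPGroup_sup_of_le_normalizer_right hD hE
    (le_normalizer_of_le_centralizer fun a ha b hb => (c a ha b hb).symm)

/-- the lift of a `2`-subgroup commuting with `α y` -/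
theorem lift {J : Subgroup X} {A : Subgroup G} {α : G → X} (c : Cov J A α) {Y : Subgroup X}
    (hY : Y ≤ J) (p : IsPGroup 2 Y) {y : G} (hy : y ∈ 𝐍(A)) (cy : ∀ u ∈ Y, u * α y = α y * u) :
    ∃ E : Subgroup G, E ≤ A ∧ IsPGroup 2 E ∧ (∀ a ∈ E, a * y = y * a) ∧ Nat.card E = Nat.card Y := by
  obtain ⟨E, hE, k⟩ := c.exists_lift hY p
  exact ⟨E, fun a ha => ((hE a).1 ha).1, isP_of_P2 fun a ha => ((hE a).1 ha).2.1, fun a ha =>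
    let ⟨h1, h2, h3⟩ := (hE a).1 ha; (c.comm_lift hy h1 h2 (cy _ h3).symm).symm, k⟩

theorem exists_two {Y : Subgroup G} {R : Subgroup X} (hR : IsPGroup 2 R)
    (h : Nat.card R ∣ Nat.card Y) : ∃ P ≤ Y, IsPGroup 2 P ∧ Nat.card R ≤ Nat.card P := by
  obtain ⟨P, hP⟩ := exists_isSylowIn 2 Y
  obtain ⟨n, hn⟩ := IsPGroup.iff_card.1 hR
  refine ⟨P, hP.le, hP.isP, ?_⟩
  rw [hn] at h ⊢
  rw [hP.card_eq_pow_factorization]
  exact Nat.pow_le_pow_right two_pos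
    ((Nat.prime_two.pow_dvd_iff_le_factorization Nat.card_pos.ne').1 h)

theorem big (H : Fx F) {a : X} (ha : a ∈ F.J) (a2 : a * a = 1) :
    ∃ R : Subgroup X, IsPGroup 2 R ∧ (∀ x ∈ R, x * a = a * x) ∧ 2 * Nat.card F.R ≤ Nat.card R := by
  have k := H.cRT
  have k' := H.cardTs
  rcases H.inv ha a2 with rfl | ⟨j, -, rfl⟩ | ⟨j, -, rfl⟩
  · exact ⟨F.Ts, H.syl.isP, by simp, by omega⟩
  · exact ⟨F.Ts ^ᶜ j, isPGroup_cj H.syl.isP j, cj_cm H.cT j, by rw [card_cj]; omega⟩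
  · obtain ⟨x, hx, xJ, xb⟩ := H.bx
    refine ⟨(F.Ts ⊓ centralizer {F.b}) ^ᶜ j, isPGroup_cj H.syl.isP.to_inf_left j,
      cj_cm (fun a ha => mem_centralizer_singleton_iff.1 (mem_inf.1 ha).2) j, ?_⟩
    rw [card_cj, card_of_two (M := F.J) (mem_inf.2 ⟨hx, mem_centralizer_singleton_iff.2 xb⟩) xJ
      fun a _ h => H.sq a h x xJ, mul_comm]
    exact Nat.mul_le_mul_right 2 (card_le_of_le fun a ha =>
      ⟨⟨Dy.TTs (H.RT ha), mem_centralizer_singleton_iff.2 (H.Rb a ha)⟩, H.RJ ha⟩)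

theorem odd_K {J T : Subgroup X} (e : E2 J T G) {k : G} (h : k ∈ e.H0) (h1 : e.β1 k = 1)
    (h2 : e.β2 k = 1) : Odd (orderOf k) := by
  obtain ⟨n, hn, p⟩ := exists_odd_P2 k
  exact hn.of_dvd_nat (orderOf_dvd_of_pow_eq_one (e.K' (pow_mem h n)
    (by rw [e.c1.pow (e.N1 h), h1, one_pow]) (by rw [e.c2.pow (e.N2 h), h2, one_pow]) p))

variable (H : Fx F) (e : E2 F.J F.T G)
include H

theorem pair {y : G} (hy : y ∈ e.H0) (h1 : e.β1 y ∈ F.J) (h2 : e.β2 y ∉ F.J) (x : X) :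
    ∃ m ∈ e.H0, e.β1 m = x ∧ e.β2 m = 1 := by
  by_cases hx : x ∈ F.J
  · obtain ⟨a, ha, rfl⟩ := e.c1.onto x hx
    exact ⟨a, e.A0 ha, rfl, e.bA ha⟩
  · obtain ⟨a, ha, ea⟩ := e.c1.onto _ (H.inv_mul_mem h2 hx)
    obtain ⟨b, hb, eb⟩ := e.c2.onto _ (inv_mem h1)
    obtain ⟨k0, k1, k2⟩ := e.b3 (e.t0 hy) ha hb
    exact ⟨_, k0, by rw [k1, ← e.b12, ea, mul_inv_cancel_left], by rw [k2, ← e.b21, eb, mul_inv_cancel]⟩

theorem low1 : ∀ y ∈ e.H0, y * y = 1 → e.β1 y ∈ F.J → Low (4 * Nat.card F.R * F.n2) y := by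
  intro y hy y2 h
  have s1 := e.c1.sq (e.N1 hy) y2
  have s2 := e.c2.sq (e.N2 hy) y2
  by_cases h2 : e.β2 y ∈ F.J
  · obtain ⟨P, PJ, pP, cP, -, nP⟩ := H.inv_comm h s1
    obtain ⟨Q, QJ, pQ, cQ, -, nQ⟩ := H.inv_comm h2 s2
    obtain ⟨D, DA, pD, dy, cD⟩ := lift e.c1 PJ pP (e.N1 hy) cP
    obtain ⟨E, EB, pE, ey, cE⟩ := lift e.c2 QJ pQ (e.N2 hy) cQ
    have cc : ∀ a ∈ D, ∀ b ∈ E, a * b = b * a := fun a ha b hb => e.comm a (DA ha) b (EB hb)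
    refine ⟨D ⊔ E, pg_sup pD pE cc, sup_cm dy ey, ?_⟩
    rw [card_sup_comm cc fun a ha hb => e.AB1 (DA ha) (EB hb) (P2.of_mem pD ha), cD, cE,
      mul_right_comm]
    exact Nat.mul_le_mul (H.k1.trans nP) nQ
  obtain ⟨R, pR, cR, nR⟩ := big H h s1
  have le : R ≤ e.c1.im ((e.H0 ⊓ centralizer {y}) ⊓ 𝐂(e.B)) := fun x hx => by
    obtain ⟨m, hm, m1, m2⟩ := pair H e hy h h2 x
    have k := mul_mem (mul_mem hm hy) (inv_mem hm)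
    have k1 : e.β1 (m * y * m⁻¹ * y) = 1 := by
      rw [e.c1.mul _ (e.N1 k) _ (e.N1 hy), e.c1.conj (e.N1 hm) (e.N1 hy), m1, cR x hx,
        mul_inv_cancel_right, s1]
    have k2 : e.β2 (m * y * m⁻¹ * y) = 1 := by
      rw [e.c2.mul _ (e.N2 k) _ (e.N2 hy), e.c2.conj (e.N2 hm) (e.N2 hy), m2, one_mul, inv_one,
        mul_one, s2]
    have k0 := mul_mem k hy
    obtain ⟨n, hn⟩ := H9.exists_pow_conj_of_odd (cjsq y2 m) y2 (odd_K e k0 k1 k2)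
    have d0 := pow_mem k0 n
    refine e.c1.mem_im.2 ⟨(m * y * m⁻¹ * y) ^ n * m, ⟨⟨mul_mem d0 hm,
      mem_centralizer_singleton_iff.2 (cj_fix.1 ?_)⟩, (e.c2.ker _ (e.N2 (mul_mem d0 hm))).1 ?_⟩,
      e.N1 (mul_mem d0 hm), ?_⟩
    · refine Eq.trans ?_ hn
      simp only [mul_inv_rev, mul_assoc]
    · rw [e.c2.mul _ (e.N2 d0) _ (e.N2 hm), e.c2.pow (e.N2 k0), k2, one_pow, one_mul, m2]
    · rw [e.c1.mul _ (e.N1 d0) _ (e.N1 hm), e.c1.pow (e.N1 k0), k1, one_pow, one_mul, m1]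
  obtain ⟨D, DY, pD, nD⟩ := exists_two (Y := (e.H0 ⊓ centralizer {y}) ⊓ 𝐂(e.B)) pR
    ((card_dvd_of_le le).trans ⟨_, e.c1.card_im fun x hx => e.N1 hx.1.1⟩)
  obtain ⟨-, Q, QJ, pQ, cQ, nQ⟩ := H.outAll h2 s2
  obtain ⟨E, EB, pE, ey, cE⟩ := lift e.c2 QJ pQ (e.N2 hy) cQ
  have cc : ∀ a ∈ D, ∀ b ∈ E, a * b = b * a := fun a ha b hb => ((DY ha).2 b (EB hb)).symm
  have dy : ∀ a ∈ D, a * y = y * a := fun a ha => mem_centralizer_singleton_iff.1 (DY ha).1.2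
  have k2 := sup_cm dy ey
  have y1 : y ≠ 1 := fun k => h2 (by rw [k, e.c2.one]; exact one_mem _)
  refine ⟨(D ⊔ E) ⊔ zpowers y, pg_sup (pg_sup pD pE cc) (P2.of_sq y2).zpowers (zp_comm k2),
    sup_cm k2 (zp_cm rfl), ?_⟩
  rw [card_sup_comm (zp_comm k2), card_zp y2 y1, card_sup_comm cc fun a ha hb =>
    e.c2.eq_one (EB hb) (P2.of_mem pD ha) (e.c2.cen (DY ha).2), cE]
  · have := Nat.mul_le_mul (nR.trans nD) nQ
    linarith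
  · intro a ha hb
    refine ((mem_zp y2).1 hb).resolve_right fun k => h2 ?_
    obtain ⟨u, hu, v, hv, l⟩ := (mem_sup_comm cc).1 ha
    rw [← k, l, e.c2.cen_mul (le_normalizer (EB hv)) (DY hu).2]
    exact e.c2.mem _ (EB hv)

theorem fz {c s : G} (c0 : c ∈ e.H0) (ct : c * e.t = e.t * c) (cJ : e.β1 c = F.φ) (s2 : s * s = 1)
    (hs : s = c ∨ s = c * e.t) : ¬ Low (4 * Nat.card F.R * F.n2) s := fun ⟨E, pE, es, cE⟩ => by
  have st : e.t * s = s * e.t := by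
    rcases hs with rfl | rfl
    exacts [ct.symm, by rw [← mul_assoc, ← ct]]
  have ds := sup_cm es (zp_cm rfl)
  have pD := pg_sup pE (P2.of_sq s2).zpowers (zp_comm es)
  obtain ⟨y, hy, h⟩ := e.odd (Y := centralizer {s}) (mem_centralizer_singleton_iff.2 st) pD
    fun a ha => mem_centralizer_singleton_iff.2 (ds a ha)
  have ys := cj_fix.2 (mem_centralizer_singleton_iff.1 hy)
  have sD : s ∈ (E ⊔ zpowers s) ^ᶜ y := by
    have := cj_mem y (mem_sup_right (mem_zpowers s) : s ∈ E ⊔ zpowers s)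
    rwa [ys] at this
  have cD : 4 * Nat.card F.R * F.n2 ≤ Nat.card ((E ⊔ zpowers s) ^ᶜ y) := by
    rw [card_cj]; exact cE.trans (card_le_of_le le_sup_left)
  have Ds := cj_cm ds y
  rw [ys] at Ds
  have p := isPGroup_cj pD y
  generalize (E ⊔ zpowers s) ^ᶜ y = D at h sD cD Ds p
  have p0 : IsPGroup 2 (D ⊓ e.H0 : Subgroup G) := p.to_inf_left
  rcases hs with rfl | rfl
  · have k0 : Nat.card D ≤ Nat.card (D ⊓ e.H0 : Subgroup G) * 2 := by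
      by_cases hD : D ≤ e.H0
      · rw [inf_eq_left.2 hD]; omega
      · obtain ⟨x, hx, n⟩ := SetLike.not_le_iff_exists.1 hD
        exact (card_of_two hx n fun a ha na => e.mul_out (h ha) (h hx) na n).le
    have k := e.rk2 (D := D ⊓ e.H0) inf_le_right p0
    have k1 := H.ext3 (e.c1.isP_im p0) (IsConj.refl _) fun x hx => by
      obtain ⟨a, ha, n, rfl⟩ := e.c1.mem_im.1 hx
      rw [← cJ]; exact e.c1.comm n (e.N1 c0) (Ds a ha.1)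
    have k2 := H.ext3 (e.c2.isP_im p0) (IsConj.refl _) fun x hx => by
      obtain ⟨a, ha, n, rfl⟩ := e.c2.mem_im.1 hx
      rw [← cJ, ← e.bt ct]; exact e.c2.comm n (e.N2 c0) (Ds a ha.1)
    have := Nat.mul_le_mul k1 k2
    have := H.k2
    nlinarith
  · have n := e.mt c0
    rw [card_of_two sD n fun a ha na => e.mul_out (h ha) (h sD) na n,
      e.c1.card_im (E := D ⊓ e.H0) fun x hx => e.N1 hx.2,
      (eq_bot_iff_forall _).2 fun x (hx : x ∈ (D ⊓ e.H0) ⊓ 𝐂(e.A)) => ?_, card_bot, mul_one] at cD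
    · have := H.card_le (e.c1.isP_im p0)
      have := H.k3
      nlinarith
    refine e.K x hx.2 ?_ (P2.of_mem p hx.1.1)
    have := conj_mem_of_mem_normalizer (normalizer_le_normalizer_centralizer _ (e.N2 c0)) (e.tC1 hx.2)
    rwa [show c * (e.t * x * e.t) * c⁻¹ = c * e.t * x * (c * e.t)⁻¹ by rw [mul_inv_rev, e.ti]; group,
      ← Ds x hx.1.1, mul_inv_cancel_right] at this

end F1

theorem Fx.sylE (H : Fx F) (e : E2 F.J F.T G) : IsSylowIn 2 (e.T1 ⊔ e.T2) e.G0 := by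
  refine F1.syl_low e H.Jne H.sq H.φJ H.φ2 _ F1.Low.cj (F1.low1 H e) (F1.low1 H e.symm)
    fun c c0 ct c2 cJ => ⟨F1.fz H e c0 ct cJ c2 (Or.inl rfl), F1.fz H e c0 ct cJ ?_ (Or.inr rfl)⟩
  rw [mul_assoc, ← mul_assoc e.t, ← ct, e.tt', c2]

end H36.SV
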