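import Mathlib
import Cfsg.Agent.Lib.StdV.GSuz
import Cfsg.Agent.Lib.StdV.SSuz
import Cfsg.Agent.Lib.StdV.CSuz
import Cfsg.Agent.Lib.StdV.ASuz

/-! The facts about `Suz.2`. -/

set_option autoImplicit false

namespace H36.SV

theorem Suz.fx : Fx Suz.F := ⟨Suz.gl (Suz.ce Suz.autM).cM, Suz.sy, Suz.ce Suz.autM⟩

theorem Suz.mode1 : Suz.F.Mode1 := Suz.fx.mode.resolve_right fun m => by
  have e : Suz.F.f = Suz.F.z := by
    have := Suz.mo.or.eq (show Suz.ew [4] [1] = true by decide +kernel)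
    rwa [H92.SW.lw_one, H92.SW.lw_one] at this
  have := m.1
  rw [e, Suz.fx.z2] at this
  exact Suz.fx.z1 this.symm

theorem Suz.oo : Nat.card Suz.F.Ts ≤ Suz.F.n2 ^ 2 :=
  (Suz.mo.lT.gd.card_bot.trans Suz.g_S).le.trans (by decide +kernel)

end H36.SV
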