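import Mathlib
import Cfsg.Agent.Lib.StdV.XG
import Cfsg.Agent.Lib.StdV.ONB

/-! The global facts in `ON.2`. -/

set_option autoImplicit false
set_option maxRecDepth 100000

namespace H36.SV.ON

open Subgroup H54 H69 Function
open H92.SW (cs mem_cs cs_le lw_nil lw_one lw_cons lw_rep)
open scoped commutatorElement

/-- three involutions that generate an `A₅` in the centraliser of `φ` -/
def gonY : List (List ℕ) := [[30], [119, 103, 112], [103, 112, 119]]
/-- the elements of `C_T(φ)` -/
def gonW : List (List ℕ) := [[], [96, 96], [97, 98, 103], [103, 97, 98], [10, 11, 103, 98], [10, 12, 101, 103],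
  [10, 12, 102, 101], [10, 98, 96, 102]]
/-- the generators of the `A₅` -/
noncomputable def gony (i : ℕ) : X := lw y (nthW gonY i)

theorem gon_J {l : ℕ} (e : Nat.beq (pw D.EM [l]) 0 = true) : y l ∈ J := lw_one (lt := y) l ▸ mo.toBs.mem e

theorem gon_cm {t : ℕ} {u v : List ℕ} (e : ew (sb gonY (u ++ v)) (sb gonY (t :: (v ++ u))) = true) :
    ⁅lw gony u, lw gony v⁆ = gony t := by
  have := (mo.or.sb gonY).eq e
  rw [lw_append, lw_cons, lw_append] at this
  rw [commutatorElement_def]
  exact mul_inv_eq_iff_eq_mul.2 (mul_inv_eq_iff_eq_mul.2 (this.trans (mul_assoc _ _ _).symm))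

theorem gon_NJ : cs gony [0, 1, 2] ≤ J := cs_le fun l hl =>
  mo.toBs.mem ((by decide +kernel : ∀ l ∈ [0, 1, 2], Nat.beq (pw D.EM (nthW gonY l)) 0 = true) l hl)

theorem gon_Nφ : ∀ a ∈ cs gony [0, 1, 2], a * y 5 = y 5 * a := fun _ ha =>
  mem_centralizer_singleton_iff.1 (cs_le (H := centralizer {y 5}) (fun l hl => mem_centralizer_singleton_iff.2 (by
    rw [← lw_one (lt := y) 5]
    exact mo.or.cm ((by decide +kernel : ∀ l ∈ [0, 1, 2],
      ew (nthW gonY l ++ [5]) ([5] ++ nthW gonY l) = true) l hl))) ha)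

theorem gon_pf : H48.SM.Pf (cs gony [0, 1, 2]) := by
  refine ⟨cs_le fun l hl => ?_, cs_le fun l hl => subset_closure ⟨mem_cs _ hl, ?_⟩⟩
  · have k : ∀ {t : ℕ} (u v : List ℕ), band (ew (sb gonY (u ++ v)) (sb gonY (t :: (v ++ u))))
        (band (sub u [0, 1, 2]) (sub v [0, 1, 2])) = true → gony t ∈ ⁅cs gony [0, 1, 2], cs gony [0, 1, 2]⁆ :=
      fun u v e => by
        rw [band_eq_true, band_eq_true] at e
        exact gon_cm e.1 ▸ commutator_mem_commutator (mem_sub e.2.1) (mem_sub e.2.2)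
    simp only [List.mem_cons, List.not_mem_nil, or_false] at hl
    rcases hl with rfl | rfl | rfl
    · exact k [2, 1, 2] [1, 0, 2, 1] (by decide +kernel)
    · exact k [0, 2, 0] [0, 1, 2, 1, 2] (by decide +kernel)
    · exact k [0, 1, 0] [1, 2, 0, 1] (by decide +kernel)
  · exact (lw_append _ _ _).symm.trans (mo.or.eq (w := []) ((by decide +kernel : ∀ l ∈ [0, 1, 2],
      ew (nthW gonY l ++ nthW gonY l) [] = true) l hl))

theorem gon_five : 5 ∣ Nat.card (cs gony [0, 1, 2]) := by
  have : Fact (Nat.Prime 5) := ⟨by norm_num⟩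
  have h : orderOf (lw gony [0, 1]) = 5 := orderOf_eq_prime (by
    have := (mo.or.sb gonY).eq (v := [0, 1] ++ ([0, 1] ++ ([0, 1] ++ ([0, 1] ++ [0, 1])))) (w := [])
      (by decide +kernel)
    simp only [lw_append] at this
    rw [pow_succ', pow_succ', pow_three]
    exact this) ((mo.or.sb gonY).ne (w := []) (by decide +kernel))
  exact h ▸ Subgroup.orderOf_dvd_natCard _ (mem_sub (by decide +kernel))

theorem gon_cS : Nat.card F.Ts = 1024 := mo.lT.gd.card_bot.trans (by decide +kernel)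

theorem gon_cR : Nat.card F.R = 512 := mo.gT.card_bot.trans (by decide +kernel)

theorem gon_syl : IsSylowIn 2 F.Ts ⊤ := mo.toBs.syl (a := 10) gon_cS (by decide +kernel)

theorem gon_out : F.Out (y 5) := by
  refine ⟨⟨lw gony [2, 1, 2], gon_NJ (mem_sub (by decide +kernel)), lw gony [1, 0, 2, 1],
    gon_NJ (mem_sub (by decide +kernel)), gon_Nφ _ (mem_sub (by decide +kernel)),
    gon_Nφ _ (mem_sub (by decide +kernel)), ?_, lw y [11, 96], mo.toBs.mem (by decide +kernel), ?_⟩,
    F.T ⊓ centralizer {y 5}, inf_le_left.trans inf_le_right,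
    gon_syl.isP.to_le (inf_le_left.trans inf_le_left), fun a ha => mem_centralizer_singleton_iff.1 ha.2, ?_⟩
  · rw [gon_cm (t := 0) (by decide +kernel)]
    exact mo.or.ne (v := [30]) (w := []) (by decide +kernel)
  · rw [gon_cm (t := 0) (by decide +kernel), ← lw_one (lt := y) 5]
    exact (mo.or.cj (v := [5] ++ [30]) (by decide +kernel)).trans (lw_append _ _ _)
  · have h : ∀ i : Fin 8, allL (tb D.VT) (nthW gonW i) = true ∧ Nat.beq (pw D.EM (nthW gonW i)) 0 = true ∧
        ew (nthW gonW i ++ [5]) ([5] ++ nthW gonW i) = true := by decide +kernel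
    have h' : ∀ i j : Fin 8, i ≠ j → nw (nthW gonW i) (nthW gonW j) = true := by decide +kernel
    refine (Nat.card_fin 8).ge.trans (Nat.card_le_card_of_injective (fun i => ⟨lw y (nthW gonW i),
      ⟨mo.lT.memw (h i).1, mo.toBs.mem (h i).2.1⟩, mem_centralizer_singleton_iff.2 ?_⟩) fun i j e => ?_)
    · rw [← lw_one (lt := y) 5]
      exact mo.or.cm (h i).2.2
    · exact by_contra fun n => mo.or.ne (h' i j n) (congrArg Subtype.val e)

theorem gon_ψ : y 6 = y 5 := by
  rw [← lw_one (lt := y) 5, ← lw_one (lt := y) 6]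
  exact mo.or.eq (by decide +kernel)

theorem gon_sq {l : ℕ} (e : ew [l, l] [] = true) : y l * y l = 1 := by
  have := mo.or.eq e
  rwa [lw_cons, lw_one] at this

theorem gl (cM : F.CM) : Gl F := by
  have φJ : y 5 ∉ J := lw_one (lt := y) 5 ▸ mo.toBs.nmem (by decide +kernel)
  have e : F.ψ = F.φ := gon_ψ
  refine ⟨mo.toBs.nJ, mo.simple, mo.toBs.sq, mo.toBs.aut fun g h => ?_, gon_syl,
    ⟨mo.lT.mem 1 (by decide +kernel), gon_J (by decide +kernel)⟩, gon_sq (by decide +kernel), ?_, fun a ha => ?_,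
    mo.lT.mem 5 (by decide +kernel), φJ, gon_sq (by decide +kernel), e ▸ φJ, gon_sq (by decide +kernel),
    gon_out, e ▸ gon_out, by rw [gon_cR]; decide, by rw [gon_cR]; decide, by rw [gon_cR, gon_cS]; decide,
    Or.inr ⟨e ▸ IsConj.refl _, _, 5, gon_pf, gon_NJ, gon_Nφ, gon_five, ?_⟩⟩
  · have MJ : F.M ≤ J := cs_le fun l hl =>
      gon_J ((by decide +kernel : ∀ l ∈ D.LM, Nat.beq (pw D.EM [l]) 0 = true) l hl)
    have hg : g ∈ J := zpowers_le.2 (gon_J (l := 4) (by decide +kernel)) (cM g fun m hm => h m (MJ hm))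
    have hc : (⟨g, hg⟩ : J) ∈ center J := mem_center_iff.2 fun j => Subtype.ext (h j j.2).symm
    rcases mo.simple.eq_bot_or_eq_top_of_normal (center J) inferInstance with k | k
    · rw [k, mem_bot] at hc
      exact congrArg Subtype.val hc
    · exact absurd (congrArg Subtype.val (mem_center_iff.1
        (k ▸ mem_top _ : (⟨lw y [31], mo.toBs.mem (by decide +kernel)⟩ : J) ∈ center J)
        ⟨lw y [30], mo.toBs.mem (by decide +kernel)⟩)) (mo.or.nc (by decide +kernel))
  · exact fun k => mo.or.ne (v := [1]) (w := []) (by decide +kernel) ((lw_one (lt := y) 1).trans k)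
  · exact mem_centralizer_singleton_iff.1 (cs_le (H := centralizer {y 1}) (fun l hl =>
      mo.lP.mem l ((by decide +kernel : ∀ l ∈ 5 :: D.LT, tb D.VP l = true) l hl)) ha)
  · rw [show Nat.card F.J = D.N from mo.card]
    decide +kernel

theorem eqns_GON : True := by
  have := @gonY.eq_1
  have := @gonW.eq_1
  have := @gony.eq_1
  trivial

end H36.SV.ON
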