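import Mathlib
import Cfsg.Agent.Lib.StdV.XG

/-! The property `Ln` from words in a model. -/

set_option autoImplicit false

namespace H36.SV.LN

open Subgroup H54 H69 Function H36.SW
open H92.SW (cs mem_cs cs_le lw_nil lw_one lw_cons lw_rep)

variable {X Ω : Type} [Group X] [MulAction X Ω] {D : Dt} {J : Subgroup X} {y : ℕ → X}
  {ew nw : List ℕ → List ℕ → Bool} {pt : ℕ → Ω}

theorem cc_cj {F : Dy X} (n : F.J.Normal) (g : X) {a c m : X} (h : F.CC a c m) :
    F.CC (g * a * g⁻¹) (g * c * g⁻¹) (g * m * g⁻¹) := by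
  obtain ⟨h1, h2, h3⟩ := h
  refine ⟨cjc h1, cjc h2, fun d hd e1 e2 => ?_⟩
  rw [← cj_cj_inv g d] at e1 e2 ⊢
  simp only [conj_mul, cj_inj'] at e1 e2
  exact cjc (h3 _ (by simpa using n.conj_mem d hd g⁻¹) e1 e2)

/-- the elements of `C_X(z)` commuting modulo `⟨f⟩` with the words `c :: Ds` are the words `U` -/
noncomputable def ccS (D : Dt) (c : List ℕ) (Ds U : List (List ℕ)) : Bool :=
  srch D.cP D.VP D.tP.get D.chP ((c :: Ds).map fun d => (d, d))
    fun cl' => anyL (fun u => ewL D.cP D.VP D.chP cl' u [0]) U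

/-- the words `Ds` lie in `C_J(z, c)`, and the candidates commuting with all of them pass `Q` -/
noncomputable def ccC (D : Dt) (ew nw : List ℕ → List ℕ → Bool) (c : List ℕ) (Ds U : List (List ℕ))
    (Q : List ℕ → Bool) : Bool :=
  band (allL (fun d => band (Nat.beq (pw D.EM d) 0) (band (ew (d ++ [1]) ([1] ++ d)) (ew (d ++ c) (c ++ d)))) Ds)
    (allL (fun u => band (allL (fun l => Nat.ble 1 l) u) (allLt (fun i =>
      bor (Q (u ++ List.replicate i 4))
        (anyL (fun d => nw ((u ++ List.replicate i 4) ++ d) (d ++ (u ++ List.replicate i 4))) (c :: Ds))) D.k)) U)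

theorem cc [Finite X] (m : Mo D J y ew nw pt) {c : List ℕ} {Ds U : List (List ℕ)} {Q : List ℕ → Bool}
    (e1 : ccS D c Ds U = true) (e2 : ccC D ew nw c Ds U Q = true) {g : X}
    (h : (D.F J y).CC (y 1) (lw y c) g) : ∃ w, Q w = true ∧ lw y w = g := by
  classical
  simp only [ccC, band_eq_true, allL_iff (fun d : List ℕ => _), allL_iff (fun l : ℕ => _), allLt_iff, bor_eq_true,
    anyL_iff (fun d : List ℕ => _), Nat.ble_eq] at e2
  obtain ⟨a, b⟩ := e2
  have k : ∀ d ∈ c :: Ds, g * lw y d = lw y d * g := by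
    intro d hd
    rcases List.mem_cons.1 hd with rfl | hd
    · exact h.2.1
    · exact h.2.2 _ (m.toBs.mem (a d hd).1) (by simpa only [lw_one] using m.or.cm (a d hd).2.1)
        (m.or.cm (a d hd).2.2)
  obtain ⟨u, hu, e⟩ := m.lP.srchU m.lP.gd le_rfl e1 (fun u hu h0 => absurd ((b u hu).1 0 h0) (by decide))
    (mem_centralizer_singleton_iff.2 h.1) (fun q hq => by
      obtain ⟨d, hd, rfl⟩ := List.mem_map.1 hq
      exact k d hd)
  obtain ⟨i, hi, e⟩ := Finset.mem_image.1 ((mem_zpowers_iff_mem_range_orderOf).1 e)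
  rw [Finset.mem_range, m.of] at hi
  have eg : lw y (u ++ List.replicate i 4) = g := by rw [lw_append, lw_rep, e, mul_inv_cancel_left]
  rcases (b u hu).2 i hi with q | ⟨d, hd, q⟩
  · exact ⟨_, q, eg⟩
  · exact absurd (eg ▸ k d hd) (m.or.nc q)

/-- the word equations -/
noncomputable def lnC (EM : ℕ) (ew : List ℕ → List ℕ → Bool) (σ c jc κ j τ c' κ' : List ℕ) : Bool :=
  band (allL (fun d => Nat.beq (pw EM d) 0) [σ, jc, κ, j])
    (allL (fun t : List ℕ × List ℕ × List ℕ => ew (t.1 ++ t.2.1) (t.2.2 ++ t.1))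
      [(σ, [1], [3]), (σ, [3], [1, 3]), (jc, [1], c), (κ, [3], [1, 3]), (κ, c, c), (j, [1], [1]),
        (j, [3], [3] ++ c), (τ, [1], [3]), (τ, c', c), (τ, κ', κ)])

theorem ln [Finite X] (m : Mo D J y ew nw pt) {σ c jc κ j τ c' κ' : List ℕ}
    (e : lnC D.EM ew σ c jc κ j τ c' κ' = true)
    (h1 : ∀ g, (D.F J y).CC (y 1) (y 3) g → ∃ w, anyL (ew w) [[], [1], [3], [1, 3]] = true ∧ lw y w = g)
    (h2 : ∀ g, (D.F J y).CC (y 1) (lw y c') g → ∃ w, nw (κ' ++ w) (w ++ (c' ++ κ')) = true ∧ lw y w = g) :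
    (D.F J y).Ln (y 1) (y 3) := by
  simp only [lnC, band_eq_true, allL_iff (fun d : List ℕ => _),
    allL_iff (fun d : List ℕ × List ℕ × List ℕ => _), List.forall_mem_cons] at e
  obtain ⟨⟨p1, p2, p3, p4, -⟩, a1, a2, a3, a4, a5, a6, a7, a8, a9, a10, -⟩ := e
  have o := m.or
  have l2 : lw y [1, 3] = y 1 * y 3 := by rw [lw_cons, lw_one]
  have b8 := o.cj a8
  have b9 := o.cj a9
  have b10 := o.cj a10
  have b3 := o.cj a3
  rw [lw_one, lw_one] at b8
  rw [lw_one] at b3
  refine ⟨⟨_, m.toBs.mem p1, by simpa only [lw_one] using o.cj a1, by simpa only [lw_one, l2] using o.cj a2⟩,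
    fun g hg => ?_, lw y c, ⟨_, m.toBs.mem p2, b3⟩, _, m.toBs.mem p3,
    by simpa only [lw_one, l2] using o.cj a4, o.cj a5, ⟨_, m.toBs.mem p4, by simpa only [lw_one] using o.cj a6,
      by simpa only [lw_one, lw_append] using o.cj a7⟩, fun g hg k => ?_⟩
  · obtain ⟨w, hw, rfl⟩ := h1 g hg
    simp only [anyL_iff (fun d : List ℕ => _), List.mem_cons, List.not_mem_nil, or_false, exists_eq_or_imp,
      exists_eq_left] at hw
    rcases hw with h | h | h | h
    · exact Or.inl (o.eq h)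
    · exact Or.inr (Or.inl (by simpa only [lw_one] using o.eq h))
    · exact Or.inr (Or.inr (Or.inl (by simpa only [lw_one] using o.eq h)))
    · exact Or.inr (Or.inr (Or.inr (by simpa only [l2] using o.eq h)))
  · have := cc_cj (F := D.F J y) m.toBs.nJ (lw y τ)⁻¹ hg
    rw [← b8, ← b9] at this
    simp only [inv_inv, ← mul_assoc, inv_mul_cancel, one_mul, inv_mul_cancel_right] at this
    obtain ⟨w, hw, e⟩ := h2 _ this
    apply o.ne hw
    rw [lw_append, lw_append, lw_append, e]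
    rw [← b9, ← b10] at k
    calc lw y κ' * ((lw y τ)⁻¹ * g * lw y τ)
        = (lw y τ)⁻¹ * (lw y τ * lw y κ' * (lw y τ)⁻¹ * g * (lw y τ * lw y κ' * (lw y τ)⁻¹)⁻¹) * lw y τ *
          lw y κ' := by group
      _ = _ := by rw [k]; group

theorem eqns_LnG : True := by
  have := @ccS.eq_1
  have := @ccC.eq_1
  have := @lnC.eq_1
  trivial

end H36.SV.LN
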