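import Mathlib
import Cfsg.Agent.Lib.StdV.LnG
import Cfsg.Agent.Lib.StdV.ONB

/-! The property `Ln` in the model of `ON.2`. -/

set_option autoImplicit false
set_option maxRecDepth 100000

namespace H36.SV

open H54 H92.SW

theorem LN.on1 : LN.ccS ON.D [3] [[12, 99, 11], [96, 11, 96], [103, 100, 11]] [[], [3]] = true := by decide +kernel

theorem LN.on2 : LN.ccC ON.D ON.ew ON.nw [3] [[12, 99, 11], [96, 11, 96], [103, 100, 11]] [[], [3]]
    (fun w => anyL (ON.ew w) [[], [1], [3], [1, 3]]) = true := by decide +kernel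

theorem LN.on4 : LN.ccC ON.D ON.ew ON.nw [3] [[12, 99, 11], [96, 11, 96], [103, 100, 11]] [[], [3]]
    (fun w => ON.nw ([70, 74, 72, 70, 65, 74, 76, 72, 74, 70, 72, 65, 74] ++ w)
      (w ++ ([3] ++ [70, 74, 72, 70, 65, 74, 76, 72, 74, 70, 72, 65, 74]))) = true := by decide +kernel

theorem LN.on5 : LN.lnC ON.D.EM ON.ew [31, 96, 116, 72, 70, 74, 65, 68, 72, 74, 70, 64, 72, 74, 70, 72, 70, 72, 74, 76, 72] [28, 28, 27, 27]
    ([68, 70, 64, 72, 70, 65, 68, 70, 72, 74, 64, 70, 72, 65, 74, 68, 70, 64, 72, 74, 70, 64, 72, 74] ++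
      [31, 96, 116, 72, 70, 74, 65, 68, 72, 74, 70, 64, 72, 74, 70, 72, 70, 72, 74, 76, 72]) [42]
    [36, 31, 36, 31, 30, 31, 30, 31, 30, 31] [68, 70, 64, 72, 70, 65, 68, 70, 72, 74, 64, 70, 72, 65, 74, 68, 70, 64, 72, 74, 70, 64, 72, 74] [3]
    [70, 74, 72, 70, 65, 74, 76, 72, 74, 70, 72, 65, 74] = true := by decide +kernel

theorem ON.ln : ON.F.Ln ON.F.z ON.F.q :=
  LN.ln ON.mo LN.on5 (fun _ h => LN.cc ON.mo LN.on1 LN.on2 (by rwa [lw_one]))
    fun _ h => LN.cc ON.mo LN.on1 LN.on4 h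

end H36.SV
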