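import Mathlib
import Cfsg.Agent.Lib.StdV.LnG
import Cfsg.Agent.Lib.StdV.SuzB

/-! The property `Ln` in the model of `Suz.2`. -/

set_option autoImplicit false
set_option maxRecDepth 100000

namespace H36.SV

open H54 H92.SW

theorem LN.suz1 : LN.ccS Suz.D [3] [[30, 120, 101, 31], [97, 32, 101, 120, 30], [96, 107, 121, 115, 30], [31, 106, 113, 116, 103, 4]] [[], [3]] = true := by decide +kernel

theorem LN.suz2 : LN.ccC Suz.D Suz.ew Suz.nw [3] [[30, 120, 101, 31], [97, 32, 101, 120, 30], [96, 107, 121, 115, 30], [31, 106, 113, 116, 103, 4]] [[], [3]]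
    (fun w => anyL (Suz.ew w) [[], [1], [3], [1, 3]]) = true := by decide +kernel

theorem LN.suz3 : LN.ccS Suz.D [102, 118, 116, 123] [[102, 98, 106, 96], [30, 102, 113, 121, 105, 30], [119, 120, 98, 100, 30, 4], [119, 103, 30, 112, 31, 4]]
    [[], [102, 118, 116, 123]] = true := by decide +kernel

theorem LN.suz4 : LN.ccC Suz.D Suz.ew Suz.nw [102, 118, 116, 123] [[102, 98, 106, 96], [30, 102, 113, 121, 105, 30], [119, 120, 98, 100, 30, 4], [119, 103, 30, 112, 31, 4]]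
    [[], [102, 118, 116, 123]]
    (fun w => Suz.nw ([79, 68, 85, 93, 82, 90, 87, 81] ++ w) (w ++ ([102, 118, 116, 123] ++ [79, 68, 85, 93, 82, 90, 87, 81]))) = true := by decide +kernel

theorem LN.suz5 : LN.lnC Suz.D.EM Suz.ew [40] [41] [64, 91, 88, 70, 84, 86, 93, 82, 81] [42] [43] [40] [102, 118, 116, 123]
    [79, 68, 85, 93, 82, 90, 87, 81] = true := by decide +kernel

theorem Suz.ln : Suz.F.Ln Suz.F.z Suz.F.q :=
  LN.ln Suz.mo LN.suz5 (fun _ h => LN.cc Suz.mo LN.suz1 LN.suz2 (by rwa [lw_one]))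
    fun _ h => LN.cc Suz.mo LN.suz3 LN.suz4 h

end H36.SV
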