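import Mathlib
import Cfsg.Agent.Lib.StdV.XL

/-! Faster versions of the searches `srch`, `allW`: the orbits are scanned point by point. -/

set_option autoImplicit false

namespace H36.SV

open H54

/-- `f` holds at all set bits of `D < 2 ^ n` -/
noncomputable def allB (f : ℕ → Bool) (n D : ℕ) : Bool :=
  band (Nat.ble (Nat.succ D) (Nat.pow 2 n)) (allLt (fun i => bimp (tb D i) (f i)) n)

theorem tb_lt {n D δ : ℕ} (h : D < 2 ^ n) (e : tb D δ = true) : δ < n := by
  rw [tb_eq] at e
  exact (Nat.pow_lt_pow_iff_right one_lt_two).1 ((Nat.ge_two_pow_of_testBit e).trans_lt h)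

theorem allBits_of (f : ℕ → Bool) : ∀ (n D : ℕ), (∀ δ, tb D δ = true → δ < n ∧ f δ = true) → allBits f n D = true
  | 0, D, h => by
    show Nat.beq D 0 = true
    rw [Nat.beq_eq]
    exact Nat.eq_of_testBit_eq fun i => by
      rw [Nat.zero_testBit, ← tb_eq]
      exact Bool.eq_false_iff.2 fun e => Nat.not_lt_zero _ (h i e).1
  | n + 1, D, h => by
    show sel (Nat.beq D 0) true (band (f (Nat.log2 D))
      (allBits f n (Nat.xor D (Nat.shiftLeft 1 (Nat.log2 D))))) = true
    cases h0 : Nat.beq D 0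
    · have hD : D ≠ 0 := fun e => by rw [e] at h0; exact Bool.noConfusion h0
      have ht : tb D (Nat.log2 D) = true := by rw [tb_eq]; exact Nat.testBit_log2 hD
      rw [sel_false, band_eq_true]
      refine ⟨(h _ ht).2, allBits_of f n _ fun δ hδ => ?_⟩
      rw [tb_xor_shift] at hδ
      by_cases e : Nat.log2 D = δ
      · subst e; simp [ht] at hδ
      · simp only [e, decide_false, Bool.xor_false] at hδ
        have := (Nat.le_log2 hD).2 (Nat.ge_two_pow_of_testBit (tb_eq D δ ▸ hδ))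
        have := (h _ ht).1
        exact ⟨by omega, (h δ hδ).2⟩
    · rfl

theorem allBits_of_allB {f g : ℕ → Bool} {n D : ℕ} (h : allB f n D = true) (k : ∀ i, f i = true → g i = true) :
    allBits g n D = true := by
  rw [allB, band_eq_true, allLt_iff, Nat.ble_eq] at h
  exact allBits_of g n D fun δ e => ⟨tb_lt h.1 e, k _ ((bimp_eq_true _ _).1 (h.2 δ (tb_lt h.1 e)) e)⟩

noncomputable def noSolF (c : Cfg) (nec : ℕ → ℕ → ℕ → ℕ) (flt : ℕ → ℕ → ℕ → ℕ → Bool)
    (leaf : ℕ → Bool) (ch : Chain) : ℕ → ℕ → Bool :=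
  Chain.rec (motive := fun _ => ℕ → ℕ → Bool) (fun _ x => leaf x)
    (fun b D tbl _ _ _ ih B x => force (nec B x b) fun v => force (Nat.lor B (Nat.shiftLeft 1 b)) fun B' =>
      sel (Nat.beq v 0)
        (allB (fun δ => bimp (flt B x b (c.get x δ)) (force (stepX c b tbl x δ) (ih B'))) c.n D)
        (force (c.find x (Nat.sub v 1)) fun δ =>
          band (Nat.ble (Nat.succ δ) c.n) (band (Nat.beq (Nat.succ (c.get x δ)) v)
            (bimp (tb D δ) (bimp (flt B x b (c.get x δ)) (force (stepX c b tbl x δ) (ih B'))))))) ch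

theorem noSol_of {c : Cfg} {nec : ℕ → ℕ → ℕ → ℕ} {flt : ℕ → ℕ → ℕ → ℕ → Bool} {leaf : ℕ → Bool} :
    ∀ (ch : Chain) (B x : ℕ), noSolF c nec flt leaf ch B x = true → noSol c nec flt leaf ch B x = true
  | .nil, _, _, h => h
  | .cons b D tbl S W r, B, x, h => by
    change sel (Nat.beq (nec B x b) 0)
      (allB (fun δ => bimp (flt B x b (c.get x δ)) (noSolF c nec flt leaf r _ (stepX c b tbl x δ))) c.n D)
      (band _ (band _ (bimp _ (bimp _ (noSolF c nec flt leaf r _ (stepX c b tbl x _)))))) = true at h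
    change sel (Nat.beq (nec B x b) 0)
      (allBits (fun δ => bimp (flt B x b (c.get x δ)) (noSol c nec flt leaf r _ (stepX c b tbl x δ))) c.n D)
      (band _ (band _ (bimp _ (bimp _ (noSol c nec flt leaf r _ (stepX c b tbl x _)))))) = true
    cases e : Nat.beq (nec B x b) 0 <;> rw [e] at h
    · simp only [sel_false, band_eq_true, bimp_eq_true] at h ⊢
      exact ⟨h.1, h.2.1, fun a a' => noSol_of r _ _ (h.2.2 a a')⟩
    · exact allBits_of_allB h fun i k => (bimp_eq_true _ _).2 fun a => noSol_of r _ _ ((bimp_eq_true _ _).1 k a)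

/-- fast `srch` -/
noncomputable def srchF (c : Cfg) (V : ℕ) (cl : ℕ → ℕ) (ch' : Chain) (L : List (List ℕ × List ℕ))
    (Q : (ℕ → ℕ) → Bool) : Bool :=
  band (vld V L) (pcs c cl L fun l =>
    noSolF c (necConj c l) (fltConj c l) (fun p => bor (leafConj c l p) (Q (extL cl 0 p))) ch' 0 c.one)

theorem srch_of {c : Cfg} {V : ℕ} {cl : ℕ → ℕ} {ch' : Chain} {L : List (List ℕ × List ℕ)} {Q : (ℕ → ℕ) → Bool}
    (e : srchF c V cl ch' L Q = true) : srch c V cl ch' L Q = true := by
  rw [srchF, band_eq_true, pcs_eq] at e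
  rw [srch, band_eq_true, pcs_eq]
  exact ⟨e.1, noSol_of _ _ _ e.2⟩

noncomputable def allEltsF (c : Cfg) (P : ℕ → Bool) (ch : Chain) : ℕ → Bool :=
  Chain.rec (motive := fun _ => ℕ → Bool) P
    (fun b D tbl _ _ _ ih x => allB (fun δ => force (stepX c b tbl x δ) ih) c.n D) ch

theorem allElts_of {c : Cfg} {P : ℕ → Bool} :
    ∀ (ch : Chain) (x : ℕ), allEltsF c P ch x = true → allElts c P ch x = true
  | .nil, _, h => h
  | .cons _ _ _ _ _ r, _, h => allBits_of_allB h fun _ k => allElts_of r _ k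

/-- fast `allW` -/
noncomputable def allWF (c : Cfg) (cl : ℕ → ℕ) (ch' : Chain) (Q : (ℕ → ℕ) → Bool) : Bool :=
  allEltsF c (fun p => Q (extL cl 0 p)) ch' c.one

theorem allW_of {c : Cfg} {cl : ℕ → ℕ} {ch' : Chain} {Q : (ℕ → ℕ) → Bool} (e : allWF c cl ch' Q = true) :
    allW c cl ch' Q = true := allElts_of _ _ e

theorem eqns_XF : True := by
  have := @allB.eq_1
  have := @noSolF.eq_1
  have := @srchF.eq_1
  have := @allEltsF.eq_1
  have := @allWF.eq_1
  trivial

end H36.SV
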