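import Mathlib
import Cfsg.Agent.Lib.StdV.XF
import Cfsg.Agent.Lib.StdV.XG
import Cfsg.Agent.Lib.StdV.ONB

/-! The configuration `Phi` in `O'N.2`. -/

set_option autoImplicit false
set_option maxRecDepth 100000

namespace H36.SV

open Subgroup H54 H69 Function
open H92.SW (cs mem_cs cs_le lw_nil lw_one lw_cons lw_rep)
open scoped commutatorElement

namespace PhiG
variable {X : Type} [Group X] {v : ℕ → X} {e n : List ℕ → List ℕ → Bool}

/-- the letters `L` permute the words `S` -/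
theorem nrm_set (o : Or v ⊥ e n) {L : List ℕ} {S : List (List ℕ)}
    (h : allL (fun l => allL (fun s => anyL (fun s' => e ([l] ++ s) (s' ++ [l])) S) S) L = true)
    {c : X} (hc : c ∈ cs v L) {s : List ℕ} (hs : s ∈ S) : ∃ s' ∈ S, c * lw v s * c⁻¹ = lw v s' := by
  have : Finite {g | g ∈ S.map (lw v)} := (List.finite_toSet _).to_subtype
  have k : cs v L ≤ normalizer {g | g ∈ S.map (lw v)} := cs_le fun l hl => mem_normalizer_fintype fun g hg => by
    obtain ⟨s, hs, rfl⟩ := List.mem_map.1 hg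
    obtain ⟨s', hs', k⟩ := (anyL_iff _ _).1 ((allL_iff _ _).1 ((allL_iff _ _).1 h l hl) s hs)
    have := o.cj k
    rw [lw_one] at this
    exact this ▸ List.mem_map_of_mem hs'
  obtain ⟨s', hs', k⟩ := List.mem_map.1 ((k hc (lw v s)).1 (List.mem_map_of_mem hs))
  exact ⟨s', hs', k.symm⟩

/-- the letter `t` normalises the group generated by the letters `L` -/
theorem nrm_cs [Finite X] (o : Or v ⊥ e n) {t : ℕ} {L : List ℕ} {S : List (List ℕ)}
    (h : allL (fun l => anyL (fun s => band (sub s L) (e ([t] ++ [l]) (s ++ [t]))) S) L = true) :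
    v t ∈ normalizer (cs v L : Set X) := by
  have k : cs v L ≤ (cs v L).comap (MulAut.conj (v t)).toMonoidHom := cs_le fun l hl => by
    obtain ⟨s, -, k⟩ := (anyL_iff _ _).1 ((allL_iff _ _).1 h l hl)
    rw [band_eq_true] at k
    have := o.cj k.2
    rw [lw_one, lw_one] at this
    exact (this ▸ mem_sub k.1 : v t * v l * (v t)⁻¹ ∈ cs v L)
  exact mem_normalizer_fintype fun g hg => k hg

/-- the letters `L'` are conjugates under `a` of words in the letters `L` -/
theorem le_cj (o : Or v ⊥ e n) {a : ℕ} {L L' : List ℕ} {S : List (List ℕ)}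
    (h : allL (fun l => anyL (fun s => band (sub s L) (e ([a] ++ s) ([l] ++ [a]))) S) L' = true)
    {H : Subgroup X} (hH : cs v L ≤ H) : ∀ l ∈ L', v l ∈ H ^ᶜ v a := fun l hl => by
  obtain ⟨s, -, k⟩ := (anyL_iff _ _).1 ((allL_iff _ _).1 h l hl)
  rw [band_eq_true] at k
  have := o.cj k.2
  rw [lw_one, lw_one] at this
  exact ⟨_, hH (mem_sub k.1), this⟩

/-- generators of order three inverted inside the group -/
theorem perf (o : Or v ⊥ e n) {L : List ℕ} {S : List (List ℕ)}
    (h : allL (fun l => anyL (fun s => band (sub s L) (e (s ++ [l]) ([l, l] ++ s))) S) L = true) :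
    cs v L ≤ ⁅cs v L, cs v L⁆ := cs_le fun l hl => by
  obtain ⟨s, -, k⟩ := (anyL_iff _ _).1 ((allL_iff _ _).1 h l hl)
  rw [band_eq_true] at k
  have := o.cj k.2
  rw [lw_one, lw_cons, lw_one] at this
  have k2 := commutator_mem_commutator (mem_sub (y := v) k.1) (mem_cs v hl)
  rwa [commutatorElement_def, this, mul_inv_cancel_right] at k2

end PhiG

namespace ON.Phi

/-- the new letters -/
def Y : List (List ℕ) := [[0], [1], [4], [3], [36], [30], [31], [64], [65], [68], [70], [64, 36, 70, 65, 36],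
  [68, 65, 70, 68, 64, 68, 36, 70, 68, 30, 36, 70, 68], [68, 65, 68, 70, 64, 68],
  [64, 68, 30, 36, 70, 68, 36, 70, 64, 1], [36, 68, 65, 68, 70, 64, 68, 36],
  [36, 64, 68, 30, 36, 70, 68, 36, 70, 64, 1, 36]]
noncomputable def v (i : ℕ) : X := lw y (nthW Y i)
noncomputable def e (a b : List ℕ) : Bool := ew (sb Y a) (sb Y b)
noncomputable def n (a b : List ℕ) : Bool := nw (sb Y a) (sb Y b)

theorem o : Or v ⊥ e n := mo.or.sb Y
theorem lv (w : List ℕ) : lw y (sb Y w) = lw v w := lw_sb Y w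
theorem v1 : v 1 = F.z := lw_one (lt := y) 1
theorem v2 : v 2 = F.f := lw_one (lt := y) 4
theorem v3 : v 3 = F.q := lw_one (lt := y) 3
theorem v4 : v 4 = y 36 := lw_one (lt := y) 36

theorem ff : F.f * F.f = F.z := by
  have := o.eq (v := [2, 2]) (w := [1]) (by decide +kernel)
  rwa [lw_cons, lw_one, lw_one, v2, v1] at this

theorem fM : F.f ∈ F.M := by
  have := mo.or.eq (v := [4]) (w := [31, 30, 31, 30, 31, 30, 31, 30, 31, 30]) (by decide +kernel)
  rw [lw_one] at this
  exact (this ▸ mem_sub (by decide +kernel) : y 4 ∈ cs y D.LM)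

/-- membership in `M` -/
noncomputable def mm (w : List ℕ) : Bool := band (allL (tb D.VP) (sb Y w)) (memb D.cP D.cM (wc D.cP D.tP.get (sb Y w)))

theorem mM {w : List ℕ} (h : mm w = true) : lw v w ∈ F.M :=
  lv w ▸ mo.lP.mb mo.gM (cs_le fun l hl => mo.lP.mem l
    ((allL_iff _ _).1 (show allL (tb D.VP) D.LM = true by decide +kernel) l hl)) (zpowers_le.2 fM) h

/-- the centraliser of the words `L` and `f` -/
noncomputable def cc (h hi : List ℕ) (L U : List (List ℕ)) : Bool :=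
  band (srchF D.cP D.VP D.tP.get D.chP (L.map fun c => (sb Y (hi ++ c ++ h), sb Y (hi ++ c ++ h)))
      fun cl' => anyL (fun u => ewL D.cP D.VP D.chP cl' u [0]) (([] :: U).map fun u => sb Y (hi ++ u ++ h)))
    (band (band (e (h ++ hi) []) (e (h ++ [2]) ([2] ++ h)))
      (band (allL (fun c => e (c ++ [2]) ([2] ++ c)) L)
        (allL (fun u => anyL (fun c => n (u ++ c) (c ++ u)) ([2] :: L)) U)))

theorem cen {h hi : List ℕ} {L U : List (List ℕ)} (k : cc h hi L U = true)
    (hU : ∀ u ∈ ([] :: U).map fun u => sb Y (hi ++ u ++ h), 0 ∉ u) {g : X} (hg : g * F.f = F.f * g)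
    (hc : ∀ c ∈ L, g * lw v c = lw v c * g) : g ∈ zpowers F.f := by
  simp only [cc, band_eq_true] at k
  obtain ⟨k1, ⟨k2, k3⟩, k4, k5⟩ := k
  have a1 := o.eq k2
  rw [lw_append, lw_nil] at a1
  have a2 := eq_inv_of_mul_eq_one_right a1
  have a3 := o.cm k3
  rw [lw_one, v2] at a3
  have cf : Commute ((lw v h)⁻¹ * g * lw v h) F.f :=
    ((Commute.inv_left a3).mul_left hg).mul_left a3
  obtain ⟨u0, hu0, i, k6⟩ := mo.lP.srchU mo.lP.gd le_rfl (srch_of k1) hU (g := (lw v h)⁻¹ * g * lw v h)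
    (mem_centralizer_singleton_iff.2 (show Commute _ F.z from ff ▸ cf.mul_right cf)) fun q hq => by
      obtain ⟨c, hc', rfl⟩ := List.mem_map.1 hq
      simp only [lv, lw_append, a2]
      calc _ = (lw v h)⁻¹ * (g * lw v c) * lw v h := by group
        _ = _ := by rw [hc c hc']; group
  obtain ⟨u, hu, rfl⟩ := List.mem_map.1 hu0
  simp only [lv, lw_append, a2] at k6
  have k7 : g = lw v u * F.f ^ i := by
    have a4 : lw v h * F.f ^ i = F.f ^ i * lw v h := (Commute.zpow_right a3 i).eq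
    have a5 : F.f ^ i = ((lw v h)⁻¹ * lw v u * lw v h)⁻¹ * ((lw v h)⁻¹ * g * lw v h) := k6
    calc g = lw v u * (lw v h * (((lw v h)⁻¹ * lw v u * lw v h)⁻¹ * ((lw v h)⁻¹ * g * lw v h))) * (lw v h)⁻¹ := by
          group
      _ = _ := by rw [← a5, a4]; group
  rcases List.mem_cons.1 hu with rfl | hu
  · exact ⟨i, by rw [k7, lw_nil, one_mul]⟩
  obtain ⟨c, hc', k8⟩ := (anyL_iff _ _).1 ((allL_iff _ _).1 k5 u hu)
  refine absurd ?_ (o.nc k8)
  have b : Commute g (lw v c) ∧ Commute F.f (lw v c) := by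
    rcases List.mem_cons.1 hc' with rfl | hc'
    · rw [lw_one, v2]; exact ⟨hg, rfl⟩
    · have := o.cm ((allL_iff _ _).1 k4 c hc')
      rw [lw_one, v2] at this
      exact ⟨hc c hc', this.symm⟩
  have := b.1.mul_left (b.2.zpow_left i).inv_left
  rwa [k7, mul_inv_cancel_right] at this

theorem ty {g x : List ℕ} (h : band (e (g ++ [1]) ([1] ++ g)) (e (g ++ [3]) (x ++ g)) = true) :
    F.Ty F.z (lw v x) := by
  rw [band_eq_true] at h
  have a := o.cj h.1
  have b := o.cj h.2
  rw [lw_one, v1] at a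
  rw [lw_one, v3] at b
  exact ⟨_, a, b⟩

theorem sgn {x : List ℕ} (h : allL (fun l => allL (fun s => anyL (fun s' => e ([l] ++ s) (s' ++ [l])) [x, x ++ [1]])
    [x, x ++ [1]]) [2, 3, 10, 11, 12] = true) {c : X} (hc : c ∈ cs v [2, 3, 10, 11, 12]) :
    c * lw v x * c⁻¹ = lw v x ∨ c * lw v x * c⁻¹ = lw v x * F.z := by
  obtain ⟨s, hs, k⟩ := PhiG.nrm_set o h hc List.mem_cons_self
  rcases List.mem_cons.1 hs with rfl | hs
  · exact .inl k
  · rw [List.mem_singleton.1 hs, lw_append, lw_one, v1] at k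
    exact .inr k

theorem c1 : cc [8, 10, 9, 8] [7, 9, 10, 7] [[8, 9, 7], [7, 9, 8, 9], [7, 9, 8, 9, 5], [7, 10, 7, 10]] [[4]] = true := by
  decide +kernel
theorem c1' : allL (fun c => band (mm c) (e (c ++ [4]) ([4] ++ c)))
    [[8, 9, 7], [7, 9, 8, 9], [7, 9, 8, 9, 5], [7, 10, 7, 10]] = true := by decide +kernel
theorem c2 : cc [] [] [[10, 11], [3, 10], [3, 10, 12], [3], [11], [12]]
    [[3], [10], [11], [12], [3, 10], [3, 11], [10, 11], [3, 12], [10, 12], [11, 12], [3, 10, 11], [3, 10, 12],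
      [3, 11, 12], [10, 11, 12], [3, 10, 11, 12]] = true := by decide +kernel
theorem c3 : allL (fun l => mm [l]) [13, 14, 2, 3, 10, 11, 12] = true := by decide +kernel

theorem lM {L : List ℕ} (h : sub L [13, 14, 2, 3, 10, 11, 12] = true) : cs v L ≤ F.M := cs_le fun l hl => by
  obtain ⟨l', hl', k⟩ := (anyL_iff _ _).1 ((allL_iff _ _).1 h l hl)
  have := mM ((allL_iff _ _).1 c3 l' hl')
  rwa [lw_one, ← Nat.eq_of_beq_eq_true k] at this

theorem hH : cs v [13, 14, 2, 3, 10, 11, 12] ≤ cs v [13, 14] ⊔ cs v [2, 3, 10, 11, 12] := cs_le fun l hl => by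
  rcases List.mem_append.1 (show l ∈ [13, 14] ++ [2, 3, 10, 11, 12] from hl) with h | h
  exacts [mem_sup_left (mem_cs v h), mem_sup_right (mem_cs v h)]

theorem c4 : ∀ l ∈ [2, 3, 10, 11, 12, 15, 16], v l ∈ (cs v [13, 14] ⊔ cs v [2, 3, 10, 11, 12]) ^ᶜ y 36 :=
  v4 ▸ PhiG.le_cj o (S := [[2, 2, 2], [3], [3, 13, 14, 10, 13, 13, 14, 14, 13, 14],
    [3, 13, 14, 13, 13, 14, 14, 13, 14, 2, 2], [3, 14, 13, 13, 14, 13, 13, 14, 2, 2], [13], [14]])
    (by decide +kernel) hH

theorem c5 : F.M ≤ cs v [13, 14, 2, 3, 10, 11, 12, 15, 16] := by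
  have a := o.eq (v := [5]) (w := [3]) (by decide +kernel)
  have b := o.eq (v := [6]) (w := [10, 16, 3, 10, 15, 13, 3, 15, 3, 2, 2, 2]) (by decide +kernel)
  rw [lw_one] at a b
  refine cs_le fun l hl => ?_
  rcases List.mem_cons.1 (show l ∈ [30, 31] from hl) with rfl | hl
  · exact lw_one (lt := y) 30 ▸ (a ▸ mem_sub (by decide +kernel) : v 5 ∈ _)
  · rw [List.mem_singleton.1 hl]
    exact lw_one (lt := y) 31 ▸ (b ▸ mem_sub (by decide +kernel) : v 6 ∈ _)

theorem eqns_PhiON : True := by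
  have := @Y.eq_1
  have := @v.eq_1
  have := @e.eq_1
  have := @n.eq_1
  have := @mm.eq_1
  have := @cc.eq_1
  trivial

end ON.Phi

open ON.Phi in
theorem ON.phi : ON.F.Phi (ON.y 36) := by
  refine ⟨ff, ?_, ?_, ⟨lw v [7, 4], mM (by decide +kernel), ?_⟩, fun g h hg => cen c1 (by decide +kernel) hg ?_,
    lw v [3], mM (by decide +kernel), lw v [12], mM (by decide +kernel), lw v [3, 12, 2, 2, 2],
    mM (by decide +kernel), ty (g := []) (by decide +kernel),
    ty (g := [9, 7, 10, 4, 7, 9, 7, 10, 9]) (by decide +kernel),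
    ty (g := [4, 8, 9, 7, 10, 4, 7, 9, 7, 10, 9]) (by decide +kernel), ?_,
    cs v [2, 3, 10, 11, 12], lM (by decide +kernel), cs v [13, 14], lM (by decide +kernel),
    fun c hc => ⟨sgn (by decide +kernel) hc, sgn (by decide +kernel) hc⟩,
    fun g h => cen c2 (by decide +kernel) (v2 ▸ h _ (mem_cs v (by decide))) fun c hc => h _ (mem_sub
      ((allL_iff _ _).1 (show allL (fun c => sub c [2, 3, 10, 11, 12]) _ = true by decide +kernel) c hc)),
    PhiG.perf o (S := [[14, 13, 13, 14, 14, 13, 14], [13, 14, 13, 13, 14, 14, 13]]) (by decide +kernel),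
    cs_le fun l hl => ?_, cs_le fun l hl => c4 l (List.mem_append_left [15, 16] hl),
    c5.trans (cs_le fun l hl => ?_)⟩
  · exact ON.mo.eD ▸ mem_cs ON.y (by decide +kernel)
  · have := o.cj (u := [4]) (a := [2]) (v := [2, 2, 2]) (by decide +kernel)
    have k := o.eq (v := [2, 2, 2] ++ [2]) (w := []) (by decide +kernel)
    rw [lw_append, lw_one, lw_nil] at k
    rwa [lw_one, lw_one, eq_inv_of_mul_eq_one_left k, v4, v2] at this
  · have := o.eq (v := [4] ++ [7, 4]) (w := [7, 4] ++ [4, 2]) (by decide +kernel)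
    rw [lw_append, lw_append, lw_one, lw_cons 4 [2], lw_one, v4, v2] at this
    rw [mul_assoc, this, inv_mul_cancel_left]
  · intro c hc
    have := (band_eq_true _ _).1 ((allL_iff _ _).1 c1' c hc)
    have k := o.cm this.2
    rw [lw_one, v4] at k
    exact h _ (mM this.1) k
  · have := o.eq (v := [3] ++ [12]) (w := [3, 12, 2, 2, 2] ++ [2]) (by decide +kernel)
    rwa [lw_append, lw_append, lw_one (lt := v) 2, v2] at this
  · rcases List.mem_cons.1 hl with rfl | hl
    · exact PhiG.nrm_cs o (S := [[2], [3, 10], [3], [11, 12, 2, 2], [11, 2, 2, 2]]) (by decide +kernel)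
    · rw [List.mem_singleton.1 hl]
      exact PhiG.nrm_cs o (S := [[2], [11, 2, 2, 2], [3, 12, 2], [3, 11, 2, 2], [3, 10, 11, 12, 2]])
        (by decide +kernel)
  · rcases List.mem_append.1 (show l ∈ [13, 14, 2, 3, 10, 11, 12] ++ [15, 16] from hl) with h | h
    · exact mem_sup_left (hH (mem_cs v h))
    · exact mem_sup_right (c4 l (List.mem_append_right [2, 3, 10, 11, 12] h))

end H36.SV
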