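import Mathlib
import Cfsg.Agent.Lib.StdV.XG

/-! A checker for derivations in the calculus `Ru`. -/

set_option autoImplicit false

namespace H36.SV

open Subgroup H54 H69 H36.SW Function
open H92.SW (cs mem_cs cs_le lw_nil lw_one lw_cons lw_rep)

variable {X Ω : Type} [Group X] [MulAction X Ω] {D : Dt} {J : Subgroup X} {y : ℕ → X}
  {ew nw : List ℕ → List ℕ → Bool} {pt : ℕ → Ω}

abbrev Wd : Type := List ℕ

noncomputable def ccC (D : Dt) (ew nw : Wd → Wd → Bool) (v : Wd) (ds U0 U : List Wd) : Bool :=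
  band (allL (fun d => band (Nat.beq (pw D.EM d) 0) (band (ew ([1] ++ d) (d ++ [1])) (ew (d ++ v) (v ++ d)))) ds)
    (band (srch D.cP D.VP D.tP.get D.chP (ds.map fun d => (d, d))
        fun cl' => anyL (fun u => ewL D.cP D.VP D.chP cl' u [0]) U0)
      (allL (fun u => band (allL (Nat.ble 1) u) (allLt (fun i =>
        bor (anyL (fun d => nw ((u ++ List.replicate i 4) ++ d) (d ++ (u ++ List.replicate i 4))) (v :: ds))
          (anyL (ew (u ++ List.replicate i 4)) U)) D.k)) U0))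

theorem Mo.cc [Finite X] (m : Mo D J y ew nw pt) {v : Wd} {ds U0 U : List Wd} (e : ccC D ew nw v ds U0 U = true)
    (g : X) (h : (D.F J y).CC (y 1) (lw y v) g) : ∃ u ∈ U, g = lw y u := by
  rw [ccC, band_eq_true, band_eq_true] at e
  obtain ⟨e1, e2, e3⟩ := e
  simp only [allL_iff, band_eq_true, allLt_iff, bor_eq_true, anyL_iff, Nat.ble_eq] at e1 e3
  have hd : ∀ d ∈ ds, g * lw y d = lw y d * g := fun d hd => h.2.2 _ (m.toBs.mem (e1 d hd).1)
    (by simpa only [lw_one] using (m.or.cm (e1 d hd).2.1).symm) (m.or.cm (e1 d hd).2.2)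
  obtain ⟨u, hu, k⟩ := m.lP.srchU m.lP.gd le_rfl e2 (fun u hu h0 => absurd ((e3 u hu).1 0 h0) (by decide))
    (mem_centralizer_singleton_iff.2 h.1) fun q hq => by
      obtain ⟨d, h1, rfl⟩ := List.mem_map.1 hq
      exact hd d h1
  classical
  obtain ⟨i, hi, k⟩ := Finset.mem_image.1 (mem_zpowers_iff_mem_range_orderOf.1 k)
  have eg : lw y (u ++ List.replicate i 4) = g := by rw [lw_append, lw_rep, k, mul_inv_cancel_left]
  rcases (e3 u hu).2 i (m.of ▸ Finset.mem_range.1 hi) with ⟨d, h1, a⟩ | ⟨u', h1, a⟩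
  · refine absurd ?_ (m.or.nc a)
    rw [eg]
    rcases List.mem_cons.1 h1 with rfl | h1
    exacts [h.2.1, hd d h1]
  · exact ⟨u', h1, eg ▸ m.or.eq a⟩

/-- a reference: fact number, swap, conjugating word -/
abbrev Rf : Type := ℕ × Bool × Wd

noncomputable def nthP (K : List (Wd × Wd)) (i : ℕ) (f : Wd × Wd → Bool) : Bool :=
  List.rec (motive := fun _ => ℕ → Bool) (fun _ => false)
    (fun a _ ih j => Nat.rec (motive := fun _ => Bool) (f a) (fun k _ => ih k) j) K i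

theorem nthP_spec {f : Wd × Wd → Bool} : ∀ {K : List (Wd × Wd)} {i : ℕ}, nthP K i f = true → ∃ a ∈ K, f a = true
  | [], _, h => Bool.noConfusion h
  | a :: _, 0, h => ⟨a, List.mem_cons_self, h⟩
  | _ :: K, i + 1, h => let ⟨a, ha, e⟩ := nthP_spec (K := K) (i := i) h; ⟨a, List.mem_cons_of_mem _ ha, e⟩

noncomputable def ok (EM : ℕ) (ew : Wd → Wd → Bool) (K : List (Wd × Wd)) (r : Rf) (u v l : Wd) : Bool :=
  band (Nat.beq (pw EM r.2.2) 0) (nthP K r.1 fun a => sel r.2.1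
    (band (ew (r.2.2 ++ [1]) (v ++ r.2.2)) (band (ew (r.2.2 ++ a.1) (u ++ r.2.2)) (ew (l ++ (r.2.2 ++ a.2)) r.2.2)))
    (band (ew (r.2.2 ++ [1]) (u ++ r.2.2)) (band (ew (r.2.2 ++ a.1) (v ++ r.2.2)) (ew (r.2.2 ++ a.2) (l ++ r.2.2)))))

/-- the facts of the list hold -/
def Hd (y : ℕ → X) (P : X → X → X → Prop) (K : List (Wd × Wd)) : Prop := ∀ a ∈ K, P (y 1) (lw y a.1) (lw y a.2)

theorem Hd.cons {P : X → X → X → Prop} {K : List (Wd × Wd)} {c l : Wd} (h : P (y 1) (lw y c) (lw y l))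
    (k : Hd y P K) : Hd y P ((c, l) :: K) := fun a ha => (List.mem_cons.1 ha).elim (fun e => e ▸ h) (k a)

theorem Hd.nil {P : X → X → X → Prop} : Hd y P [] := fun _ h => absurd h List.not_mem_nil

section
variable {EM N : ℕ} (b : Bs J y ew nw EM N) {F : Dy X} (hJ : F.J = J) {Ad Rw : X → X → X → Prop} (r : Ru F Ad Rw)
  {KA K : List (Wd × Wd)}
include b

theorem ok_spec {P : X → X → X → Prop}
    (cj : ∀ j ∈ J, ∀ a c m, P a c m → P (j * a * j⁻¹) (j * c * j⁻¹) (j * m * j⁻¹)) (h : Hd y P K) {rf : Rf}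
    {u v l : Wd} (e : ok EM ew K rf u v l = true) :
    (rf.2.1 = false ∧ P (lw y u) (lw y v) (lw y l)) ∨ (rf.2.1 = true ∧ P (lw y v) (lw y u) (lw y l)⁻¹) := by
  rw [ok, band_eq_true] at e
  obtain ⟨a, ha, e2⟩ := nthP_spec e.2
  have := cj _ (b.mem e.1) _ _ _ (h a ha)
  rw [← lw_one (lt := y) 1] at this
  rw [sel_eq] at e2
  split_ifs at e2 with k <;> simp only [band_eq_true] at e2
  · have e3 := b.or.eq e2.2.2
    rw [lw_append, lw_append, ← eq_inv_mul_iff_mul_eq, ← mul_inv_eq_iff_eq_mul] at e3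
    rw [b.or.cj e2.1, b.or.cj e2.2.1, e3] at this
    exact Or.inr ⟨k, this⟩
  · rw [b.or.cj e2.1, b.or.cj e2.2.1, b.or.cj e2.2.2] at this
    exact Or.inl ⟨Bool.eq_false_iff.2 k, this⟩

include hJ r

theorem okR (h : Hd y Rw K) {rf : Rf} {u v l : Wd} (e : ok EM ew K rf u v l = true) :
    Rw (lw y u) (lw y v) (lw y l) :=
  (ok_spec b (hJ ▸ r.rw_cj) h e).elim And.right fun k => by simpa using r.rw_sym _ _ _ k.2

theorem okA (h : Hd y Ad K) {rf : Rf} {u v : Wd} (e : ok EM ew K rf u v [] = true) : Ad (lw y u) (lw y v) 1 :=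
  (ok_spec b (hJ ▸ r.ad_cj) h e).elim And.right fun k => r.ad_sym _ _ (by simpa [lw_nil] using k.2)

theorem okA' (h : Hd y Ad K) {i : ℕ} {j u v l : Wd} (e : ok EM ew K (i, false, j) u v l = true) :
    Ad (lw y u) (lw y v) (lw y l) :=
  (ok_spec b (hJ ▸ r.ad_cj) h e).elim And.right fun k => Bool.noConfusion k.1

end

/-- a step of a derivation -/
structure St where
  kind : ℕ
  u : Wd
  k : Wd
  t : Wd
  l1 : Wd
  l2 : Wd
  l3 : Wd
  rA : Rf
  r1 : Rf
  r2 : Rf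
  r3 : Rf

noncomputable def run (EM : ℕ) (ew nw : Wd → Wd → Bool) (KA : List (Wd × Wd)) (fin : List (Wd × Wd) → Bool)
    (L : List St) : List (Wd × Wd) → Bool :=
  List.rec (motive := fun _ => List (Wd × Wd) → Bool) fin (fun s _ ih K =>
    band (ok EM ew K s.r1 [1] s.u s.l1) (sel (Nat.beq s.kind 3) (band (ok EM ew K s.r2 [1] s.u s.l2) (nw s.l1 s.l2))
      (band (ok EM ew K s.r2 [1] s.k s.l2) (sel (Nat.beq s.kind 1)
        (band (band (ok EM ew K s.r3 s.u s.k []) (band (ew s.l1 []) (ew s.l2 [])))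
          (band (ew s.t (s.u ++ s.k ++ s.u)) (ih (K ++ [(s.t, [])]))))
        (band (ok EM ew KA s.rA s.u s.k []) (sel (Nat.beq s.kind 2)
          (band (ok EM ew K s.r3 [1] (s.u ++ s.k) s.l3) (nw (s.l2 ++ s.u) (s.u ++ s.l2)))
          (band (band (ew (s.l2 ++ s.u) (s.u ++ s.l2)) (band (ew s.t (s.u ++ s.k)) (ew s.l3 (s.l1 ++ s.l2))))
            (ih (K ++ [(s.t, s.l3)]))))))))) L

section
variable {EM N : ℕ} (b : Bs J y ew nw EM N) {F : Dy X} (hJ : F.J = J) {Ad Rw : X → X → X → Prop} (r : Ru F Ad Rw)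
  {KA : List (Wd × Wd)}
include b hJ r

theorem run_sound (hA : Hd y Ad KA) {fin : List (Wd × Wd) → Bool} : ∀ (L : List St) {K : List (Wd × Wd)},
    Hd y Rw K → run EM ew nw KA fin L K = true → ∃ K', Hd y Rw K' ∧ fin K' = true
  | [], K, h, e => ⟨K, h, e⟩
  | s :: L, K, h, e => by
    have app : ∀ {c l : Wd}, Rw (y 1) (lw y c) (lw y l) → Hd y Rw (K ++ [(c, l)]) := fun k a ha =>
      (List.mem_append.1 ha).elim (h a) fun e => List.mem_singleton.1 e ▸ k
    have R : ∀ {rf : Rf} {v l : Wd}, ok EM ew K rf [1] v l = true → Rw (y 1) (lw y v) (lw y l) := fun e =>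
      lw_one (lt := y) 1 ▸ okR b hJ r h e
    obtain ⟨e1, e⟩ := (band_eq_true _ _).1 e
    rw [sel_eq] at e
    split_ifs at e
    · rw [band_eq_true] at e
      exact absurd (r.rw_uniq _ _ _ _ (R e1) (R e.1)) (b.or.ne e.2)
    obtain ⟨e2, e⟩ := (band_eq_true _ _).1 e
    rw [sel_eq] at e
    split_ifs at e
    · simp only [band_eq_true] at e
      refine run_sound hA L (app ?_) e.2.2
      rw [b.or.eq e.2.1, lw_append, lw_append]
      exact r.clo _ _ _ (b.or.eq e.1.2.1 ▸ R e1 :) (b.or.eq e.1.2.2 ▸ R e2 :) (okR b hJ r h e.1.1)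
    obtain ⟨e3, e⟩ := (band_eq_true _ _).1 e
    rw [sel_eq] at e
    split_ifs at e
    · rw [band_eq_true] at e
      exact absurd (r.add2 _ _ _ _ _ _ (okA b hJ r hA e3) (R e1) (R e2) (lw_append y _ _ ▸ R e.1)) (b.or.nc e.2)
    · simp only [band_eq_true] at e
      refine run_sound hA L (app ?_) e.2
      rw [b.or.eq e.1.2.1, b.or.eq e.1.2.2, lw_append, lw_append]
      exact r.add1 _ _ _ _ _ (okA b hJ r hA e3) (R e1) (R e2) (b.or.cm e.1.1)

theorem run_false (hA : Hd y Ad KA) {L : List St} {K : List (Wd × Wd)} (h : Hd y Rw K)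
    (e : run EM ew nw KA (fun _ => false) L K = true) : False :=
  let ⟨_, _, e⟩ := run_sound b hJ r hA L h e; Bool.noConfusion e

/-- all pairs of `S` -/
theorem run_fin (hA : Hd y Ad KA) {L : List St} {K : List (Wd × Wd)} (h : Hd y Rw K) {S : List Wd} {R : List Rf}
    (e : run EM ew nw KA (fun K' => allL (fun s => allL (fun s' => anyL (fun rf => ok EM ew K' rf s s' []) R) S) S)
      L K = true) : ∀ s ∈ {g | g ∈ S.map (lw y)}, ∀ s' ∈ {g | g ∈ S.map (lw y)}, Rw s s' 1 := by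
  obtain ⟨K', h', e⟩ := run_sound b hJ r hA L h e
  simp only [allL_iff, anyL_iff] at e
  intro s hs s' hs'
  obtain ⟨s, h1, rfl⟩ := List.mem_map.1 hs
  obtain ⟨s', h2, rfl⟩ := List.mem_map.1 hs'
  obtain ⟨rf, -, e⟩ := e s h1 s' h2
  exact okR b hJ r h' e

theorem asc_false (hA : Hd y Ad KA) {u k k' m1 m2 m3 m4 j1 j2 j3 j4 : Wd} {i1 i2 i3 i4 : ℕ}
    (e : band (band (ok EM ew KA (i1, false, j1) u k m1) (ok EM ew KA (i2, false, j2) (u ++ k) k' m2))
      (band (band (ok EM ew KA (i3, false, j3) k k' m3) (ok EM ew KA (i4, false, j4) u (k ++ k') m4))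
        (band (ew (m1 ++ k') (k' ++ m1)) (nw (m2 ++ m1) (m4 ++ m3)))) = true) : False := by
  simp only [band_eq_true] at e
  refine b.or.ne e.2.2.2 ?_
  rw [lw_append, lw_append]
  exact r.assoc _ _ _ _ _ _ _ (okA' b hJ r hA e.1.1) (lw_append y _ _ ▸ okA' b hJ r hA e.1.2)
    (okA' b hJ r hA e.2.1.1) (lw_append y _ _ ▸ okA' b hJ r hA e.2.1.2) (b.or.cm e.2.2.1)

theorem inJ2 {u : Wd} (e : band (Nat.beq (pw EM u) 0) (ew (u ++ u ++ (u ++ u)) []) = true) :
    lw y u ∈ F.J ∧ P2 (lw y u) := by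
  rw [band_eq_true] at e
  refine ⟨hJ ▸ b.mem e.1, 2, ?_⟩
  have := b.or.eq e.2
  simp only [lw_append, lw_nil] at this
  rw [← this, show 2 ^ 2 = 4 from rfl]; simp only [pow_succ, pow_zero, one_mul, mul_assoc]

/-- the rule `shape` for the pair `(z, c)` -/
theorem sh_step (hA : Hd y Ad KA) {w c : Wd} {U U' κ κ' : List Wd} {r1 r2 r3 : Rf}
    (cc : ∀ g, F.CC (y 1) (lw y c) g → ∃ u ∈ U, g = lw y u)
    (e : band (band (ok EM ew KA r1 w [1] []) (band (ok EM ew KA r2 w c []) (ok EM ew KA r3 w ([1] ++ c) [])))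
      (band (band (allL (fun k => band (Nat.beq (pw EM k) 0) (band (ew (k ++ [1]) ((w ++ [1]) ++ k))
          (ew (k ++ c) (c ++ k)))) κ)
        (allL (fun k => band (Nat.beq (pw EM k) 0) (band (ew (k ++ [1]) ([1] ++ k)) (ew (k ++ c) ((w ++ c) ++ k)))) κ'))
      (allL (fun u => band (band (Nat.beq (pw EM u) 0) (ew (u ++ u ++ (u ++ u)) []))
        (bor (anyL (fun k => nw (k ++ u) (u ++ k)) (κ ++ κ')) (anyL (ew u) U'))) U)) = true) :
    ∃ u ∈ U', Ad (y 1) (lw y c) (lw y u) := by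
  rw [band_eq_true, band_eq_true, band_eq_true, band_eq_true, band_eq_true, allL_iff, allL_iff, allL_iff] at e
  obtain ⟨⟨a1, a2, a3⟩, ⟨k1, k2⟩, k3⟩ := e
  obtain ⟨m, c1, c2, c3, c4⟩ := r.shape _ (y 1) _ (lw_one (lt := y) 1 ▸ okA b hJ r hA a1) (okA b hJ r hA a2)
    (by simpa only [lw_append, lw_one] using okA b hJ r hA a3) fun g hg => by
      obtain ⟨u, hu, rfl⟩ := cc g hg
      exact inJ2 b hJ r ((band_eq_true _ _).1 (k3 u hu)).1
  obtain ⟨u, hu, rfl⟩ := cc m c1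
  rcases (bor_eq_true _ _).1 ((band_eq_true _ _).1 (k3 u hu)).2 with h | h
  · obtain ⟨k, hk, h⟩ := (anyL_iff _ _).1 h
    refine absurd ?_ (b.or.nc h)
    rcases List.mem_append.1 hk with hk | hk
    · have := k1 k hk
      simp only [band_eq_true] at this
      exact c3 _ (hJ ▸ b.mem this.1) (by simpa only [lw_append, lw_one] using b.or.cj this.2.1) (b.or.cj this.2.2)
    · have := k2 k hk
      simp only [band_eq_true] at this
      exact c4 _ (hJ ▸ b.mem this.1) (by simpa only [lw_one] using b.or.cj this.2.1)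
        (by simpa only [lw_append] using b.or.cj this.2.2)
  · obtain ⟨u', h1, h⟩ := (anyL_iff _ _).1 h
    exact ⟨u', h1, b.or.eq h ▸ c2⟩

/-- the rule `tau` for the pair `(z, v)` -/
theorem tau_step (hA : Hd y Ad KA) {s v : Wd} {U : List Wd} {r1 r2 : Rf}
    (cc : ∀ g, F.CC (y 1) (lw y v) g → ∃ u ∈ U, g = lw y u)
    (e : band (band (ok EM ew KA r1 s v []) (band (ok EM ew KA r2 s [1] []) (ew ([1] ++ v ++ [1]) (v ++ s))))
      (allL (fun u => band (band (Nat.beq (pw EM u) 0) (ew (u ++ u ++ (u ++ u)) [])) (nw (u ++ u ++ v) [])) U)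
      = true) : ∃ u ∈ U, Rw (y 1) (lw y v) (lw y u) := by
  rw [band_eq_true, band_eq_true, band_eq_true, allL_iff] at e
  obtain ⟨⟨a1, a2, a3⟩, k⟩ := e
  have sw : ∀ g, F.CC (lw y v) (y 1) g → F.CC (y 1) (lw y v) g := fun g h =>
    ⟨h.2.1, h.1, fun d hd e1 e2 => h.2.2 d hd e2 e1⟩
  obtain ⟨l, c1, -, c3⟩ := r.tau _ _ (y 1) (okA b hJ r hA a1) (lw_one (lt := y) 1 ▸ okA b hJ r hA a2)
    (by simpa only [lw_append, lw_one] using b.or.eq a3) fun g hg => by
      obtain ⟨u, hu, rfl⟩ := cc g (sw g hg)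
      have := (band_eq_true _ _).1 (k u hu)
      exact ⟨(inJ2 b hJ r this.1).1, (inJ2 b hJ r this.1).2, by
        simpa only [lw_append, lw_nil] using b.or.ne this.2⟩
  obtain ⟨u, hu, rfl⟩ := cc l (sw l c1)
  exact ⟨u, hu, c3⟩

omit b hJ in
theorem Hd.rw (hA : Hd y Ad KA) (h : ∀ a ∈ KA, a.2 = []) (hz : F.z = y 1) : Hd y Rw (([1], []) :: KA) :=
  Hd.cons (by rw [lw_one]; exact r.rw_z _ (hz ▸ Dy.Zz)) fun a ha => by
    have := hA a ha
    rw [h a ha] at this ⊢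
    exact r.ad_rw _ _ this

end

/-- `S` generates `J` and lies in the class of `z` -/
theorem gen_step {EM N : ℕ} (b : Bs J y ew nw EM N) {F : Dy X} (hJ : F.J = J) (hz : F.z = y 1)
    (h : J ≤ cs y [64, 66, 68, 70, 72, 74, 76]) {S W C : List Wd}
    (e : band (allL (fun l => anyL (fun w => band (allL (fun i => Nat.ble (Nat.succ i) (len S)) w)
        (ew [l] (sb S w))) W) [64, 66, 68, 70, 72, 74, 76])
      (allL (fun s => anyL (fun j => band (Nat.beq (pw EM j) 0) (ew (j ++ [1]) (s ++ j))) C) S) = true) :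
    F.J ≤ closure {g | g ∈ S.map (lw y)} ∧ ∀ s ∈ {g | g ∈ S.map (lw y)}, F.Zc s := by
  simp only [band_eq_true, allL_iff, anyL_iff, Nat.ble_eq, len_eq] at e
  refine ⟨hJ ▸ h.trans (cs_le fun l hl => ?_), fun s hs => ?_⟩
  · obtain ⟨w, -, a, c⟩ := e.1 l hl
    rw [← lw_one (lt := y) l, b.or.eq c, lw_sb]
    exact lw_mem fun i hi => Subgroup.subset_closure (List.mem_map_of_mem (by
      rw [nthW_eq_getElem S i (a i hi)]; exact List.getElem_mem _))
  · obtain ⟨s, h1, rfl⟩ := List.mem_map.1 hs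
    obtain ⟨j, -, a, c⟩ := e.2 s h1
    exact ⟨_, hJ ▸ b.mem a, by simpa only [lw_one, hz] using b.or.cj c⟩

theorem eqns_ReG : True := by
  have := @ccC.eq_1
  have := @nthP.eq_1
  have := @ok.eq_1
  have := @Hd.eq_1
  have := @run.eq_1
  trivial

end H36.SV
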