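import Mathlib
import Cfsg.Agent.Lib.StdV.ReG
import Cfsg.Agent.Lib.StdV.SuzB

/-! The relations between the involutions of `Suz` (generated by tools/stdv2/r2suz.py). -/

set_option autoImplicit false
set_option maxRecDepth 100000

namespace H36.SV.Suz

open Subgroup H54 H69 H36.SW

def c4 : Wd := [64, 88, 81, 66, 64, 81, 88]
def v : Wd := [64, 84, 91, 95, 93, 74, 79, 91, 92]
def KA0 : List (Wd × Wd) := [([3], [])]
def KA : List (Wd × Wd) := (c4, []) :: KA0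
def U4 : List Wd := [[], [1], [64, 88, 81, 66, 64, 81, 88], [88, 81, 66, 64, 81, 88]]
def U22 : List Wd := [[], [94, 76, 91, 79, 68, 92, 84, 92, 76], [74, 68], [64, 91, 91, 93, 80, 92, 92, 80, 93, 91]]
theorem cc4 : ccC D ew nw c4 [[30, 114, 31, 30, 116, 115, 4], [115, 32, 113, 112, 112, 116, 30], [114, 112, 116, 117, 30, 116, 31, 4]]
  [[], [31, 114, 113, 114, 113, 115, 114]] U4 = true := by decide +kernel
theorem cc22 : ccC D ew nw v [[31, 30, 114, 31, 30, 113], [113, 116, 117, 112, 115, 31], [31, 112, 117, 32, 114, 117, 30, 4]]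
  [[], [116, 115, 116, 116, 115, 116], [113, 113, 115, 32, 117, 113], [5, 30, 114, 112, 112, 115, 31, 5], [115, 115, 115, 115, 115], [112, 114, 115, 112, 30, 115, 115], [5, 114, 112, 115, 113, 117, 31, 5], [5, 30, 31, 112, 115, 32, 31, 5]] U22 = true := by decide +kernel
def tw0 : List St := [⟨2, [68, 82, 87, 87, 70, 78, 94, 95, 80], [78, 91, 91, 88, 66, 80, 68, 84, 91], [], [66, 64, 66, 85, 91, 74, 78, 94, 91], [92, 95, 72, 70, 84, 78, 68, 94, 91], [94, 76, 91, 79, 68, 92, 84, 92, 76], (0, false, [68, 91, 76, 91, 74, 78, 94, 94, 86]), (0, false, [64, 91, 78, 90, 91, 79, 94, 72, 79]), (0, false, [64, 92, 82, 87, 76, 66, 87, 87, 68, 70]), (0, false, [])⟩]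
theorem tw0_ok : run D.EM ew nw KA (fun _ => false) tw0 ((v, [94, 76, 91, 79, 68, 92, 84, 92, 76]) :: ([1], []) :: KA) = true := by decide +kernel
def tw1 : List St := [⟨3, [64, 84, 91, 95, 93, 74, 79, 91, 92], [], [], [74, 68], [64, 91, 91, 93, 80, 92, 92, 80, 93, 91], [], (0, false, []), (0, false, []), (0, true, [64, 87, 89, 94, 64, 93, 76, 66, 93]), (0, false, [])⟩]
theorem tw1_ok : run D.EM ew nw KA (fun _ => false) tw1 ((v, [74, 68]) :: ([1], []) :: KA) = true := by decide +kernel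
def tw2 : List St := [⟨3, [64, 84, 91, 95, 93, 74, 79, 91, 92], [], [], [64, 91, 91, 93, 80, 92, 92, 80, 93, 91], [74, 68], [], (0, false, []), (0, false, []), (0, true, [64, 87, 89, 94, 64, 93, 76, 66, 93]), (0, false, [])⟩]
theorem tw2_ok : run D.EM ew nw KA (fun _ => false) tw2 ((v, [64, 91, 91, 93, 80, 92, 92, 80, 93, 91]) :: ([1], []) :: KA) = true := by decide +kernel
def S : List Wd := [[1], [66], [68], [74], [76], [64, 84, 87, 72, 84, 74, 83, 88], [68, 74, 83, 72, 64, 66, 68]]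
def RS : List Rf := [(1, false, []), (7, false, [64, 94, 83, 82, 82, 82, 95, 79, 86, 81]), (3, false, [66, 82, 83, 79, 85, 93, 93, 94, 88]), (3, false, [64, 80, 92, 79, 94, 76, 74, 90, 68, 82]), (3, false, [64, 88, 95, 81, 86, 91, 82, 64, 92, 91]), (5, false, [64, 82, 72, 83, 95, 79, 83, 82, 79, 88]), (7, false, [82, 81, 66, 83, 78, 89, 89, 89, 87]), (7, false, [66, 81, 92, 88, 76, 89, 78, 68, 83]), (1, false, [81, 66, 74, 80, 81, 88, 91, 85, 80]), (6, false, [64, 94, 84, 79, 86, 85, 68, 82, 81, 64]), (6, false, [87, 80, 86, 91, 87, 78, 92, 90, 92]), (6, false, [64, 95, 80, 85, 81, 72, 93, 92, 82]), (6, false, [68, 84, 68, 78, 64, 81, 66]), (0, false, [66, 82, 94, 94, 84, 89, 95, 79, 86, 84]), (3, false, [78, 91, 82, 76, 81, 84, 91, 94, 64]), (6, false, [93, 80, 89, 79, 87, 91, 85, 92, 76]), (1, false, [64, 81, 81, 89, 89, 81, 64, 90, 82, 68]), (2, false, [88, 92, 81, 84, 74, 92, 80, 66, 91]), (2, false, [81,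 86, 82, 87, 93, 80, 95, 87, 68]), (6, false, [70, 85, 68, 85, 76, 86, 81, 66]), (0, false, [70, 76, 89, 90, 80, 81, 78, 91, 78]), (3, false, [82, 93, 88, 82, 93, 80, 64, 89, 85]), (6, false, [70, 74, 80, 83, 88, 81, 86, 64, 91]), (2, false, [70, 87, 80, 89, 76, 91, 88, 81, 78]), (1, false, [64, 78, 89, 86, 84, 66, 79, 81, 66]), (5, false, [85, 89, 81, 92, 68, 81, 64, 87, 74]), (0, false, [64, 87, 86, 80, 94, 76, 70, 82, 92, 89]), (6, false, [66, 81, 93, 81, 92, 76, 72, 93, 64, 84]), (3, false, [78, 81, 76, 88, 82, 74, 80, 90, 92]), (6, false, [95, 85, 81, 84, 82, 80, 89, 74]), (2, false, [79, 72, 90, 68, 95, 79, 89, 83, 72]), (5, false, [68, 81, 83, 80, 94, 93, 72, 68, 90]), (1, false, [78, 92, 95, 83, 94, 78, 91, 94, 90]), (0, false, [72, 91, 80, 83, 85, 68, 92, 86, 93]), (7, false, [64, 88, 81, 78, 91, 68, 94, 79, 89, 70]), (5, false, [66, 89, 68, 90, 78, 84, 76, 92, 88]), (6, false, [68, 84, 85, 80, 78, 81,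 81, 83, 86]), (6, false, [64, 81, 92, 91, 83, 93, 85, 79, 89, 72]), (0, false, [88, 85, 85, 80, 94, 78, 68, 84, 83]), (0, false, [70, 85, 76, 84, 80, 92, 89, 74, 80]), (1, false, [81, 90, 79, 95, 88, 82, 91, 85, 66]), (7, false, [88, 87, 91, 81, 81, 68, 81, 92, 83]), (7, false, [64, 83, 70, 76, 83, 94, 68, 79, 91, 87]), (0, false, [64, 87, 79, 84, 87, 66, 76, 89]), (0, false, [64, 79, 93, 85, 78, 82, 92, 90, 84, 88]), (6, false, [64, 70, 87, 89, 78, 94, 78, 89, 92, 87]), (7, false, [64, 85, 80, 82, 90, 88, 76, 81, 70, 64]), (7, false, [70, 80, 95, 94, 90, 86, 76, 91, 85, 89]), (1, false, [82, 87, 76, 90, 84, 66, 84, 72, 85])]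
def fin : List St := [⟨0, [72, 79, 94, 70, 74, 80, 94, 70, 79], [89, 80, 87, 92, 90, 82, 89, 72, 83], [68, 82, 81, 92, 64, 81, 84, 90, 85], [], [], [], (0, false, [92, 78, 84, 83, 70, 78, 74, 82, 82]), (0, false, [85, 84, 80, 76, 84, 78, 70]), (0, false, [64, 86, 87, 92, 93, 78, 82, 64, 66]), (0, false, [])⟩,
  ⟨0, [68, 81, 80, 85, 92, 81, 76, 91, 87], [80, 94, 66, 79, 94, 85, 68, 70], [66, 82, 88, 85, 81, 82, 66, 79], [], [], [], (1, false, [82, 80, 95, 83, 78, 81, 83, 87, 72]), (0, false, [72, 83, 87, 83, 79, 72, 87, 81, 91]), (0, false, [91, 91, 82, 81, 86, 82, 91, 87, 84]), (0, false, [])⟩,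
  ⟨0, [72, 70, 93, 81, 82, 84, 88, 89, 74], [70, 80, 94, 84, 88, 78, 81, 89, 70], [64, 76, 83, 81, 85, 68, 86], [], [], [], (0, false, [64, 81, 81, 90, 84, 84, 95, 82, 85]), (4, false, [92, 68, 83, 93, 78, 92, 66, 95, 82]), (4, false, [64, 68, 72, 92, 76, 89, 78, 89, 95, 78]), (0, false, [])⟩,
  ⟨0, [80, 94, 85, 93, 79, 90, 84, 83], [68, 82, 85, 76, 86, 85, 84, 68, 93], [72, 80, 81, 78, 81, 80, 64, 84], [], [], [], (1, false, [78, 78, 82, 81, 85, 91, 79, 90, 76]), (4, false, [66, 84, 95, 95, 91, 64, 81, 91, 92]), (4, false, [79, 94, 81, 94, 84, 66, 81, 92]), (0, false, [])⟩]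
theorem fin_ok : run D.EM ew nw KA (fun K' => allL (fun s => allL (fun s' => anyL (fun rf => ok D.EM ew K' rf s s' []) RS) S) S)
    fin ((v, []) :: ([1], []) :: KA) = true := by decide +kernel

theorem gs : F.J ≤ closure {g | g ∈ S.map (lw y)} ∧ ∀ s ∈ {g | g ∈ S.map (lw y)}, F.Zc s :=
  gen_step mo.toBs rfl rfl (JJ_le H40.Suz.pres hx0 (by decide +kernel)) (W := [[0], [1], [2], [0, 1, 6, 0, 2, 3, 5, 1, 6, 0, 1, 3, 5, 6, 2, 5, 3], [0, 1, 5, 2, 1, 5, 6, 0, 1, 3, 0, 6, 0, 5, 2, 1, 5, 3], [3], [4]])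
    (C := [[], [81, 66, 74, 80, 81, 88, 91, 85, 80], [64, 81, 81, 89, 89, 81, 64, 90, 82, 68], [64, 78, 89, 86, 84, 66, 79, 81, 66], [78, 92, 95, 83, 94, 78, 91, 94, 90], [81, 90, 79, 95, 88, 82, 91, 85, 66], [82, 87, 76, 90, 84, 66, 84, 72, 85]]) (by decide +kernel)

theorem ka {Ad Rw : X → X → X → Prop} (r : Ru F Ad Rw) : Hd y Ad KA := by
  have h0 : Hd y Ad KA0 := Hd.cons (r.ty _ _ (by rw [H92.SW.lw_one]; exact Dy.Ty.base)) Hd.nil
  obtain ⟨u, hu, h⟩ := sh_step mo.toBs rfl r h0 (w := [78, 68, 79]) (U' := [[]])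
    (κ := [[70, 90, 76, 95, 81, 82, 81, 95, 70]]) (κ' := [[78, 86, 81, 66, 64, 82]])
    (r1 := (0, false, [66, 76, 82, 90, 70, 84, 89, 94, 81, 87])) (r2 := (0, false, [85, 90, 66, 81, 70, 94, 83, 90, 83])) (r3 := (0, false, [94, 89, 79, 72, 84, 79, 66, 74, 64])) (mo.cc cc4) (by decide +kernel)
  rw [List.mem_singleton.1 hu] at h
  exact Hd.cons h h0

theorem re (ln : F.Ln F.z F.q) : Re F := by
  refine ⟨ln, _, gs.1, gs.2, fun Ad Rw r _ => ?_⟩
  have hA := ka r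
  have h0 := hA.rw r (by decide) rfl
  obtain ⟨u, hu, h⟩ := tau_step mo.toBs rfl r hA (s := [94, 76, 91, 79, 68, 92, 84, 92, 76]) (r1 := (0, false, [93, 81, 64, 92, 74, 79, 95, 86])) (r2 := (0, false, [64, 91, 70, 81, 88, 64, 89, 91, 70]))
    (mo.cc cc22) (by decide +kernel)
  simp only [U22, List.mem_cons, List.not_mem_nil, or_false] at hu
  rcases hu with rfl | rfl | rfl | rfl
  · exact run_fin mo.toBs rfl r hA (Hd.cons h h0) fin_ok
  · exact (run_false mo.toBs rfl r hA (Hd.cons h h0) tw0_ok).elim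
  · exact (run_false mo.toBs rfl r hA (Hd.cons h h0) tw1_ok).elim
  · exact (run_false mo.toBs rfl r hA (Hd.cons h h0) tw2_ok).elim

theorem eqns_Re : True := by
  have := @c4.eq_1
  have := @v.eq_1
  have := @KA0.eq_1
  have := @KA.eq_1
  have := @U4.eq_1
  have := @U22.eq_1
  have := @tw0.eq_1
  have := @tw1.eq_1
  have := @tw2.eq_1
  have := @S.eq_1
  have := @RS.eq_1
  have := @fin.eq_1
  trivial

end H36.SV.Suz
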