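import Mathlib
import Cfsg.Agent.Lib.StdV.SHS

/-! The facts `Sy` on the Sylow subgroup: the scan in pieces, centraliser orders from class sizes. -/

set_option autoImplicit false

namespace H36.SV.SHS

open Subgroup H54 H69 Function
open H92.SW (cs mem_cs cs_le lw_nil lw_one lw_cons lw_rep)
open scoped commutatorElement

noncomputable def scQ (D : Dt) (tr : Tr) (Rp : List (List ℕ)) (a1 a4 : ℕ) (cl : ℕ → ℕ) : Bool :=
  band (bor (D.nT cl [0, 0] []) (bor (D.eT cl [0] []) (look D tr Rp a4 cl [0])))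
    (bor (D.eT cl [0, 0, 0, 0] []) (bor (D.nT cl [0, 0, 0, 0, 0, 0, 0, 0] []) (look D tr Rp a1 cl [0, 0, 0, 0])))

/-- the scan below one point of the first orbit -/
noncomputable def scA (D : Dt) (tr : Tr) (Rp : List (List ℕ)) (a1 a4 : ℕ) : ℕ → Bool :=
  allAt D.cT (fun p => scQ D tr Rp a1 a4 (extL D.tT.get 0 p)) D.chS D.cT.one

/-- the conjugates of `r` by the first `k` words of `W` are distinct -/
noncomputable def cls (D : Dt) (r : List ℕ) (W : List (List ℕ)) (k : ℕ) : Bool :=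
  allLt (fun i => band (band (sub (nthW W i) D.LT) (D.eT D.tT.get ((nthW W i).reverse ++ nthW W i) []))
    (allLt (fun j => D.nT D.tT.get (((nthW W j).reverse ++ nthW W i) ++ r)
      (r ++ ((nthW W j).reverse ++ nthW W i))) i)) k

noncomputable def ceD (D : Dt) (Rp : List (List ℕ)) (Wf : ℕ → List (List ℕ)) (k1 k2 a1 a2 a3 : ℕ) : Bool :=
  band (band (allFrom (fun i => cls D (nthW Rp i) (Wf i) k1) a1 (Nat.sub a2 a1))
      (allFrom (fun i => cls D (nthW Rp i) (Wf i) k2) a2 (Nat.sub a3 a2)))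
    (band (band (Nat.ble 1 k1) (Nat.ble (D.chT.size D.cT.n) (Nat.mul k1 512)))
      (band (Nat.ble 1 k2) (Nat.ble (D.chS.size D.cT.n) (Nat.mul k2 D.n3))))

variable {X Ω : Type} [Group X] [MulAction X Ω] {y : ℕ → X} {pt : ℕ → Ω} {D : Dt} {J : Subgroup X}
  {ew nw : List ℕ → List ℕ → Bool}

theorem card_cls [Finite X] {H : Subgroup X} {r : X} {k : ℕ} (f : ℕ → X) (hf : ∀ i, i < k → f i ∈ H)
    (hd : ∀ i, i < k → ∀ j, j < i → (f j)⁻¹ * f i * r ≠ r * ((f j)⁻¹ * f i)) :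
    k * Nat.card (H ⊓ centralizer {r} : Subgroup X) ≤ Nat.card H := by
  have key : ∀ {i j : Fin k} {c c' : (H ⊓ centralizer {r} : Subgroup X)}, f i * c.1 = f j * c'.1 → ¬ j < i :=
    fun {i j c c'} e h => hd i i.2 j h (by
      have : (f j)⁻¹ * f i = c'.1 * c.1⁻¹ := by rw [inv_mul_eq_iff_eq_mul, ← mul_assoc, ← e, mul_inv_cancel_right]
      rw [this]
      exact mem_centralizer_singleton_iff.1 ((centralizer {r}).mul_mem c'.2.2 ((centralizer {r}).inv_mem c.2.2)))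
  have := Nat.card_le_card_of_injective (fun q : Fin k × (H ⊓ centralizer {r} : Subgroup X) =>
    (⟨f q.1 * q.2.1, H.mul_mem (hf _ q.1.2) q.2.2.1⟩ : H)) fun q q' h => by
      have e : f q.1 * q.2.1 = f q'.1 * q'.2.1 := congrArg Subtype.val h
      have e1 : q.1 = q'.1 := le_antisymm (not_lt.1 (key e)) (not_lt.1 (key e.symm))
      rw [e1] at e
      exact Prod.ext e1 (Subtype.ext (mul_left_cancel e))
  simpa using this

theorem cls_spec [Finite X] {pt' : ℕ → Ω} {P H : Subgroup X} (lv : Lv y D.cT pt' D.VT D.tT.get ⊥ P D.chS)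
    (hH : cs y D.LT ≤ H) {r : List ℕ} {W : List (List ℕ)} {k m : ℕ} (e : cls D r W k = true) (hk : 1 ≤ k)
    (hm : Nat.card H ≤ k * m) : Nat.card (H ⊓ centralizer {lw y r} : Subgroup X) ≤ m := by
  simp only [cls, allLt_iff, band_eq_true] at e
  refine Nat.le_of_mul_le_mul_left ((card_cls (fun i => lw y (nthW W i)) (fun i hi => hH (mem_sub (e i hi).1.1))
    fun i hi j hj => ?_).trans hm) hk
  have a := lv.or.eq (e j (hj.trans hi)).1.2
  have b := lv.or.nc ((e i hi).2 j hj)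
  rw [lw_append] at a b
  rwa [eq_inv_of_mul_eq_one_left a] at b

theorem sy2 [Finite X] (mo : Mo D J y ew nw pt) {tr : Tr} {Rp Cj : List (List ℕ)} {a1 a2 a3 a4 : ℕ} {chR : Chain}
    {u v c : List ℕ} (h12 : a1 ≤ a2) (h23 : a2 ≤ a3) (h14 : a1 ≤ a4) (hne : D.chS ≠ .nil)
    (e1 : allFrom (scA D tr Rp a1 a4) 0 D.cT.n = true) {Wf : ℕ → List (List ℕ)} {k1 k2 : ℕ}
    (e2 : rpC D ew Rp Cj a1 a2 a3 a4 = true) (e3 : ceD D Rp Wf k1 k2 a1 a2 a3 = true) (e4 : loC D chR = true)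
    (e5 : smC D ew nw u v c = true) (nc : a3 < a4 → ¬ IsConj (y 5) (y 6)) : Sy (D.F J y) := by
  have o := mo.or
  have b := mo.toBs
  have nJ := b.nJ
  simp only [rpC, allLt_iff, band_eq_true, allL_iff (Nat.ble 1), Nat.ble_eq] at e2
  simp only [ceD, band_eq_true, allFrom_iff, Nat.sub_eq, Nat.ble_eq, Nat.mul_eq] at e3
  obtain ⟨e3, ⟨k1p, k1l⟩, k2p, k2l⟩ := e3
  have al : ∀ {a}, a ∈ cs y (5 :: D.LT) → ∃ cl, scQ D tr Rp a1 a4 cl = true ∧
      Lv (update y 0 a) D.cT (fun i => pt (gt D.pT i)) D.VT cl ⊥ (cs y (5 :: D.LT)) D.chS := fun {a} ha => by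
    obtain ⟨p, r, h⟩ := mo.lT.gd.good.allAt_sound mo.lT.x hne (rep_one mo.lT.x) e1 ⟨a, ha⟩ trivial
    rw [one_mul] at r
    exact ⟨_, h, mo.lT.upd ha r⟩
  rw [loC, band_eq_true, band_eq_true, Nat.beq_eq] at e4
  simp only [smC, band_eq_true, allL_iff (α := ℕ), allL_iff (α := List ℕ), List.forall_mem_cons, Nat.ble_eq] at e5
  obtain ⟨⟨s1, s2⟩, ⟨⟨s3, s4⟩, s5, s6, s7⟩, ⟨⟨s8, s9⟩, s10, s11, s12⟩, ⟨p1, p2, p38, p39, pc, -⟩, p5, p6, p37, -⟩ := e5
  obtain ⟨c1, c2, c3⟩ := e4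
  have l1 : ∀ a, lw y [a] = y a := lw_one
  have l2 : ∀ a a', lw y [a, a'] = y a * y a' := fun a a' => by rw [lw_cons, l1]
  have l4 : ∀ (y' : ℕ → X) a, lw y' [a, a, a, a] = y' a ^ 4 := fun y' a => lw_rep a 4
  have h0 : 0 ∉ D.LT := fun h => absurd (s1 0 h).1 (by decide)
  have hR : ∀ i, i < a4 → 0 ∉ nthW Rp i := fun i hi h => absurd ((e2 i hi).1.1 0 h) (by decide)
  have eT : (D.F J y).T = cs y D.LT := mo.eT
  have TJ : cs y D.LT ≤ J := eT ▸ inf_le_right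
  have TS : cs y D.LT ≤ cs y (5 :: D.LT) := eT ▸ inf_le_left
  obtain ⟨RS, gR⟩ := mo.lT.gdL c2
  have cR : Nat.card (cs y D.LR) = 512 := gR.card_bot.trans c3
  have RJ : cs y D.LR ≤ J := cs_le fun l hl => l1 l ▸ b.mem (s2 l hl).1
  have cj : ∀ {i a τ}, i < a4 → τ ∈ cs y D.LT → a * τ = τ * lw y (nthW Rp i) →
      ∃ j ∈ J, j * y (ty a1 a2 a3 i) * j⁻¹ = a := fun {i a τ} hi hτ e => by
    refine ⟨τ * lw y (nthW Cj i), mul_mem (TJ hτ) (b.mem (e2 i hi).1.2), ?_⟩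
    have := o.cj (e2 i hi).2
    rw [l1] at this
    rw [eq_mul_inv_of_mul_eq e, ← this]; group
  have t1 : ∀ {i}, i < a1 → ty a1 a2 a3 i = 1 := fun h => by simp [ty, sel_eq, h.not_ge]
  have t2 : ∀ {i}, a1 ≤ i → i < a2 → ty a1 a2 a3 i = 2 := fun h h' => by simp [ty, sel_eq, h, h'.not_ge]
  have t5 : ∀ {i}, a2 ≤ i → i < a3 → ty a1 a2 a3 i = 5 := fun h h' => by
    simp [ty, sel_eq, h, h12.trans h, h'.not_ge]
  have t6 : ∀ {i}, a3 ≤ i → ty a1 a2 a3 i = 6 := fun h => by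
    simp [ty, sel_eq, h, h23.trans h, h12.trans (h23.trans h)]
  have inv : ∀ a ∈ cs y (5 :: D.LT), a * a = 1 → a = 1 ∨
      ∃ i, i < a4 ∧ ∃ τ ∈ cs y D.LT, a * τ = τ * lw y (nthW Rp i) := fun a ha e => by
    obtain ⟨cl, q, lv⟩ := al ha
    simp only [scQ, band_eq_true, bor_eq_true] at q
    rcases q.1 with q | q | q
    · exact absurd (by rw [lw_cons, lw_one, update_self, e, lw_nil]) (lv.or.ne q)
    · exact Or.inl (by simpa only [lw_one, update_self, lw_nil] using lv.or.eq q)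
    · exact Or.inr (by simpa only [lw_one, update_self] using look_spec lv h0 hR q)
  have mJ : ∀ {j a x : X}, j * x * j⁻¹ = a → (a ∈ J ↔ x ∈ J) := fun {j a x} e =>
    e ▸ ⟨fun h => by simpa [mul_assoc] using nJ.conj_mem _ h j⁻¹, fun h => nJ.conj_mem _ h j⟩
  refine ⟨fun a ha h => ?_, ?_, fun a ha e => ?_, fun a ha hJ e => ?_, le_inf RS RJ, fun a ha => ?_, ?_,
    (l2 2 2).symm.trans (o.eq s6), fun h => o.ne s7 ((l1 2).trans h), ?_, (show 4 < Nat.card (cs y D.LR) by omega),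
    ⟨y 37, mo.lT.mem 37 s8, l1 37 ▸ b.nmem p37, (l2 _ _).symm.trans ((o.eq s9).trans (l2 _ _))⟩,
    Or.inr ⟨fun a ha e => ?_, y 38, l1 38 ▸ b.mem p38, (l2 _ _).symm.trans ((o.eq s10).trans (l2 _ _)),
      ⟨_, b.mem pc, by have := o.cj s11; rwa [l1, l4] at this⟩, y 39, l1 39 ▸ b.mem p39, ?_⟩⟩
  · obtain ⟨w, hw, e⟩ := mo.lT.srchU mo.lT.gd le_rfl c1 (by decide) ha fun q hq => by
      obtain ⟨l, hl, rfl⟩ := List.mem_map.1 hq
      exact h _ (eT ▸ l1 l ▸ mem_cs y hl)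
    rw [mem_bot, inv_mul_eq_one] at e
    rcases List.mem_pair.1 hw with rfl | rfl
    exacts [Or.inl e.symm, Or.inr (e.symm.trans (l1 1))]
  · rw [eT]
    exact cs_le fun l hl => subset_closure ⟨mem_cs y hl, (l2 l l).symm.trans (o.eq (s1 l hl).2)⟩
  · refine (inv a ha.1 e).imp_right fun ⟨i, hi, τ, hτ, e⟩ => ?_
    obtain ⟨j, hj, k⟩ := cj hi hτ e
    rcases lt_or_ge i a1 with h1 | h1
    · exact Or.inl ⟨j, hj, by rwa [t1 h1] at k⟩
    rcases lt_or_ge i a2 with h2 | h2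
    · refine Or.inr ⟨⟨j, hj, by rwa [t2 h1 h2] at k⟩, ?_⟩
      rw [eT]
      exact (card_cj_le hτ e).trans ((cls_spec mo.lT le_rfl (e3.1 i h1 (by omega)) k1p (mo.gT.card_bot ▸ k1l)).trans cR.ge)
    have := (mJ k).1 ha.2
    rcases lt_or_ge i a3 with h3 | h3
    · exact absurd (t5 h2 h3 ▸ this) (l1 5 ▸ b.nmem p5)
    · exact absurd (t6 h3 ▸ this) (l1 6 ▸ b.nmem p6)
  · obtain ⟨i, hi, τ, hτ, e⟩ := (inv a ha e).resolve_left fun h => hJ (h ▸ one_mem _)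
    obtain ⟨j, hj, k⟩ := cj hi hτ e
    rcases lt_or_ge i a1 with h1 | h1
    · exact absurd ((mJ k).2 (t1 h1 ▸ l1 1 ▸ b.mem p1)) hJ
    rcases lt_or_ge i a2 with h2 | h2
    · exact absurd ((mJ k).2 (t2 h1 h2 ▸ l1 2 ▸ b.mem p2)) hJ
    rcases lt_or_ge i a3 with h3 | h3
    · exact Or.inl ⟨⟨j, hj, by rwa [t5 h2 h3] at k⟩,
        (card_cj_le (TS hτ) e).trans (cls_spec mo.lT TS (e3.2 i h2 (by omega)) k2p (mo.lT.gd.card_bot ▸ k2l))⟩
    · exact Or.inr ⟨⟨j, hj, by rwa [t6 h3] at k⟩, nc (by omega)⟩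
  · exact mem_centralizer_singleton_iff.1 ((cs_le fun l hl => mem_centralizer_singleton_iff.2
      ((l2 _ _).symm.trans ((o.eq (s2 l hl).2.2).trans (l2 _ _))) : cs y D.LR ≤ centralizer {y 2}) ha)
  · have := o.eq s5
    rw [lw_append, lw_cons, lw_append] at this
    have e : y 2 = ⁅lw y u, lw y v⁆ := by rw [commutatorElement_def, this]; group
    show y 2 ∈ _
    rw [e]
    exact commutator_mem_commutator (mem_sub s3) (mem_sub s4)
  · exact cs_le fun l hl => subset_closure ⟨mem_cs y hl, (l2 l l).symm.trans (o.eq (s2 l hl).2.1)⟩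
  · obtain ⟨cl, q, lv⟩ := al ha
    simp only [scQ, band_eq_true, bor_eq_true] at q
    rcases q.2 with q | q | q
    · exact Or.inl (by simpa only [l4, update_self, lw_nil] using lv.or.eq q)
    · exact absurd ((lw_rep 0 8).trans (by rw [update_self, e, lw_nil])) (lv.or.ne q)
    · obtain ⟨i, hi, τ, hτ, e⟩ := look_spec lv h0 (fun i hi => hR i (by omega)) q
      rw [l4, update_self] at e
      obtain ⟨j, hj, k⟩ := cj (by omega) hτ e
      exact Or.inr ⟨j, hj, by rwa [t1 hi] at k⟩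
  · have := o.cj (u := [39]) (a := [2]) (v := [2, 38, 38, 38, 38]) s12
    rwa [l1, l1, lw_cons, l4] at this

theorem eqns_SHS2 : True := by
  have := @scQ.eq_1
  have := @scA.eq_1
  have := @cls.eq_1
  have := @ceD.eq_1
  trivial

end H36.SV.SHS
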