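import Mathlib
import Cfsg.Agent.Lib.StdV.XG
import Cfsg.Agent.Lib.StdV.ONB

/-! The Sylow 2-subgroup of `ON.2`. -/

set_option autoImplicit false

namespace H36.SV

open Subgroup H54 Function
open H92.SW (cs mem_cs cs_le lw_nil lw_one lw_cons)
open scoped commutatorElement

namespace SON

variable {X Ω : Type} [Group X] [MulAction X Ω] {D : Dt} {J : Subgroup X} {y : ℕ → X}
  {ew nw : List ℕ → List ℕ → Bool} {pt : ℕ → Ω}

/-- an even word without the letter `0` -/
noncomputable def ok (EM : ℕ) (u : List ℕ) : Bool := band (allL (Nat.ble 1) u) (Nat.beq (pw EM u) 0)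

noncomputable def ci1 (EM : ℕ) (ew : List ℕ → List ℕ → Bool) (L : List (List ℕ × List ℕ × List (List ℕ))) :
    Bool :=
  allL (fun e => band (ok EM e.1) (band (ok EM e.2.1) (band (ew (e.2.1 ++ [1]) (e.1 ++ e.2.1))
    (allL (ok EM) e.2.2)))) L

noncomputable def ci2 (D : Dt) (L : List (List ℕ × List ℕ × List (List ℕ))) : Bool :=
  allW D.cT D.tT.get D.chT fun cl => bor (D.nT cl [0, 0] []) (bor (D.eT cl [0] [])
    (anyL (fun e => anyL (fun u => D.eT cl (u ++ e.1) ([0] ++ u)) e.2.2) L))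

noncomputable def co (D : Dt) (L : List (List ℕ)) : Bool :=
  band (allL (fun u => band (ok D.EM u) (allL (tb D.VT) u)) L)
    (allW D.cT D.tT.get D.chT fun cl => bor (D.nT cl [0, 5, 0, 5] [])
      (anyL (fun u => D.eT cl (u ++ [5]) ([0, 5] ++ u)) L))

theorem eqns_SON : True := by
  have := @ok.eq_1
  have := @ci1.eq_1
  have := @ci2.eq_1
  have := @co.eq_1
  trivial

theorem card_cj [Finite X] {S : Subgroup X} {u a : X} (hu : u ∈ S) :
    Nat.card (S ⊓ centralizer {u * a * u⁻¹} : Subgroup X) ≤ Nat.card (S ⊓ centralizer {a} : Subgroup X) := by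
  refine Nat.card_le_card_of_injective (fun g => ⟨u⁻¹ * g * u, S.mul_mem (S.mul_mem (S.inv_mem hu) g.2.1) hu,
    mem_centralizer_singleton_iff.2 ?_⟩) fun g g' e => Subtype.ext ?_
  · have := mem_centralizer_singleton_iff.1 g.2.2
    calc u⁻¹ * g * u * a = u⁻¹ * (g * (u * a * u⁻¹)) * u := by group
      _ = _ := by rw [this]; group
  · have : u⁻¹ * g * u = u⁻¹ * g' * u := congrArg Subtype.val e
    simpa using this

variable (m : Mo D J y ew nw pt)
include m

theorem ok_spec {u : List ℕ} (e : ok D.EM u = true) : 0 ∉ u ∧ lw y u ∈ J := by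
  rw [ok, band_eq_true, allL_iff] at e
  exact ⟨fun h => Bool.noConfusion (e.1 0 h), m.toBs.mem e.2⟩

omit m in
theorem T_le : cs y D.LT ≤ cs y (5 :: D.LT) := cs_le fun _ hl => mem_cs y (List.mem_cons_of_mem _ hl)

theorem inv {L : List (List ℕ × List ℕ × List (List ℕ))} (e1 : ci1 D.EM ew L = true) (e2 : ci2 D L = true)
    {a : X} (ha : a ∈ cs y D.LT) (a2 : a * a = 1) : a = 1 ∨ ∃ j ∈ J, j * y 1 * j⁻¹ = a := by
  obtain ⟨cl, e, m'⟩ := m.lT.all m.gT T_le e2 ha
  rw [bor_eq_true, bor_eq_true, anyL_iff] at e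
  rcases e with e | e | ⟨q, hq, e⟩
  · refine absurd ?_ (m'.or.ne e)
    rw [lw_cons, lw_one, update_self, a2, lw_nil]
  · have := m'.or.eq e
    rw [lw_one, update_self, lw_nil] at this
    exact .inl this
  · obtain ⟨u, hu, e⟩ := (anyL_iff _ _).1 e
    have k := (allL_iff _ _).1 e1 q hq
    rw [band_eq_true, band_eq_true, band_eq_true, allL_iff] at k
    obtain ⟨k1, k2, k3, k4⟩ := k
    have h1 := m'.or.cj e
    rw [lw_upd (ok_spec m k1).1, lw_upd (ok_spec m (k4 u hu)).1, lw_one, update_self] at h1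
    have h2 := m.or.cj k3
    rw [lw_one] at h2
    refine .inr ⟨lw y u * lw y q.2.1, mul_mem (ok_spec m (k4 u hu)).2 (ok_spec m k2).2, ?_⟩
    rw [← h1, ← h2]; group

theorem out {L : List (List ℕ)} (e : co D L = true) (h5 : y 5 ∉ J) (h2 : y 5 * y 5 = 1) {x : X}
    (hx : x ∈ cs y (5 :: D.LT)) (hJ : x ∉ J) (x2 : x * x = 1) :
    ∃ j ∈ J, j ∈ cs y (5 :: D.LT) ∧ j * y 5 * j⁻¹ = x := by
  rw [co, band_eq_true, allL_iff] at e
  have ha : x * y 5 ∈ cs y D.LT :=
    m.eT ▸ ⟨mul_mem hx (mem_cs y List.mem_cons_self), m.toBs.sq _ hJ _ h5⟩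
  have ex : x * y 5 * y 5 = x := by rw [mul_assoc, h2, mul_one]
  obtain ⟨cl, e2, m'⟩ := m.lT.all m.gT T_le e.2 ha
  rw [bor_eq_true, anyL_iff] at e2
  rcases e2 with e2 | ⟨u, hu, e2⟩
  · refine absurd ?_ (m'.or.ne e2)
    rw [lw_cons, lw_cons, lw_cons, lw_one, update_self, update_of_ne (by decide), lw_nil, ex, ← mul_assoc, ex, x2]
  · have k := (band_eq_true _ _).1 (e.1 u hu)
    have h1 := m'.or.cj e2
    rw [lw_upd (ok_spec m k.1).1, lw_one, lw_cons, lw_one, update_self, update_of_ne (by decide), ex] at h1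
    exact ⟨_, (ok_spec m k.1).2, m.lT.memw k.2, h1⟩

end SON

namespace ON

/-- the involutions of `T`: representative, conjugator from `z`, conjugators in `T` -/
def sonI : List (List ℕ × List ℕ × List (List ℕ)) :=
  [([27, 27], [74, 72, 65, 74, 76, 70, 72, 74, 70, 72, 65, 74], [[], [10], [11], [100]]), ([36], [74, 76, 72,
   74], [[], [10], [11], [12], [26], [27], [42], [96], [97], [98], [99], [100], [101], [10, 12], [10, 26],
   [10, 27], [10, 42], [10, 97], [10, 98], [11, 10], [11, 26], [11, 27], [11, 42], [11, 97], [11, 99], [11,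
   100], [12, 10], [12, 97], [12, 101], [27, 11], [27, 12], [28, 98]]), ([103], [72, 74, 64, 68, 70, 72, 74,
   64, 64, 68, 70, 72, 74, 70, 64, 72, 74], [[], [10], [12], [26], [27], [36], [42], [97], [98], [99], [100],
   [102], [10, 26], [10, 42], [11, 100], [26, 27]]), ([11], [68, 65, 74, 65, 70, 72, 74, 68, 70, 64, 72, 74,
   70, 72, 70, 72, 74], [[], [10], [12], [26], [27], [97], [98], [99], [101], [102], [10, 12], [10, 26], [10,
   27], [10, 97], [26, 12], [42, 97]]), ([99, 11], [70, 68, 65, 72, 74, 65, 70, 72, 68, 70, 72, 74, 64, 74,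
   72, 70, 72, 74], [[], [10], [11], [12], [26], [28], [36], [42], [97], [100], [101], [103], [10, 12], [10,
   26], [10, 42], [10, 97]]), ([30], [68, 64, 68, 70, 68, 72, 70, 68, 64, 72, 74, 70, 72, 65, 74, 76, 68, 70,
   72, 74, 70, 72, 65, 74], [[], [12]]), ([1], [], [[]])]

/-- conjugators from `φ` to the outer involutions -/
def sonO : List (List ℕ) :=
  [[], [10], [11], [12], [26], [27], [28], [36], [42], [96], [97], [98], [99], [100], [101], [102], [103],
   [10, 11], [10, 12], [10, 26], [10, 27], [10, 42], [10, 96], [10, 97], [10, 98], [10, 101], [10, 102], [10,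
   103], [11, 10], [11, 12], [11, 26], [11, 27], [11, 28], [11, 42], [11, 96], [11, 97], [11, 98], [11, 99],
   [11, 100], [11, 101], [11, 102], [11, 103], [12, 26], [12, 97], [12, 100], [26, 27], [26, 98], [27, 11],
   [27, 28], [27, 36], [27, 96], [27, 100], [27, 101], [27, 102], [28, 98], [28, 99], [28, 100], [28, 101],
   [28, 102], [36, 42], [96, 99], [100, 12], [103, 97], [10, 27, 102]]

theorem son1 : SON.ci1 D.EM ew sonI = true := by decide +kernel
theorem son2 : SON.ci2 D sonI = true := by decide +kernel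
theorem son3 : SON.co D sonO = true := by decide +kernel
theorem son4 : cntC D.cT D.VT D.tT.get D.chS [5] 16 = true := by decide +kernel
theorem son5 : srch D.cT D.VT D.tT.get D.chS [([10], [10]), ([11], [11]), ([12], [12])]
    (fun cl => anyL (fun u => ewL D.cT D.VT D.chS cl u [0]) [[], [1]]) = true := by decide +kernel
theorem son6 : allL (fun l => D.eT D.tT.get [l, l] []) [2, 5, 10, 11, 12] = true := by decide +kernel
theorem son7 : allL (fun l => D.eT D.tT.get ([l] ++ [2]) ([2] ++ [l])) [5, 10, 11, 12] = true := by decide +kernel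
theorem son8 : band (D.eT D.tT.get [11, 12] [2, 12, 11]) (band (D.eT D.tT.get [1] [2])
    (band (D.nT D.tT.get [2] []) (Nat.beq (D.chT.size D.cT.n) 512))) = true := by decide +kernel

theorem sy : Sy F := by
  have i2 : ∀ l ∈ [2, 5, 10, 11, 12], y l * y l = 1 := fun l hl => by
    have := mo.lT.or.eq ((allL_iff _ _).1 son6 l hl)
    rwa [lw_cons, lw_one, lw_nil] at this
  have c2 : ∀ l ∈ [5, 10, 11, 12], y l * y 2 = y 2 * y l := fun l hl => by
    have := mo.lT.or.cm ((allL_iff _ _).1 son7 l hl)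
    rwa [lw_one, lw_one] at this
  have e8 := son8
  rw [band_eq_true, band_eq_true, band_eq_true, Nat.beq_eq] at e8
  obtain ⟨e1, e2, e3, e4⟩ := e8
  have h5 : y 5 ∉ J := lw_one (lt := y) 5 ▸ mo.toBs.nmem (v := [5]) (by decide +kernel)
  have eT : F.T = cs y [10, 11, 12] := mo.eT
  have eR : F.R = cs y [10, 11, 12] := rfl
  have gen : cs y [10, 11, 12] ≤ closure {a | a ∈ cs y [10, 11, 12] ∧ a * a = 1} :=
    cs_le fun l hl => subset_closure ⟨mem_cs y hl, i2 l (List.mem_cons_of_mem _ (List.mem_cons_of_mem _ hl))⟩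
  refine ⟨fun a ha h => ?_, eT ▸ gen, fun a ha a2 => ?_, fun x hx hJ x2 => ?_, eT.ge, fun a ha => ?_, ?_,
    i2 2 (by decide), ?_, gen, ?_, ⟨y 5, mem_cs y List.mem_cons_self, h5, c2 5 (by decide)⟩, .inl ⟨1, one_mem _, ?_⟩⟩
  · obtain ⟨u, hu, k⟩ := mo.lT.srchU mo.lT.gd le_rfl son5 (by decide) ha fun q hq => by
      have : ∀ l ∈ [10, 11, 12], a * lw y [l] = lw y [l] * a := fun l hl => by
        rw [lw_one]; exact h _ (eT ▸ mem_cs y hl)
      simp only [List.mem_cons, List.not_mem_nil, or_false] at hq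
      rcases hq with rfl | rfl | rfl <;> exact this _ (by decide)
    rw [mem_bot, inv_mul_eq_one] at k
    simp only [List.mem_cons, List.not_mem_nil, or_false] at hu
    rcases hu with rfl | rfl
    exacts [.inl k.symm, .inr (k.symm.trans (lw_one 1))]
  · exact (SON.inv mo son1 son2 (eT ▸ ha) a2).imp_right .inl
  · obtain ⟨j, hj, hj', rfl⟩ := SON.out mo son3 h5 (i2 5 (by decide)) hx hJ x2
    refine .inl ⟨⟨j, hj, rfl⟩, (SON.card_cj hj').trans ?_⟩
    have := mo.lT.toLr.cnt mo.lT.gd son4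
    rwa [lw_one] at this
  · exact mem_centralizer_singleton_iff.1 (cs_le (H := centralizer {y 2}) (fun l hl =>
      mem_centralizer_singleton_iff.2 (c2 l (List.mem_cons_of_mem _ hl))) ha)
  · have := mo.lT.or.eq e1
    rw [lw_cons, lw_one, lw_cons, lw_cons, lw_one] at this
    have e : F.b = ⁅y 11, y 12⁆ := by
      rw [commutatorElement_def, this]
      show y 2 = _
      group
    rw [e]
    exact commutator_mem_commutator (mem_cs y (by decide)) (mem_cs y (by decide))
  · have := mo.lT.or.ne e3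
    rwa [lw_one, lw_nil] at this
  · have := mo.gT.card_bot.trans e4
    exact this ▸ (by norm_num : 4 < 512)
  · have := mo.lT.or.eq e2
    rw [lw_one, lw_one] at this
    rw [one_mul, inv_one, mul_one]
    exact this

end ON

end H36.SV
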